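import Cfsg.Agent.H47.DP.Tv

/-!
# S4612: the tests with transvections and with products of two reflections (helper47)
-/

set_option autoImplicit false
set_option linter.unusedSectionVars false

open Cfsg

namespace Cfsg.Agent.H47.DP

open Cfsg.Agent.H477.HC Cfsg.Agent.H477.HC.CForm Cfsg.Agent.H53.HC Module
open Polynomial

universe u v w

variable {K : Type u} [Field K] {V : Type v} [AddCommGroup V] [Module K V] [FiniteDimensional K V] {F : CForm K V}

/-- the permutations of the totally singular subspaces of dimension `m` -/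
noncomputable def omHom (F : CForm K V) (m : ℕ) : F.iso →* Equiv.Perm (F.Om m) :=
  @MulAction.toPermHom F.iso (F.Om m) _ (subAct F.iso.subtype (F.Om m) F.Om_map)

theorem omHom_val {m : ℕ} (g : F.iso) (M : F.Om m) :
    (omHom F m g M).1 = M.1.map (F.iso.subtype g : V →ₗ[K] V) := rfl

/-- `S` is a quotient of the subgroup `N` of the isometry group, acting on the maximal subspaces -/
structure Act (F : CForm K V) (m : ℕ) {S : Type w} [Group S] [MulAction S (F.Om m)] (N : Subgroup F.iso)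
    (φ : N →* S) : Prop where
  surj : Function.Surjective φ
  perm : ∀ n : N, MulAction.toPerm (φ n) = omHom F m n

theorem adj_map {m : ℕ} (g : F.iso) (M N : F.Om m) :
    Adj m (omHom F m g M).1 (omHom F m g N).1 ↔ Adj m M.1 N.1 := by
  unfold Adj
  have hinj : Function.Injective (F.iso.subtype g : V →ₗ[K] V) := (g : V ≃ₗ[K] V).injective
  rw [omHom_val, omHom_val, ← Submodule.map_inf _ hinj]
  have : finrank K ((M.1 ⊓ N.1 : Submodule K V).map (F.iso.subtype g : V →ₗ[K] V)) = finrank K (M.1 ⊓ N.1 : Submodule K V) :=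
    LinearEquiv.finrank_map_eq (g : V ≃ₗ[K] V) _
  rw [this]

theorem Act.adj {m : ℕ} {S : Type w} [Group S] [MulAction S (F.Om m)] {N : Subgroup F.iso} {φ : N →* S}
    (h : Act F m N φ) (s : S) (M M' : F.Om m) : Adj m (s • M).1 (s • M').1 ↔ Adj m M.1 M'.1 := by
  obtain ⟨n, rfl⟩ := h.surj s
  have e : ∀ M : F.Om m, φ n • M = omHom F m n M := fun M => by rw [← h.perm]; rfl
  rw [e, e, adj_map]

variable {m E : ℕ} {κ τ : K}

variable [Finite V] [Finite K] [Fintype (F.Om m)] [Fintype (Sv F τ)]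

open scoped Classical in
theorem tv_matrix (hP : Pol F m E) (hκ : κ ≠ 0) (hT : F.T (-κ⁻¹) = τ) {g : Sv F τ → F.iso}
    (hg : ∀ v x, (g v : V ≃ₗ[K] V) x = tv F κ v x) (M N : F.Om m) :
    (Nat.card {v : Sv F τ // omHom F m (g v) N = M} : ℤ) =
      ((Fintype.card (Sv F τ) : ℤ) - ((Nat.card K - 1) * Nat.card K ^ (m - 1) : ℕ) * th (Nat.card K) m E 0) *
        (if M = N then 1 else 0) + ((Nat.card K - 1) * Nat.card K ^ (m - 1) : ℕ) * adjm F m M N := by
  have hval : ∀ (v : Sv F τ) (M N : F.Om m), omHom F m (g v) N = M ↔ N.1.map (tv F κ v) = M.1 := by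
    intro v M N
    rw [Subtype.ext_iff, omHom_val]
    have : (F.iso.subtype (g v) : V →ₗ[K] V) = tv F κ v := LinearMap.ext fun x => hg v x
    rw [this]
  -- off the diagonal
  have hoff : ∀ M N : F.Om m, M ≠ N → (Nat.card {v : Sv F τ // omHom F m (g v) N = M} : ℤ) =
      ((Nat.card K - 1) * Nat.card K ^ (m - 1) : ℕ) * adjm F m M N := by
    intro M N hne
    by_cases hadj : Adj m M.1 N.1
    · have h1 := card_adj hP hκ hT (fun v hv => ⟨g ⟨v, hv⟩, hg ⟨v, hv⟩⟩) N.2 M.2 hadj.symm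
      have h2 : Nat.card {v : Sv F τ // omHom F m (g v) N = M} =
          Nat.card {v : V // v ∈ Sv F τ ∧ N.1.map (tv F κ v) = M.1} := by
        refine Nat.card_congr ((Equiv.subtypeEquivRight fun v => hval v M N).trans
          (Equiv.subtypeSubtypeEquivSubtypeInter (fun v => v ∈ Sv F τ) fun v => N.1.map (tv F κ v) = M.1))
      rw [h2, h1]
      unfold adjm
      rw [if_pos hadj, mul_one]
    · unfold adjm
      rw [if_neg hadj, mul_zero]
      have : Nat.card {v : Sv F τ // omHom F m (g v) N = M} = 0 := by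
        refine @Nat.card_of_isEmpty _ ⟨fun v => hadj ?_⟩
        exact (adj_of_map N.2 M.2 ((hval v.1 M N).1 v.2) fun h => hne (Subtype.ext h.symm)).symm
      rw [this, Nat.cast_zero]
  by_cases hMN : M = N
  · subst hMN
    rw [if_pos rfl, mul_one]
    have hself : adjm F m M M = 0 := by
      unfold adjm
      rw [if_neg fun h => h.ne M.2.2 rfl]
    rw [hself, mul_zero, add_zero]
    have htot : ∑ N : F.Om m, (Nat.card {v : Sv F τ // omHom F m (g v) N = M} : ℤ) = Fintype.card (Sv F τ) := by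
      have h3 : ∀ N : F.Om m, (Nat.card {v : Sv F τ // omHom F m (g v) N = M} : ℤ) =
          ∑ v : Sv F τ, if omHom F m (g v) N = M then 1 else 0 := by
        intro N
        rw [Nat.card_eq_fintype_card, Fintype.card_subtype, Finset.card_filter, Nat.cast_sum]
        exact Finset.sum_congr rfl fun v _ => by split_ifs <;> simp
      simp only [h3]
      rw [Finset.sum_comm]
      have h4 : ∀ v : Sv F τ, (∑ N : F.Om m, if omHom F m (g v) N = M then (1 : ℤ) else 0) = 1 := by
        intro v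
        rw [Finset.sum_eq_single ((omHom F m (g v)).symm M)]
        · rw [if_pos (Equiv.apply_symm_apply _ _)]
        · intro N _ hN
          rw [if_neg]
          rintro rfl
          exact hN (Equiv.symm_apply_apply _ _).symm
        · intro h'; exact absurd (Finset.mem_univ _) h'
      simp only [h4]
      rw [Finset.sum_const, Finset.card_univ]
      simp
    rw [← Finset.add_sum_erase _ _ (Finset.mem_univ M)] at htot
    have h5 : ∑ N ∈ Finset.univ.erase M, (Nat.card {v : Sv F τ // omHom F m (g v) N = M} : ℤ) =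
        ((Nat.card K - 1) * Nat.card K ^ (m - 1) : ℕ) * th (Nat.card K) m E 0 := by
      rw [Finset.sum_congr rfl fun N hN => hoff M N (Finset.ne_of_mem_erase hN).symm, ← Finset.mul_sum, ← op_one hP M,
        ← Finset.add_sum_erase _ _ (Finset.mem_univ M), hself, zero_add]
    rw [h5] at htot
    linear_combination htot
  · rw [if_neg hMN, mul_zero, zero_add, hoff M N hMN]

/-- the constant term -/
noncomputable def aT (F : CForm K V) (m E : ℕ) (τ : K) [Fintype (Sv F τ)] : ℤ :=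
  (Fintype.card (Sv F τ) : ℤ) - ((Nat.card K - 1) * Nat.card K ^ (m - 1) : ℕ) * th (Nat.card K) m E 0

/-- the coefficient of the adjacency operator -/
noncomputable def cT (K : Type u) (m : ℕ) : ℤ := ((Nat.card K - 1) * Nat.card K ^ (m - 1) : ℕ)

theorem tv_op (hP : Pol F m E) (hκ : κ ≠ 0) (hT : F.T (-κ⁻¹) = τ) {g : Sv F τ → F.iso}
    (hg : ∀ v x, (g v : V ≃ₗ[K] V) x = tv F κ v x) :
    ∑ v, permOp (omHom F m (g v)) =
      aeval (op (adjm F m)) ((C (aT F m E τ) + C (cT K m) * Polynomial.X : ℤ[X]).map (Int.castRingHom ℂ)) := by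
  classical
  rw [← op_lin]
  exact sum_permOp _ _ fun M N => tv_matrix hP hκ hT hg M N

/-- conjugation -/
theorem tv_conj {g : Sv F τ → F.iso} (hg : ∀ v x, (g v : V ≃ₗ[K] V) x = tv F κ v x) (n : F.iso) :
    ∃ π : Equiv.Perm (Sv F τ), ∀ v, n * g v * n⁻¹ = g (π v) := by
  let f : F.iso → Sv F τ → Sv F τ := fun n v => ⟨(n : V ≃ₗ[K] V) v,
    (LinearEquiv.map_ne_zero_iff _).2 v.2.1, (F.iso_Q n v).trans v.2.2⟩
  refine ⟨⟨f n, f n⁻¹, fun v => Subtype.ext ?_, fun v => Subtype.ext ?_⟩, fun v => ?_⟩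
  · exact (n : V ≃ₗ[K] V).symm_apply_apply v
  · exact (n : V ≃ₗ[K] V).apply_symm_apply v
  · apply Subtype.ext
    apply LinearEquiv.ext
    intro x
    change (n : V ≃ₗ[K] V) ((g v : V ≃ₗ[K] V) ((n : V ≃ₗ[K] V).symm x)) = (g (f n v) : V ≃ₗ[K] V) x
    rw [hg, hg, tv_apply, tv_apply, map_add, map_smul, LinearEquiv.apply_symm_apply]
    congr 2
    congr 1
    change F.B _ _ = F.B x ((n : V ≃ₗ[K] V) v)
    rw [← F.iso_B n, LinearEquiv.apply_symm_apply]

section tests

variable {S : Type w} [Group S] [Fintype S] [MulAction S (F.Om m)] {N : Subgroup F.iso} {φ : N →* S}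

/-- **test with transvections** -/
theorem sep_tv (hP : Pol F m E) (hA : Act F m N φ) (hκ : κ ≠ 0) (hT : F.T (-κ⁻¹) = τ)
    (hg : ∀ v ∈ Sv F τ, ∃ g : F.iso, g ∈ N ∧ ∀ x, (g : V ≃ₗ[K] V) x = tv F κ v x) {q : ℕ} {a b : ℤ}
    (hq : ¬ (q : ℤ) ∣ cT K m * (a - b)) : Sep q (fnRep S (F.Om m)) (op (adjm F m)) a b := by
  choose g hgN hg using fun v : Sv F τ => hg v v.2
  refine sep_of_fam (s := fun v : Sv F τ => φ ⟨g v, hgN v⟩) (fun s => ?_)
    (C (aT F m E τ) + C (cT K m) * Polynomial.X) ?_ ?_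
  · obtain ⟨n, rfl⟩ := hA.surj s
    obtain ⟨π, hπ⟩ := tv_conj hg (n : F.iso)
    refine ⟨π, fun v => ?_⟩
    rw [← map_mul, ← map_inv, ← map_mul]
    congr 1
    exact Subtype.ext (hπ v)
  · rw [← tv_op hP hκ hT hg]
    refine Finset.sum_congr rfl fun v _ => ?_
    rw [fnRep_eq_permOp, hA.perm]
  · simp only [eval_add, eval_C, eval_mul, eval_X]
    have : aT F m E τ + cT K m * a - (aT F m E τ + cT K m * b) = cT K m * (a - b) := by ring
    rwa [this]

/-- **test with products of two reflections** -/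
theorem sep_sq (hP : Pol F m E) (hA : Act F m N φ) (hκ : κ ≠ 0) (hT : F.T (-κ⁻¹) = τ)
    (hg : ∀ v ∈ Sv F τ, ∃ g : F.iso, ∀ x, (g : V ≃ₗ[K] V) x = tv F κ v x)
    (hN : ∀ v ∈ Sv F τ, ∀ w ∈ Sv F τ, ∀ g g' : F.iso, (∀ x, (g : V ≃ₗ[K] V) x = tv F κ v x) →
      (∀ x, (g' : V ≃ₗ[K] V) x = tv F κ w x) → g * g' ∈ N) {q : ℕ} {a b : ℤ}
    (hq : ¬ (q : ℤ) ∣ cT K m * ((a - b) * (2 * aT F m E τ + cT K m * (a + b)))) :
    Sep q (fnRep S (F.Om m)) (op (adjm F m)) a b := by
  choose g hg using fun v : Sv F τ => hg v v.2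
  have hgN : ∀ v w : Sv F τ, g v * g w ∈ N := fun v w => hN v v.2 w w.2 _ _ (hg v) (hg w)
  refine sep_of_fam (s := fun v : Sv F τ × Sv F τ => φ ⟨g v.1 * g v.2, hgN v.1 v.2⟩) (fun s => ?_)
    ((C (aT F m E τ) + C (cT K m) * Polynomial.X) ^ 2) ?_ ?_
  · obtain ⟨n, rfl⟩ := hA.surj s
    obtain ⟨π, hπ⟩ := tv_conj hg (n : F.iso)
    refine ⟨Equiv.prodCongr π π, fun v => ?_⟩
    rw [← map_mul, ← map_inv, ← map_mul]
    congr 1
    apply Subtype.ext
    change (n : F.iso) * (g v.1 * g v.2) * (n : F.iso)⁻¹ = g (π v.1) * g (π v.2)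
    rw [← hπ, ← hπ]
    group
  · rw [Polynomial.map_pow, map_pow, ← tv_op hP hκ hT hg, sq, Finset.sum_mul_sum, ← Finset.sum_product']
    refine Finset.sum_congr rfl fun v _ => ?_
    rw [fnRep_eq_permOp, hA.perm, ← permOp_mul, ← map_mul]
  · simp only [eval_add, eval_C, eval_mul, eval_X, eval_pow]
    have : (aT F m E τ + cT K m * a) ^ 2 - (aT F m E τ + cT K m * b) ^ 2 =
        cT K m * ((a - b) * (2 * aT F m E τ + cT K m * (a + b))) := by ring
    rwa [this]

end tests

end Cfsg.Agent.H47.DP
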