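import Cfsg.Agent.H47.DP.Alg

/-!
# S4612: the Hecke test on functions on a finite `G`-set (helper47)
-/

set_option autoImplicit false
set_option linter.unusedSectionVars false

open Cfsg Cfsg.Agent

namespace Cfsg.Agent.H47.DP

open Cfsg.Agent.H317.PQ Cfsg.Agent.Blocks.Osima Cfsg.Agent.Blocks.Central Cfsg.Agent.Blocks.LocalRing
open Polynomial

universe u v

section

variable {p q : ℕ} {G : Type u} [Group G] {X : Type v} [MulAction G X]

/-- the functions on `X` -/
noncomputable def fnRep (G : Type u) [Group G] (X : Type v) [MulAction G X] : Representation ℂ G (X → ℂ) where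
  toFun g := LinearMap.funLeft ℂ ℂ (fun x => g⁻¹ • x)
  map_one' := by
    refine LinearMap.ext fun f => funext fun x => ?_
    change f ((1 : G)⁻¹ • x) = f x
    rw [inv_one, one_smul]
  map_mul' g h := by
    refine LinearMap.ext fun f => funext fun x => ?_
    change f ((g * h)⁻¹ • x) = f (h⁻¹ • g⁻¹ • x)
    rw [mul_inv_rev, mul_smul]

theorem fnRep_apply (g : G) (f : X → ℂ) (x : X) : fnRep G X g f x = f (g⁻¹ • x) := rfl

variable [Fintype X]

/-- the operator of an integral matrix -/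
noncomputable def op (a : X → X → ℤ) : Module.End ℂ (X → ℂ) where
  toFun f := fun x => ∑ y, (a x y : ℂ) * f y
  map_add' f g := by
    funext x
    simp only [Pi.add_apply, mul_add, Finset.sum_add_distrib]
  map_smul' c f := by
    funext x
    simp only [Pi.smul_apply, smul_eq_mul, RingHom.id_apply, Finset.mul_sum]
    exact Finset.sum_congr rfl fun y _ => by ring

theorem op_apply (a : X → X → ℤ) (f : X → ℂ) (x : X) : op a f x = ∑ y, (a x y : ℂ) * f y := rfl

theorem commute_op {a : X → X → ℤ} (ha : ∀ (g : G) (x y : X), a (g • x) (g • y) = a x y) (g : G) :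
    Commute (op a) (fnRep G X g) := by
  refine LinearMap.ext fun f => funext fun x => ?_
  change op a (fnRep G X g f) x = fnRep G X g (op a f) x
  rw [op_apply, fnRep_apply, op_apply]
  refine Fintype.sum_equiv (MulAction.toPerm g⁻¹) _ _ fun y => ?_
  rw [fnRep_apply, MulAction.toPerm_apply, ha]

variable [Fintype G]

theorem asAlgebraHom_fn (z : MonoidAlgebra ℂ G) (f : X → ℂ) (x : X) :
    (fnRep G X).asAlgebraHom z f x = ∑ g : G, z.coeff g * f (g⁻¹ • x) := by
  classical
  induction z using MonoidAlgebra.induction_linear with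
  | zero => simp
  | add a b ha hb =>
    rw [map_add, LinearMap.add_apply, Pi.add_apply, ha, hb, ← Finset.sum_add_distrib]
    refine Finset.sum_congr rfl fun g _ => ?_
    rw [MonoidAlgebra.coeff_add, Finsupp.add_apply, add_mul]
  | single h c =>
    rw [Representation.asAlgebraHom_single, LinearMap.smul_apply, Pi.smul_apply, fnRep_apply, smul_eq_mul]
    rw [Finset.sum_eq_single h]
    · rw [MonoidAlgebra.coeff_single, Finsupp.single_apply, if_pos rfl]
    · intro g _ hg
      rw [MonoidAlgebra.coeff_single, Finsupp.single_apply, if_neg hg.symm, zero_mul]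
    · intro h'; exact absurd (Finset.mem_univ _) h'

/-- integral functions at `M` -/
def Loc (M : Ideal AlgInt) (f : X → ℂ) : Prop := ∀ x, MemLocalRing M (f x)

theorem loc_op {M : Ideal AlgInt} (hM : IsPModular p M) (a : X → X → ℤ) {f : X → ℂ} (hf : Loc M f) :
    Loc M (op a f) := fun x => by
  rw [op_apply]
  exact memLocalRing_sum hM _ _ fun y _ => memLocalRing_mul hM (memLocalRing_intCast hM _) (hf y)

theorem loc_prod {M : Ideal AlgInt} (hM : IsPModular p M) (a : X → X → ℤ) (θ : ℕ → ℤ) (K : Finset ℕ) {f : X → ℂ}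
    (hf : Loc M f) : Loc M (aeval (op a) (∏ j ∈ K, (Polynomial.X - C (θ j : ℂ))) f) := by
  classical
  induction K using Finset.induction_on with
  | empty => simpa using hf
  | insert j K hj ih =>
    rw [Finset.prod_insert hj, map_mul, Module.End.mul_apply, map_sub, aeval_X, aeval_C, LinearMap.sub_apply,
      Module.algebraMap_end_apply]
    intro x
    rw [Pi.sub_apply, Pi.smul_apply, smul_eq_mul]
    exact memLocalRing_sub hM (loc_op hM a ih x) (memLocalRing_mul hM (memLocalRing_intCast hM _) (ih x))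

theorem loc_alg {M : Ideal AlgInt} (hM : IsPModular p M) {f : X → ℂ} (hf : Loc M f) {z : MonoidAlgebra ℂ G}
    (hz : ∀ g, MemLocalRing M (z.coeff g)) : Loc M ((fnRep G X).asAlgebraHom z f) := fun x => by
  rw [asAlgebraHom_fn]
  exact memLocalRing_sum hM _ _ fun g _ => memLocalRing_mul hM (hz g) (hf _)

theorem B0_coeff (hp : p.Prime) {M : Ideal AlgInt} (hM : IsPModular p M) (g : G) :
    MemLocalRing M ((irrIdem (B0 p G)).coeff g) := by
  have : Fact p.Prime := ⟨hp⟩
  rw [coeff_irrIdem, B0_eq hp hM]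
  exact memLocalRing_blockCoeff hM Cfsg.Agent.Blocks.PrincipalSection.isPBlock_principalBlock g

/-- a rational number which is a local integer -/
theorem dvd_of_local {M : Ideal AlgInt} (hM : IsPModular p M) {n m : ℤ} {k : ℕ} (hm : m ≠ 0)
    (h : MemLocalRing M ((n : ℂ) / (m : ℂ))) (hk : (p : ℤ) ^ k ∣ m) : (p : ℤ) ^ k ∣ n := by
  have hp : p.Prime := prime hM
  obtain ⟨m', rfl⟩ := hk
  have hpz : (p : ℤ) ≠ 0 := by exact_mod_cast hp.ne_zero
  rcases eq_or_ne n 0 with rfl | hn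
  · exact dvd_zero _
  by_contra hcon
  obtain ⟨j, a, ha, rfl⟩ : ∃ (j : ℕ) (a : ℤ), ¬ (p : ℤ) ∣ a ∧ n = (p : ℤ) ^ j * a :=
    (Int.finiteMultiplicity_iff.2 ⟨by simpa using hp.one_lt.ne', hn⟩).exists_eq_pow_mul_and_not_dvd.elim
      fun a h => ⟨_, a, h.2, h.1⟩
  have hjk : j < k := by
    by_contra hjk
    exact hcon ((pow_dvd_pow _ (not_lt.1 hjk)).mul_right a)
  obtain ⟨i, rfl⟩ : ∃ i, k = j + 1 + i := ⟨k - (j + 1), by omega⟩
  have hp0 : (p : ℂ) ≠ 0 := by exact_mod_cast hp.ne_zero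
  have hm' : (m' : ℂ) ≠ 0 := by
    intro h0
    apply hm
    rw [Int.cast_eq_zero.1 h0, mul_zero]
  apply ha
  rw [← memLocalIdeal_intCast_iff hM]
  have e1 : (a : ℂ) = ((((p : ℤ) ^ j * a : ℤ) : ℂ) / (((p : ℤ) ^ (j + 1 + i) * m' : ℤ) : ℂ)) * (((p : ℤ) ^ i * m' : ℤ) : ℂ) * (p : ℂ) := by
    push_cast
    rw [eq_comm, div_mul_eq_mul_div, div_mul_eq_mul_div, div_eq_iff (mul_ne_zero (pow_ne_zero _ hp0) hm')]
    ring
  rw [e1]
  exact memLocalIdeal_mul_left hM (memLocalRing_mul hM h (memLocalRing_intCast hM _)) (memLocalIdeal_prime hM)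

/-- **the Hecke test** for functions on a `G`-set -/
theorem key_fn (hp : p.Prime) (hq : q.Prime) (hpq : B0 p G ⊆ B0 q G) [Nonempty X]
    {a : X → X → ℤ} (ha : ∀ (g : G) (x y : X), a (g • x) (g • y) = a x y) {θ : ℕ → ℤ} {b : ℤ}
    (hab : ∀ x, ∑ y, a x y = b) {v : X → ℤ} {S K : Finset ℕ} (hK : K ⊆ S) {c₀ : ℤ}
    (hv : aeval (op a) (∏ j ∈ S, (Polynomial.X - C (θ j : ℂ))) (fun x => (v x : ℂ)) = fun _ => (c₀ : ℂ))
    (hθ : ∀ j ∈ S, b ≠ θ j) (hs : ∀ j ∈ S, j ∉ K → Sep q (fnRep G X) (op a) (θ j) b)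
    {k : ℕ} (hk : (p : ℤ) ^ k ∣ ∏ j ∈ S \ K, (b - θ j)) : (p : ℤ) ^ k ∣ c₀ := by
  obtain ⟨M, hM⟩ := Cfsg.Agent.Blocks.ExistsModular.exists_isPModular hq
  obtain ⟨M', hM'⟩ := Cfsg.Agent.Blocks.ExistsModular.exists_isPModular hp
  obtain ⟨x₀⟩ := ‹Nonempty X›
  have h1 := key hp hM hpq (fnRep G X) (op a) (commute_op ha) (one := fun _ : X => (1 : ℂ))
    (v := fun x => (v x : ℂ)) (fun g => rfl) (fun h => one_ne_zero (congrFun h x₀)) (b := b)
    (by
      funext x
      rw [op_apply, Pi.smul_apply, smul_eq_mul, ← hab x, Int.cast_sum, Finset.sum_mul]) hK (c₀ := (c₀ : ℂ))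
    (by
      rw [hv]
      funext x
      rw [Pi.smul_apply, smul_eq_mul, mul_one]) hθ hs
  have h2 : Loc M' (aeval (op a) (∏ j ∈ K, (Polynomial.X - C (θ j : ℂ)))
      ((fnRep G X).asAlgebraHom (irrIdem (B0 p G)) fun x => (v x : ℂ))) :=
    loc_prod hM' a θ K (loc_alg hM' (fun x => memLocalRing_intCast hM' _) (B0_coeff hp hM'))
  have h3 := h2 x₀
  rw [h1, Pi.smul_apply, smul_eq_mul, mul_one, ← Int.cast_prod] at h3
  refine dvd_of_local hM' ?_ h3 hk
  rw [Finset.prod_ne_zero_iff]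
  intro j hj
  exact sub_ne_zero.2 (hθ j (Finset.mem_sdiff.1 hj).1)

end

end Cfsg.Agent.H47.DP
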