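import Cfsg.Agent.H47.DP.Perp
import Cfsg.Agent.H47.DP.Fn

/-!
# S4612: the dual polar graph (helper47)

`F : CForm K V` with Witt index `m`, every totally singular subspace of dimension `m - 1` lies in `E + 1` maximal ones.
`A v_U = θ_k v_U + ∑ v_U'` (`k = dim U`, `U'` the hyperplanes of `U`), `θ_k = E [m-k] - [k]`.
-/

set_option autoImplicit false
set_option linter.unusedSectionVars false

open Cfsg

namespace Cfsg.Agent.H47.DP

open Cfsg.Agent.H477.HC Cfsg.Agent.H477.HC.CForm Cfsg.Agent.H53.HC Module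

universe u v

variable {K : Type u} [Field K] {V : Type v} [AddCommGroup V] [Module K V] [FiniteDimensional K V] {F : CForm K V}

/-- adjacency -/
def Adj (m : ℕ) (M N : Submodule K V) : Prop := finrank K (M ⊓ N : Submodule K V) + 1 = m

theorem Adj.symm {m : ℕ} {M N : Submodule K V} (h : Adj m M N) : Adj m N M := by
  unfold Adj at h ⊢
  rwa [inf_comm]

theorem Adj.ne {m : ℕ} {M N : Submodule K V} (hM : finrank K M = m) (h : Adj m M N) : M ≠ N := by
  rintro rfl
  unfold Adj at h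
  rw [inf_idem] at h
  omega

/-- the data of a polar space of rank `m` -/
structure Pol (F : CForm K V) (m E : ℕ) : Prop where
  max : ∀ W : Submodule K V, F.TS W → finrank K W ≤ m
  ex : ∃ M, M ∈ F.Om m
  card : ∀ H : Submodule K V, F.TS H → finrank K H + 1 = m → Nat.card {N : F.Om m // H ≤ N.1} = E + 1

variable {m E : ℕ}

section

variable [Finite V]

theorem adj_of_ne {M N H : Submodule K V} (hM : finrank K M = m) (hN : finrank K N = m) (hH : finrank K H + 1 = m)
    (h1 : H ≤ M) (h2 : H ≤ N) (hne : M ≠ N) : M ⊓ N = H := by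
  have h3 : H ≤ M ⊓ N := le_inf h1 h2
  have h4 : finrank K (M ⊓ N : Submodule K V) < m := by
    rw [← hM]
    refine Submodule.finrank_lt_finrank_of_lt (lt_of_le_of_ne inf_le_left fun h => hne ?_)
    exact Submodule.eq_of_le_of_finrank_eq (inf_eq_left.1 h) (by rw [hM, hN])
  symm
  exact Submodule.eq_of_le_of_finrank_le h3 (by omega)

theorem card_ne (hP : Pol F m E) {M H : Submodule K V} (hM : M ∈ F.Om m) (hHM : H ≤ M) (hH : finrank K H + 1 = m) :
    Nat.card {N : F.Om m // H ≤ N.1 ∧ M ≠ N.1} = E := by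
  classical
  have := Fintype.ofFinite (F.Om m)
  have h1 := hP.card H (hM.1.mono hHM) hH
  rw [Nat.card_eq_fintype_card, Fintype.card_subtype] at h1 ⊢
  have h2 : (Finset.univ.filter fun N : F.Om m => H ≤ N.1 ∧ M ≠ N.1) =
      (Finset.univ.filter fun N : F.Om m => H ≤ N.1).erase ⟨M, hM⟩ := by
    ext N
    simp only [Finset.mem_filter, Finset.mem_univ, true_and, Finset.mem_erase, ne_eq, Subtype.ext_iff]
    constructor
    · rintro ⟨h, h'⟩
      exact ⟨fun h0 => h' h0.symm, h⟩
    · rintro ⟨h, h'⟩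
      exact ⟨h', fun h0 => h h0.symm⟩
  rw [h2, Finset.card_erase_of_mem (by simp [hHM]), h1, Nat.add_sub_cancel]

variable [Finite K]

/-- neighbours containing `U ≤ M` -/
theorem card_nbr_le (hP : Pol F m E) {M U : Submodule K V} (hM : M ∈ F.Om m) (hU : U ≤ M) :
    Nat.card {N : F.Om m // Adj m M N.1 ∧ U ≤ N.1} = E * gn (Nat.card K) (m - finrank K U) := by
  classical
  have := Fintype.ofFinite (F.Om m)
  have := Fintype.ofFinite (Submodule K V)
  have h1 := card_hyps hU
  rw [Nat.card_eq_fintype_card, Fintype.card_subtype, hM.2] at h1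
  rw [Nat.card_eq_fintype_card, Fintype.card_subtype, ← h1]
  rw [Finset.card_eq_sum_card_fiberwise (f := fun N : F.Om m => M ⊓ N.1)
    (t := Finset.univ.filter fun H : Submodule K V => U ≤ H ∧ H ≤ M ∧ finrank K H + 1 = m)]
  · rw [Finset.sum_const_nat (m := E), mul_comm]
    intro H hH
    rw [Finset.mem_filter] at hH
    obtain ⟨-, hUH, hHM, hH⟩ := hH
    rw [← card_ne hP hM hHM hH, Nat.card_eq_fintype_card, Fintype.card_subtype]
    congr 1
    ext N
    simp only [Finset.mem_filter, Finset.mem_univ, true_and]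
    constructor
    · rintro ⟨⟨h2, h3⟩, h4⟩
      exact ⟨h4 ▸ inf_le_right, h2.ne hM.2⟩
    · rintro ⟨h2, h3⟩
      have h4 := adj_of_ne hM.2 N.2.2 hH hHM h2 h3
      refine ⟨⟨?_, hUH.trans h2⟩, h4⟩
      unfold Adj
      rw [h4]; exact hH
  · intro N hN
    simp only [Finset.coe_filter, Finset.mem_univ, true_and, Set.mem_ofPred_eq] at hN ⊢
    exact ⟨le_inf hU hN.2, inf_le_left, hN.1⟩

/-- neighbours containing `U` when `M ∩ U` is a hyperplane of `U` -/
theorem card_nbr_one (hP : Pol F m E) {M U : Submodule K V} (hM : M ∈ F.Om m) (hU : F.TS U)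
    (h : finrank K (M ⊓ U : Submodule K V) + 1 = finrank K U) :
    Nat.card {N : F.Om m // Adj m M N.1 ∧ U ≤ N.1} = 1 := by
  have hpm := proj_mem hP.max hM hU
  have hfi := finrank_inf_perp hP.max hM hU
  have key : ∀ N : Submodule K V, N ∈ F.Om m → Adj m M N → U ≤ N → M ⊓ N = M ⊓ F.perp U := by
    intro N hN hadj hUN
    have h1 : M ⊓ N ≤ M ⊓ F.perp U := le_inf inf_le_left
      (inf_le_right.trans (hN.1.le_perp.trans (F.perp_anti hUN)))
    exact Submodule.eq_of_le_of_finrank_le h1 (by unfold Adj at hadj; omega)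
  rw [Nat.card_eq_one_iff_unique]
  refine ⟨⟨fun N N' => ?_⟩, ⟨⟨⟨_, hpm⟩, ?_, le_sup_right⟩⟩⟩
  · have e : ∀ N : {N : F.Om m // Adj m M N.1 ∧ U ≤ N.1}, N.1.1 = (M ⊓ F.perp U) ⊔ U := by
      intro N
      symm
      refine Submodule.eq_of_le_of_finrank_eq (sup_le ?_ N.2.2) (by rw [hpm.2, N.1.2.2])
      rw [← key N.1.1 N.1.2 N.2.1 N.2.2]
      exact inf_le_right
    exact Subtype.ext (Subtype.ext ((e N).trans (e N').symm))
  · have hne : M ≠ (M ⊓ F.perp U) ⊔ U := by
      intro h0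
      have : U ≤ M := by rw [h0]; exact le_sup_right
      rw [inf_eq_right.2 this] at h
      omega
    have h2 := adj_of_ne hM.2 hpm.2 (H := M ⊓ F.perp U) (by omega) inf_le_left le_sup_left hne
    unfold Adj
    rw [h2]
    omega

theorem card_nbr_zero {M U : Submodule K V}
    (h : finrank K (M ⊓ U : Submodule K V) + 1 < finrank K U) :
    Nat.card {N : F.Om m // Adj m M N.1 ∧ U ≤ N.1} = 0 := by
  refine @Nat.card_of_isEmpty _ ⟨fun N => ?_⟩
  obtain ⟨N, hadj, hUN⟩ := N
  have h1 := Submodule.finrank_sup_add_finrank_inf_eq (M ⊓ N.1) U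
  have h2 : finrank K ((M ⊓ N.1) ⊔ U : Submodule K V) ≤ m :=
    (Submodule.finrank_mono (sup_le inf_le_right hUN)).trans N.2.2.le
  have h3 : finrank K (M ⊓ N.1 ⊓ U : Submodule K V) ≤ finrank K (M ⊓ U : Submodule K V) :=
    Submodule.finrank_mono (inf_le_inf_right _ inf_le_left)
  unfold Adj at hadj
  omega

/-! ### the hyperplanes of `U` inside `M` -/

theorem card_sub_le {M U : Submodule K V} (hU : U ≤ M) :
    Nat.card {H : Submodule K V // (H ≤ U ∧ finrank K H + 1 = finrank K U) ∧ H ≤ M} =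
      gn (Nat.card K) (finrank K U) := by
  rw [← card_hyps_le (M := U)]
  exact Nat.card_congr (Equiv.subtypeEquivRight fun H => ⟨fun h => h.1, fun h => ⟨h, h.1.trans hU⟩⟩)

theorem card_sub_one {M U : Submodule K V} (h : finrank K (M ⊓ U : Submodule K V) + 1 = finrank K U) :
    Nat.card {H : Submodule K V // (H ≤ U ∧ finrank K H + 1 = finrank K U) ∧ H ≤ M} = 1 := by
  rw [Nat.card_eq_one_iff_unique]
  refine ⟨⟨fun H H' => ?_⟩, ⟨⟨M ⊓ U, ⟨inf_le_right, h⟩, inf_le_left⟩⟩⟩
  have e : ∀ H : {H : Submodule K V // (H ≤ U ∧ finrank K H + 1 = finrank K U) ∧ H ≤ M}, H.1 = M ⊓ U := by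
    intro H
    exact Submodule.eq_of_le_of_finrank_eq (le_inf H.2.2 H.2.1.1) (by have := H.2.1.2; omega)
  exact Subtype.ext ((e H).trans (e H').symm)

theorem card_sub_zero {M U : Submodule K V} (h : finrank K (M ⊓ U : Submodule K V) + 1 < finrank K U) :
    Nat.card {H : Submodule K V // (H ≤ U ∧ finrank K H + 1 = finrank K U) ∧ H ≤ M} = 0 := by
  refine @Nat.card_of_isEmpty _ ⟨fun H => ?_⟩
  have h1 : finrank K H.1 ≤ finrank K (M ⊓ U : Submodule K V) :=
    Submodule.finrank_mono (le_inf H.2.2 H.2.1.1)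
  have := H.2.1.2
  omega

/-- the eigenvalues -/
def th (Q m E k : ℕ) : ℤ := (E : ℤ) * gn Q (m - k) - gn Q k

theorem card_nbr (hP : Pol F m E) {M U : Submodule K V} (hM : M ∈ F.Om m) (hU : F.TS U) :
    (Nat.card {N : F.Om m // Adj m M N.1 ∧ U ≤ N.1} : ℤ) =
      th (Nat.card K) m E (finrank K U) * (Nat.card {_x : Unit // U ≤ M} : ℤ) +
      (Nat.card {H : Submodule K V // (H ≤ U ∧ finrank K H + 1 = finrank K U) ∧ H ≤ M} : ℤ) := by
  by_cases h : U ≤ M
  · rw [card_nbr_le hP hM h, card_sub_le h]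
    have : Nat.card {_x : Unit // U ≤ M} = 1 := by
      rw [Nat.card_eq_one_iff_unique]
      exact ⟨⟨fun a b => Subtype.ext rfl⟩, ⟨⟨(), h⟩⟩⟩
    rw [this]
    unfold th
    push_cast
    ring
  · have h0 : Nat.card {_x : Unit // U ≤ M} = 0 := @Nat.card_of_isEmpty _ ⟨fun x => h x.2⟩
    rw [h0, Nat.cast_zero, mul_zero, zero_add]
    have h1 : finrank K (M ⊓ U : Submodule K V) < finrank K U :=
      Submodule.finrank_lt_finrank_of_lt (lt_of_le_of_ne inf_le_right fun h' => h (inf_eq_right.1 h'))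
    rcases Nat.lt_or_ge (finrank K (M ⊓ U : Submodule K V) + 1) (finrank K U) with h2 | h2
    · rw [card_nbr_zero h2, card_sub_zero h2]
    · have h3 : finrank K (M ⊓ U : Submodule K V) + 1 = finrank K U := by omega
      rw [card_nbr_one hP hM hU h3, card_sub_one h3]

end

end Cfsg.Agent.H47.DP
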