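import Cfsg.Agent.H317.PQ.Defs
import Cfsg.Agent.Blocks.Osima
import Cfsg.Agent.Blocks.PrincipalSection
import Cfsg.Agent.Blocks.ExistsModular

/-!
# S4612: the Hecke test (helper47)

`ρ` a representation of `G`, `A` an operator commuting with `ρ`, `one` a fixed vector, `v` a vector with
`∏ (A - θ j) v = c₀ • one`. If `B0 p G ⊆ B0 q G` then the `B0(p)`-part of `v` is determined up to the indices `j` for which
no central element of `ℤ[G]` separates `θ j` from `θ 0` modulo `q`.
-/

set_option autoImplicit false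
set_option linter.unusedSectionVars false

open Cfsg Cfsg.Agent

namespace Cfsg.Agent.H47.DP

open Cfsg.Agent.H317.PQ Cfsg.Agent.Blocks.Osima Cfsg.Agent.Blocks.Central Cfsg.Agent.Blocks.LocalRing
open Polynomial

universe u v

section key

variable {p q : ℕ} {G : Type u} [Group G] [Finite G] {M : Ideal AlgInt}
  {M0 : Type v} [AddCommGroup M0] [Module ℂ M0]

theorem one_mem_B0 (G : Type u) [Group G] [Finite G] (hp : p.Prime) :
    (⟨fun _ : G => (1 : ℂ), Cfsg.Agent.Blocks.Basic.isIrrCharacter_one⟩ : IrrCharacter G) ∈ B0 p G := by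
  have : Fact p.Prime := ⟨hp⟩
  intro M hM
  have : M.IsPrime := isPrime hM
  intro g
  rw [sub_self]
  exact memLocalIdeal_zero hM

/-- `z e_χ = ω_χ(z) e_χ` -/
theorem center_mul_irrIdem {z : MonoidAlgebra ℂ G} (hz : z ∈ Subalgebra.center ℂ (MonoidAlgebra ℂ G))
    (χ : IrrCharacter G) : z * irrIdem {χ} = omegaL (χ : G → ℂ) z • irrIdem {χ} := by
  classical
  refine eq_of_omegaL_eq (Subalgebra.mul_mem _ hz (irrIdem_mem_center _))
    (Subalgebra.smul_mem _ (irrIdem_mem_center _) _) fun ψ => ?_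
  rw [omegaL_mul ψ.2 hz, map_smul, omegaL_irrIdem, smul_eq_mul]
  by_cases h : ψ = χ
  · subst h; rfl
  · rw [if_neg (by simpa using h), mul_zero, mul_zero]

theorem omegaL_one_char {z : MonoidAlgebra ℂ G} (ρ : Representation ℂ G M0) {one : M0} (h1 : ∀ g, ρ g one = one) :
    ρ.asAlgebraHom z one = omegaL (fun _ : G => (1 : ℂ)) z • one := by
  induction z using MonoidAlgebra.induction_linear with
  | zero => simp
  | add x y hx hy => rw [map_add, LinearMap.add_apply, hx, hy, map_add, add_smul]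
  | single x c =>
    rw [Representation.asAlgebraHom_single, LinearMap.smul_apply, h1, omegaL_eq, chExt_single, mul_one, div_one]

theorem commute_asAlgebraHom (ρ : Representation ℂ G M0) {A : Module.End ℂ M0} (hA : ∀ g, Commute A (ρ g))
    (z : MonoidAlgebra ℂ G) : Commute A (ρ.asAlgebraHom z) := by
  induction z using MonoidAlgebra.induction_linear with
  | zero => rw [map_zero]; exact Commute.zero_right _
  | add x y hx hy => rw [map_add]; exact hx.add_right hy
  | single x c => rw [Representation.asAlgebraHom_single]; exact (hA x).smul_right c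

theorem commute_aeval {R : Type*} [Ring R] [Algebra ℂ R] {A B : R} (h : Commute A B) (f : ℂ[X]) :
    Commute (aeval A f) B := by
  induction f using Polynomial.induction_on' with
  | add f g hf hg => rw [map_add]; exact hf.add_left hg
  | monomial n c =>
    rw [aeval_monomial]
    exact (Algebra.commute_algebraMap_left c B).mul_left (h.pow_left n)

theorem aeval_apply_of_eigen {A : Module.End ℂ M0} {w : M0} {a : ℂ} (h : A w = a • w) (f : ℂ[X]) :
    aeval A f w = f.eval a • w := by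
  induction f using Polynomial.induction_on' with
  | add f g hf hg => rw [map_add, LinearMap.add_apply, hf, hg, eval_add, add_smul]
  | monomial n c =>
    have : ∀ n : ℕ, (A ^ n) w = a ^ n • w := by
      intro n
      induction n with
      | zero => simp
      | succ n ih => rw [pow_succ', Module.End.mul_apply, ih, map_smul, h, smul_smul, pow_succ, mul_comm]
    rw [aeval_monomial, Module.End.mul_apply, this, Module.algebraMap_end_apply, eval_monomial, smul_smul]

/-- a central element separates `θ j` and `θ 0` modulo `q` -/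
def Sep (q : ℕ) (ρ : Representation ℂ G M0) (A : Module.End ℂ M0) (a b : ℤ) : Prop :=
  ∃ (z : MonoidAlgebra ℂ G) (f : ℤ[X]), z ∈ Subalgebra.center ℂ (MonoidAlgebra ℂ G) ∧
    (∀ g, ∃ n : ℤ, z.coeff g = n) ∧ ρ.asAlgebraHom z = aeval A (f.map (Int.castRingHom ℂ)) ∧
    ¬ (q : ℤ) ∣ f.eval a - f.eval b

theorem inj_of_sep (hM : IsPModular q M) (ρ : Representation ℂ G M0) (A : Module.End ℂ M0)
    {one : M0} (h1 : ∀ g, ρ g one = one) (hone : one ≠ 0) {a b : ℤ} (hA1 : A one = (b : ℂ) • one)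
    (hs : Sep q ρ A a b) {χ : IrrCharacter G} (hχ : χ ∈ B0 q G) {w : M0}
    (hw : ρ.asAlgebraHom (irrIdem {χ}) w = w) (hAw : A w = (a : ℂ) • w) : w = 0 := by
  obtain ⟨z, f, hz, hzc, hzf, hdvd⟩ := hs
  by_contra hw0
  apply hdvd
  have e1 : ρ.asAlgebraHom z w = omegaL (χ : G → ℂ) z • w := by
    conv_lhs => rw [← hw]
    rw [← Module.End.mul_apply, ← map_mul, center_mul_irrIdem hz, map_smul, LinearMap.smul_apply, hw]
  have e2 : ρ.asAlgebraHom z w = ((f.eval a : ℤ) : ℂ) • w := by
    rw [hzf, aeval_apply_of_eigen hAw]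
    congr 1
    rw [eval_map, eval₂_at_intCast, eq_intCast, Int.cast_id]
  have e3 : omegaL (fun _ : G => (1 : ℂ)) z • one = ((f.eval b : ℤ) : ℂ) • one := by
    rw [← omegaL_one_char ρ h1, hzf, aeval_apply_of_eigen hA1]
    congr 1
    rw [eval_map, eval₂_at_intCast, eq_intCast, Int.cast_id]
  have e4 : omegaL (χ : G → ℂ) z = ((f.eval a : ℤ) : ℂ) := smul_left_injective ℂ hw0 (e1.symm.trans e2)
  have e5 : omegaL (fun _ : G => (1 : ℂ)) z = ((f.eval b : ℤ) : ℂ) := smul_left_injective ℂ hone e3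
  have hb : SameBlock M (χ : G → ℂ) (fun _ : G => (1 : ℂ)) := by
    intro g
    exact memLocalIdeal_sub_comm.1 (hχ M hM g)
  have h := memLocalIdeal_omegaL_sub hM χ.2 Cfsg.Agent.Blocks.Basic.isIrrCharacter_one hb (a := z)
    ⟨hz, fun g => by obtain ⟨n, hn⟩ := hzc g; rw [hn]; exact memLocalRing_intCast hM n⟩
  rw [e4, e5, ← Int.cast_sub] at h
  exact (memLocalIdeal_intCast_iff hM _).1 h

theorem irrIdem_finset (s : Finset (IrrCharacter G)) :
    irrIdem (s : Set (IrrCharacter G)) = ∑ χ ∈ s, irrIdem {χ} := by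
  classical
  refine eq_of_omegaL_eq (irrIdem_mem_center _) (Subalgebra.sum_mem _ fun χ _ => irrIdem_mem_center _) fun ψ => ?_
  rw [map_sum, omegaL_irrIdem]
  simp only [omegaL_irrIdem, Set.mem_singleton_iff, Finset.mem_coe]
  rw [Finset.sum_ite_eq]

theorem eq_zero_of_parts (ρ : Representation ℂ G M0) {w : M0}
    (h : ∀ χ : IrrCharacter G, ρ.asAlgebraHom (irrIdem {χ}) w = 0) : w = 0 := by
  classical
  have : Finite (IrrCharacter G) := Cfsg.Agent.Characters.Core.finite_irr
  have := Fintype.ofFinite (IrrCharacter G)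
  have e1 : (1 : MonoidAlgebra ℂ G) = ∑ χ : IrrCharacter G, irrIdem {χ} := by
    rw [← irrIdem_univ, ← irrIdem_finset, Finset.coe_univ]
  have e2 : w = ρ.asAlgebraHom (1 : MonoidAlgebra ℂ G) w := by rw [map_one, Module.End.one_apply]
  rw [e2, e1, map_sum, LinearMap.sum_apply]
  exact Finset.sum_eq_zero fun χ _ => h χ

theorem inj_prod (hM : IsPModular q M) (ρ : Representation ℂ G M0) (A : Module.End ℂ M0)
    (hA : ∀ g, Commute A (ρ g)) {one : M0} (h1 : ∀ g, ρ g one = one) (hone : one ≠ 0) {θ : ℕ → ℤ} {b : ℤ}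
    (hA1 : A one = (b : ℂ) • one) {T : Finset ℕ} (hs : ∀ j ∈ T, Sep q ρ A (θ j) b) {χ : IrrCharacter G}
    (hχ : χ ∈ B0 q G) {w : M0} (hw : ρ.asAlgebraHom (irrIdem {χ}) w = w)
    (hAw : aeval A (∏ j ∈ T, (X - C (θ j : ℂ))) w = 0) : w = 0 := by
  classical
  induction T using Finset.induction_on generalizing w with
  | empty => simpa using hAw
  | insert j T hj ih =>
    rw [Finset.prod_insert hj, map_mul, Module.End.mul_apply] at hAw
    refine ih (fun i hi => hs i (Finset.mem_insert_of_mem hi)) hw ?_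
    refine inj_of_sep hM ρ A h1 hone hA1 (hs j (Finset.mem_insert_self _ _)) hχ ?_ ?_
    · have h2 := (commute_aeval (commute_asAlgebraHom ρ hA (irrIdem {χ}))
        (∏ j ∈ T, (X - C (θ j : ℂ)))).eq
      have h3 := congrArg (fun F : Module.End ℂ M0 => F w) h2
      simp only [Module.End.mul_apply] at h3
      rw [hw] at h3
      exact h3.symm
    · rw [map_sub, aeval_X, aeval_C, LinearMap.sub_apply, Module.algebraMap_end_apply, sub_eq_zero] at hAw
      exact hAw

/-- **the Hecke test**, module form -/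
theorem key (hp : p.Prime) (hM : IsPModular q M) (hpq : B0 p G ⊆ B0 q G) (ρ : Representation ℂ G M0)
    (A : Module.End ℂ M0) (hA : ∀ g, Commute A (ρ g)) {one v : M0} (h1 : ∀ g, ρ g one = one) (hone : one ≠ 0)
    {θ : ℕ → ℤ} {b : ℤ} (hA1 : A one = (b : ℂ) • one) {S K : Finset ℕ} (hK : K ⊆ S) {c₀ : ℂ}
    (hv : aeval A (∏ j ∈ S, (X - C (θ j : ℂ))) v = c₀ • one) (hθ : ∀ j ∈ S, b ≠ θ j)
    (hs : ∀ j ∈ S, j ∉ K → Sep q ρ A (θ j) b) :
    aeval A (∏ j ∈ K, (X - C (θ j : ℂ))) (ρ.asAlgebraHom (irrIdem (B0 p G)) v) =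
      (c₀ / ∏ j ∈ S \ K, ((b - θ j : ℤ) : ℂ)) • one := by
  classical
  have hE1 : ρ.asAlgebraHom (irrIdem (B0 p G)) one = one := by
    rw [omegaL_one_char ρ h1]
    have := omegaL_irrIdem_of_mem (one_mem_B0 G hp)
    change omegaL (fun _ : G => (1 : ℂ)) _ = 1 at this
    rw [this, one_smul]
  have hev : ∀ T : Finset ℕ, aeval A (∏ j ∈ T, (X - C (θ j : ℂ))) one = (∏ j ∈ T, ((b - θ j : ℤ) : ℂ)) • one := by
    intro T
    rw [aeval_apply_of_eigen hA1, eval_prod]
    congr 1
    refine Finset.prod_congr rfl fun j _ => ?_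
    rw [eval_sub, eval_X, eval_C, Int.cast_sub]
  have hne : ∀ T : Finset ℕ, T ⊆ S → (∏ j ∈ T, ((b - θ j : ℤ) : ℂ)) ≠ 0 := by
    intro T hT
    rw [Finset.prod_ne_zero_iff]
    intro j hj
    rw [Int.cast_ne_zero, sub_ne_zero]
    exact hθ j (hT hj)
  obtain ⟨y, hy⟩ : ∃ y, y = ρ.asAlgebraHom (irrIdem (B0 p G)) v - (c₀ / ∏ j ∈ S, ((b - θ j : ℤ) : ℂ)) • one := ⟨_, rfl⟩
  have hEy : ρ.asAlgebraHom (irrIdem (B0 p G)) y = y := by
    rw [hy, map_sub, map_smul, hE1, ← Module.End.mul_apply, ← map_mul, irrIdem_mul_self]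
  have hSy : aeval A (∏ j ∈ S, (X - C (θ j : ℂ))) y = 0 := by
    have h2 := (commute_aeval (commute_asAlgebraHom ρ hA (irrIdem (B0 p G))) (∏ j ∈ S, (X - C (θ j : ℂ)))).eq
    have h3 := congrArg (fun F : Module.End ℂ M0 => F v) h2
    simp only [Module.End.mul_apply] at h3
    rw [hy, map_sub, h3, hv, map_smul, map_smul, hE1, hev, smul_smul, div_mul_cancel₀ _ (hne S subset_rfl), sub_self]
  have hKy : aeval A (∏ j ∈ K, (X - C (θ j : ℂ))) y = 0 := by
    refine eq_zero_of_parts ρ fun χ => ?_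
    have hcomm := fun f : ℂ[X] => (commute_aeval (commute_asAlgebraHom ρ hA (irrIdem {χ})) f).eq
    have hcomm' : ∀ (f : ℂ[X]) (w : M0), aeval A f (ρ.asAlgebraHom (irrIdem {χ}) w) =
        ρ.asAlgebraHom (irrIdem {χ}) (aeval A f w) := by
      intro f w
      have h3 := congrArg (fun F : Module.End ℂ M0 => F w) (hcomm f)
      simpa only [Module.End.mul_apply] using h3
    by_cases hχ : χ ∈ B0 p G
    · refine inj_prod hM ρ A hA h1 hone hA1 (T := S \ K)
        (fun j hj => hs j (Finset.mem_sdiff.1 hj).1 (Finset.mem_sdiff.1 hj).2) (hpq hχ) ?_ ?_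
      · rw [← Module.End.mul_apply, ← map_mul, irrIdem_mul_self]
      · rw [hcomm', ← Module.End.mul_apply (aeval A _), ← map_mul, Finset.prod_sdiff hK, hSy, map_zero]
    · have e1 : ρ.asAlgebraHom (irrIdem {χ}) y = 0 := by
        rw [← hEy, ← Module.End.mul_apply, ← map_mul, irrIdem_mul_irrIdem]
        have : ({χ} : Set (IrrCharacter G)) ∩ B0 p G = ∅ := by
          rw [Set.singleton_inter_eq_empty]
          exact hχ
        have h0 : irrIdem (∅ : Set (IrrCharacter G)) = 0 := by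
          have := irrIdem_finset (∅ : Finset (IrrCharacter G))
          rwa [Finset.coe_empty, Finset.sum_empty] at this
        rw [this, h0, map_zero, LinearMap.zero_apply]
      rw [← hcomm', e1, map_zero]
  have h4 : ρ.asAlgebraHom (irrIdem (B0 p G)) v = y + (c₀ / ∏ j ∈ S, ((b - θ j : ℤ) : ℂ)) • one := by
    rw [hy, sub_add_cancel]
  rw [h4, map_add, hKy, zero_add, map_smul, hev, smul_smul]
  congr 1
  rw [div_mul_eq_mul_div, ← Finset.prod_sdiff hK, mul_div_mul_right _ _ (hne K hK)]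

end key

end Cfsg.Agent.H47.DP
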