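import Cfsg.Agent.H47.DP.Adj

/-!
# S4612: the number of maximal subspaces on a totally singular subspace of dimension `m - 1` (helper47)

`pol_of` : `Pol F m E` with `E = |ker T| * |K| ^ (dim V - 2 m)`.
-/

set_option autoImplicit false
set_option linter.unusedSectionVars false

open Cfsg

namespace Cfsg.Agent.H47.DP

open Cfsg.Agent.H477.HC Cfsg.Agent.H477.HC.CForm Cfsg.Agent.H53.HC Module

universe u v

variable {K : Type u} [Field K] {V : Type v} [AddCommGroup V] [Module K V] [FiniteDimensional K V] {F : CForm K V}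

theorem sing_of_Q {v : V} (h : F.Q v = 0) : F.Sing v := ⟨h, F.alt v h⟩

theorem TS_span {v : V} (hv : F.Sing v) : F.TS (K ∙ v) := by
  refine ⟨fun w hw => ?_, fun w hw w' hw' => ?_⟩
  · obtain ⟨a, rfl⟩ := Submodule.mem_span_singleton.1 hw
    rw [F.Q_smul, hv.1, mul_zero]
  · obtain ⟨a, rfl⟩ := Submodule.mem_span_singleton.1 hw
    obtain ⟨b, rfl⟩ := Submodule.mem_span_singleton.1 hw'
    rw [F.B_smul_left, F.B_smul_right, hv.2, mul_zero, mul_zero]

variable {m : ℕ} (hmax : ∀ W : Submodule K V, F.TS W → finrank K W ≤ m)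

theorem exists_sub {M : Submodule K V} {u : ℕ} (hu : u ≤ finrank K M) : ∃ U ≤ M, finrank K U = u := by
  let b := finBasis K M
  let f : Fin u → V := fun i => (b (Fin.castLE hu i) : V)
  have hli : LinearIndependent K f :=
    (b.linearIndependent.map' M.subtype (Submodule.ker_subtype _)).comp _ (Fin.castLE_injective _)
  refine ⟨Submodule.span K (Set.range f), ?_, ?_⟩
  · rw [Submodule.span_le]
    rintro _ ⟨i, rfl⟩
    exact (b _).2
  · rw [finrank_span_eq_card hli, Fintype.card_fin]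

theorem exists_ge (hex : ∃ M, M ∈ F.Om m) {H : Submodule K V} (hH : F.TS H) {k : ℕ} (hk : finrank K H = k)
    (hkm : k ≤ m) : ∃ M ∈ F.Om m, H ≤ M := by
  obtain ⟨M₀, hM₀⟩ := hex
  obtain ⟨H₀, hH₀, hf⟩ := exists_sub (K := K) (M := M₀) (u := k) (by rw [hM₀.2]; exact hkm)
  obtain ⟨g, hg⟩ := F.trans_Om (k := k) ⟨hM₀.1.mono hH₀, hf⟩ ⟨hH, hk⟩
  exact ⟨_, F.Om_map g M₀ hM₀, by rw [← hg]; exact Submodule.map_mono hH₀⟩

theorem finrank_sup_span {H : Submodule K V} {v : V} (hv : v ∉ H) : finrank K (H ⊔ K ∙ v : Submodule K V) =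
    finrank K H + 1 := by
  have h1 := Submodule.finrank_sup_add_finrank_inf_eq H (K ∙ v)
  have h2 : H ⊓ K ∙ v = ⊥ := by
    rw [Submodule.eq_bot_iff]
    rintro x ⟨hx, hx'⟩
    obtain ⟨a, rfl⟩ := Submodule.mem_span_singleton.1 hx'
    rcases eq_or_ne a 0 with rfl | ha
    · exact zero_smul _ _
    · exact absurd ((Submodule.smul_mem_iff _ ha).1 hx) hv
  have h3 : finrank K (K ∙ v) = 1 := finrank_span_singleton (by rintro rfl; exact hv H.zero_mem)
  rw [h2, finrank_bot, h3] at h1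
  omega

/-- a hyperbolic partner of `e` in `Hᗮ` -/
theorem exists_partner {H : Submodule K V} {e : V} (he : F.Sing e) (heH : e ∈ F.perp H) (hne : e ∉ H) :
    ∃ f, F.Sing f ∧ f ∈ F.perp H ∧ F.B e f = 1 := by
  obtain ⟨f₁, h1, h2⟩ : ∃ f₁ ∈ F.perp H, F.B e f₁ ≠ 0 := by
    by_contra hcon
    push Not at hcon
    apply hne
    rw [← F.perp_perp H]
    exact hcon
  obtain ⟨f₂, h3, h4⟩ : ∃ f₂ ∈ F.perp H, F.B e f₂ = 1 := by
    refine ⟨F.σ (F.B e f₁)⁻¹ • f₁, (F.perp H).smul_mem _ h1, ?_⟩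
    rw [F.B_smul_right, F.σσ, inv_mul_cancel₀ h2]
  obtain ⟨c, hc⟩ := F.Q_range f₂
  refine ⟨f₂ + c • e, ?_, (F.perp H).add_mem h3 ((F.perp H).smul_mem _ heH), ?_⟩
  · apply sing_of_Q
    rw [F.Q_add, F.Q_smul, he.1, mul_zero, add_zero, F.B_smul_right, F.B_symm f₂ e, h4, map_one, mul_one, mul_comm,
      F.T_symm, hc, add_neg_cancel]
  · rw [F.B_add_right, F.B_smul_right, he.2, h4, mul_zero, add_zero]

variable [Finite V] [Finite K]

section
include hmax

theorem card_edge {M H : Submodule K V} (hM : M ∈ F.Om m) (hHM : H ≤ M) (hH : finrank K H + 1 = m) :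
    Nat.card {N : F.Om m // H ≤ N.1 ∧ N.1 ≠ M} =
      Nat.card {t : K // F.T t = 0} * Nat.card K ^ (finrank K V - 2 * m) := by
  classical
  have hHTS := hM.1.mono hHM
  -- `e`
  obtain ⟨e, heM, heH⟩ : ∃ e ∈ M, e ∉ H := by
    by_contra hcon
    push Not at hcon
    have := Submodule.finrank_mono (show M ≤ H from hcon)
    rw [hM.2] at this
    omega
  have he := hM.1.sing heM
  have hMe : H ⊔ K ∙ e = M := by
    refine Submodule.eq_of_le_of_finrank_eq (sup_le hHM ((Submodule.span_singleton_le_iff_mem _ _).2 heM)) ?_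
    rw [finrank_sup_span heH, hM.2, hH]
  have hepH : e ∈ F.perp H := fun h hh => hM.1.2 e heM h (hHM hh)
  obtain ⟨f, hf, hfH, hef⟩ := exists_partner he hepH heH
  have hfe : F.B f e = F.ε := by rw [F.B_symm, hef, map_one, mul_one]
  have hfM : f ∉ M := fun h => one_ne_zero (hef.symm.trans (hM.1.2 e heM f h))
  -- `D`
  obtain ⟨D, hD⟩ : ∃ D, D = F.perp (M ⊔ K ∙ f) := ⟨_, rfl⟩
  have hDm : ∀ d, d ∈ D ↔ d ∈ F.perp H ∧ F.B d e = 0 ∧ F.B d f = 0 := by
    intro d
    rw [hD, perp_sup, ← hMe, perp_sup]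
    have hs : ∀ x : V, d ∈ F.perp (K ∙ x) ↔ F.B d x = 0 := by
      intro x
      constructor
      · intro h; exact h x (Submodule.mem_span_singleton_self x)
      · intro h w hw
        obtain ⟨a, rfl⟩ := Submodule.mem_span_singleton.1 hw
        rw [F.B_smul_right, h, mul_zero]
    rw [Submodule.mem_inf, Submodule.mem_inf, hs, hs, and_assoc]
  have hDf : finrank K D + (m + 1) = finrank K V := by
    have h1 := finrank_perp F (M ⊔ K ∙ f)
    rw [← hD, finrank_sup_span hfM, hM.2] at h1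
    exact h1
  have h2m : 2 * m ≤ finrank K V := by
    have h1 := finrank_perp F M
    have h2 := Submodule.finrank_mono hM.1.le_perp
    rw [hM.2] at h1 h2
    omega
  -- the set `Z`
  let Z := {v : V // v ∈ F.perp H ∧ F.Sing v ∧ F.B e v = 1}
  have hZ1 : Nat.card Z = Nat.card D * Nat.card {t : K // F.T t = 0} := by
    choose α₀ hα₀ using fun d : V => F.Q_range d
    rw [← Nat.card_prod]
    refine Nat.card_congr
      { toFun := fun v => (⟨v.1 - f - F.B v.1 f • e, ?_⟩, ⟨F.B v.1 f - α₀ (v.1 - f - F.B v.1 f • e), ?_⟩)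
        invFun := fun x => ⟨f + (x.2.1 + α₀ x.1.1) • e + x.1.1, ?_, ?_, ?_⟩
        left_inv := fun v => Subtype.ext ?_
        right_inv := fun x => Prod.ext (Subtype.ext ?_) (Subtype.ext ?_) }
    · obtain ⟨v, h1, h2, h3⟩ := v
      have hve : F.B v e = F.ε := by rw [F.B_symm, h3, map_one, mul_one]
      rw [hDm]
      refine ⟨(F.perp H).sub_mem ((F.perp H).sub_mem h1 hfH) ((F.perp H).smul_mem _ hepH), ?_, ?_⟩
      · rw [F.B_sub_left, F.B_sub_left, F.B_smul_left, hve, hfe, he.2, sub_self, mul_zero, sub_zero]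
      · rw [F.B_sub_left, F.B_sub_left, F.B_smul_left, hf.2, hef, mul_one, sub_zero, sub_self]
    · obtain ⟨v, h1, h2, h3⟩ := v
      have hve : F.B v e = F.ε := by rw [F.B_symm, h3, map_one, mul_one]
      rw [F.T_sub, hα₀, sub_neg_eq_add]
      obtain ⟨d, hd⟩ : ∃ d, d = v - f - F.B v f • e := ⟨_, rfl⟩
      have hdv : v = f + F.B v f • e + d := by rw [hd]; abel
      have hde : F.B d e = 0 := by
        rw [hd, F.B_sub_left, F.B_sub_left, F.B_smul_left, hve, hfe, he.2, sub_self, mul_zero, sub_zero]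
      have hdf : F.B d f = 0 := by
        rw [hd, F.B_sub_left, F.B_sub_left, F.B_smul_left, hf.2, hef, mul_one, sub_zero, sub_self]
      have h4 := h2.1
      rw [hdv, F.Q_add, F.Q_add, F.Q_smul, hf.1, he.1, mul_zero, add_zero, zero_add, F.B_smul_right, hfe, F.B_add_left,
        F.B_smul_left, F.B_eq_zero hdf, F.B_eq_zero hde, mul_zero, add_zero, F.T_zero, add_zero, mul_comm,
        F.T_symm] at h4
      change F.T (F.B v f) + F.Q (v - f - F.B v f • e) = 0
      rw [← hd]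
      exact h4
    · obtain ⟨⟨d, hd⟩, ⟨t, ht⟩⟩ := x
      exact (F.perp H).add_mem ((F.perp H).add_mem hfH ((F.perp H).smul_mem _ hepH)) ((hDm d).1 hd).1
    · obtain ⟨⟨d, hd⟩, ⟨t, ht⟩⟩ := x
      have h3 := (hDm d).1 hd
      apply sing_of_Q
      change F.Q (f + (t + α₀ d) • e + d) = 0
      rw [F.Q_add, F.Q_add, F.Q_smul, hf.1, he.1, mul_zero, add_zero, zero_add, F.B_smul_right, hfe, F.B_add_left,
        F.B_smul_left, F.B_eq_zero h3.2.2, F.B_eq_zero h3.2.1, mul_zero, add_zero, F.T_zero, add_zero, mul_comm,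
        F.T_symm, F.T_add, ht, hα₀]
      ring
    · obtain ⟨⟨d, hd⟩, ⟨t, ht⟩⟩ := x
      have h3 := (hDm d).1 hd
      change F.B e (f + (t + α₀ d) • e + d) = 1
      rw [F.B_add_right, F.B_add_right, F.B_smul_right, hef, he.2, F.B_eq_zero h3.2.1, mul_zero, add_zero, add_zero]
    · change f + (F.B v.1 f - α₀ (v.1 - f - F.B v.1 f • e) + α₀ (v.1 - f - F.B v.1 f • e)) • e +
        (v.1 - f - F.B v.1 f • e) = v.1
      rw [sub_add_cancel]
      abel
    · obtain ⟨⟨d, hd⟩, ⟨t, ht⟩⟩ := x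
      have h3 := (hDm d).1 hd
      have h5 : F.B (f + (t + α₀ d) • e + d) f = t + α₀ d := by
        rw [F.B_add_left, F.B_add_left, F.B_smul_left, hf.2, hef, h3.2.2, mul_one, zero_add, add_zero]
      change f + (t + α₀ d) • e + d - f - F.B (f + (t + α₀ d) • e + d) f • e = d
      rw [h5]
      abel
    · obtain ⟨⟨d, hd⟩, ⟨t, ht⟩⟩ := x
      have h3 := (hDm d).1 hd
      have h5 : F.B (f + (t + α₀ d) • e + d) f = t + α₀ d := by
        rw [F.B_add_left, F.B_add_left, F.B_smul_left, hf.2, hef, h3.2.2, mul_one, zero_add, add_zero]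
      have h6 : f + (t + α₀ d) • e + d - f - F.B (f + (t + α₀ d) • e + d) f • e = d := by
        rw [h5]; abel
      change F.B (f + (t + α₀ d) • e + d) f - α₀ (f + (t + α₀ d) • e + d - f - F.B (f + (t + α₀ d) • e + d) f • e) = t
      rw [h6, h5]
      ring
  -- the fibres
  have hZN : ∀ v : V, v ∈ F.perp H → F.Sing v → F.B e v = 1 → (H ⊔ K ∙ v) ∈ F.Om m ∧ (H ⊔ K ∙ v) ≠ M := by
    intro v h1 h2 h3
    have hvM : v ∉ M := fun h => one_ne_zero (h3.symm.trans (hM.1.2 e heM v h))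
    refine ⟨⟨F.TS_sup hHTS (TS_span h2) fun h hh w hw => ?_, ?_⟩, ?_⟩
    · obtain ⟨a, rfl⟩ := Submodule.mem_span_singleton.1 hw
      rw [F.B_smul_right, F.B_eq_zero (h1 h hh), mul_zero]
    · rw [finrank_sup_span fun h => hvM (hHM h), hH]
    · intro h
      apply hvM
      rw [← h]
      exact (le_sup_right : K ∙ v ≤ H ⊔ K ∙ v) (Submodule.mem_span_singleton_self v)
  have hZ2 : Nat.card Z = Nat.card {N : F.Om m // H ≤ N.1 ∧ N.1 ≠ M} * Nat.card H := by
    let π : Z → {N : F.Om m // H ≤ N.1 ∧ N.1 ≠ M} := fun v =>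
      ⟨⟨H ⊔ K ∙ v.1, (hZN v.1 v.2.1 v.2.2.1 v.2.2.2).1⟩, le_sup_left, (hZN v.1 v.2.1 v.2.2.1 v.2.2.2).2⟩
    have : Finite Z := inferInstanceAs (Finite {v : V // v ∈ F.perp H ∧ F.Sing v ∧ F.B e v = 1})
    have := Fintype.ofFinite Z
    have := Fintype.ofFinite {N : F.Om m // H ≤ N.1 ∧ N.1 ≠ M}
    rw [Nat.card_congr (Equiv.sigmaFiberEquiv π).symm, Nat.card_sigma, Finset.sum_congr rfl (g := fun _ => Nat.card H)]
    · rw [Finset.sum_const, smul_eq_mul, Finset.card_univ, ← Nat.card_eq_fintype_card]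
    · rintro N -
      obtain ⟨⟨N, hN⟩, hHN, hNM⟩ := N
      -- a base point of the fibre
      obtain ⟨v₁, hv₁, hv₁'⟩ : ∃ v₁ ∈ N, F.B e v₁ ≠ 0 := by
        by_contra hcon
        push Not at hcon
        have h1 : e ∈ N := mem_of_perp hmax hN he hcon
        apply hNM
        symm
        refine Submodule.eq_of_le_of_finrank_eq ?_ (by rw [hM.2, hN.2])
        rw [← hMe]
        exact sup_le hHN ((Submodule.span_singleton_le_iff_mem _ _).2 h1)
      obtain ⟨v₀, hv₀, hv₀'⟩ : ∃ v₀ ∈ N, F.B e v₀ = 1 := by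
        refine ⟨F.σ (F.B e v₁)⁻¹ • v₁, N.smul_mem _ hv₁, ?_⟩
        rw [F.B_smul_right, F.σσ, inv_mul_cancel₀ hv₁']
      have hfib : ∀ v : V, v ∈ F.perp H → F.Sing v → F.B e v = 1 → (H ⊔ K ∙ v = N ↔ v ∈ N) := by
        intro v h1 h2 h3
        constructor
        · intro h; rw [← h]; exact (le_sup_right : K ∙ v ≤ H ⊔ K ∙ v) (Submodule.mem_span_singleton_self v)
        · intro h
          refine Submodule.eq_of_le_of_finrank_eq (sup_le hHN ((Submodule.span_singleton_le_iff_mem _ _).2 h)) ?_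
          rw [(hZN v h1 h2 h3).1.2, hN.2]
      have hdiff : ∀ v ∈ N, F.B e v = 0 → v ∈ H := by
        intro v hv h0
        have hve : F.B v e = 0 := F.B_eq_zero h0
        have h1 : v ∈ F.perp M := by
          rw [← hMe, perp_sup]
          refine ⟨fun h hh => hN.1.2 v hv h (hHN hh), fun w hw => ?_⟩
          obtain ⟨a, rfl⟩ := Submodule.mem_span_singleton.1 hw
          rw [F.B_smul_right, hve, mul_zero]
        have h2 : v ∈ M := mem_of_perp hmax hM (hN.1.sing hv) h1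
        have h3 : M ⊓ N = H := adj_of_ne hM.2 hN.2 hH hHM hHN fun h => hNM h.symm
        rw [← h3]
        exact ⟨h2, hv⟩
      refine Nat.card_congr
        { toFun := fun v => ⟨v.1.1 - v₀, ?_⟩
          invFun := fun h => ⟨⟨h.1 + v₀, ?_, ?_, ?_⟩, ?_⟩
          left_inv := fun v => Subtype.ext (Subtype.ext ?_)
          right_inv := fun h => Subtype.ext ?_ }
      · obtain ⟨⟨v, h1, h2, h3⟩, h4⟩ := v
        have h5 : H ⊔ K ∙ v = N := congrArg (fun N : {N : F.Om m // H ≤ N.1 ∧ N.1 ≠ M} => N.1.1) h4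
        refine hdiff _ (N.sub_mem ((hfib v h1 h2 h3).1 h5) hv₀) ?_
        change F.B e (v - v₀) = 0
        rw [F.B_sub_right, h3, hv₀', sub_self]
      · exact fun w hw => hN.1.2 _ (N.add_mem (hHN h.2) hv₀) w (hHN hw)
      · exact hN.1.sing (N.add_mem (hHN h.2) hv₀)
      · rw [F.B_add_right, hv₀', hM.1.2 e heM _ (hHM h.2), zero_add]
      · apply Subtype.ext
        apply Subtype.ext
        exact (hfib _ (fun w hw => hN.1.2 _ (N.add_mem (hHN h.2) hv₀) w (hHN hw))
          (hN.1.sing (N.add_mem (hHN h.2) hv₀))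
          (by rw [F.B_add_right, hv₀', hM.1.2 e heM _ (hHM h.2), zero_add])).2 (N.add_mem (hHN h.2) hv₀)
      · exact sub_add_cancel _ _
      · exact add_sub_cancel_right _ _
  -- conclusion
  rw [hZ2] at hZ1
  have hcD : Nat.card D = Nat.card K ^ (finrank K V - 2 * m) * Nat.card K ^ (m - 1) := by
    rw [Module.natCard_eq_pow_finrank (K := K) (V := D), ← pow_add]
    congr 1
    omega
  have hcH : Nat.card H = Nat.card K ^ (m - 1) := by
    rw [Module.natCard_eq_pow_finrank (K := K) (V := H)]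
    congr 1
    omega
  rw [hcD, hcH] at hZ1
  have hpos : 0 < Nat.card K ^ (m - 1) := pow_pos Nat.card_pos _
  apply Nat.eq_of_mul_eq_mul_right hpos
  rw [hZ1]
  ring

/-- **the polar space of a form** -/
theorem pol_of (hex : ∃ M, M ∈ F.Om m) :
    Pol F m (Nat.card {t : K // F.T t = 0} * Nat.card K ^ (finrank K V - 2 * m)) := by
  classical
  refine ⟨hmax, hex, fun H hH hf => ?_⟩
  obtain ⟨M, hM, hHM⟩ := exists_ge hex hH (k := m - 1) (by omega) (by omega)
  have := Fintype.ofFinite (F.Om m)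
  rw [← card_edge hmax hM hHM hf, Nat.card_eq_fintype_card, Nat.card_eq_fintype_card, Fintype.card_subtype,
    Fintype.card_subtype]
  have h2 : (Finset.univ.filter fun N : F.Om m => H ≤ N.1 ∧ N.1 ≠ M) =
      (Finset.univ.filter fun N : F.Om m => H ≤ N.1).erase ⟨M, hM⟩ := by
    ext N
    simp only [Finset.mem_filter, Finset.mem_univ, true_and, Finset.mem_erase, ne_eq, Subtype.ext_iff]
    exact and_comm
  rw [h2, Finset.card_erase_of_mem (by simp [hHM]), Nat.sub_add_cancel]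
  exact Finset.card_pos.2 ⟨⟨M, hM⟩, by simp [hHM]⟩

end

end Cfsg.Agent.H47.DP
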