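import Cfsg.Agent.H47.DP.TpC

/-!
# S4612: transvections, products of two reflections and Siegel transformations (helper47)

`exists_tv`, `exists_rf`, `exists_sg`; `rf_mul_mem`, `sg_mem` : products of two reflections in vectors of the same norm and
the Siegel transformations lie in the commutator subgroup of the isometry group.
-/

set_option autoImplicit false
set_option linter.unusedSectionVars false

open Cfsg

namespace Cfsg.Agent.H47.DP

open Cfsg.Agent.H477.HC Cfsg.Agent.H477.HC.CForm Cfsg.Agent.H53.HC Module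
open Polynomial
open scoped commutatorElement

universe u v w

variable {K : Type u} [Field K] {V : Type v} [AddCommGroup V] [Module K V] [FiniteDimensional K V] {F : CForm K V}

theorem exists_tv {κ : K} (h1 : F.σ κ + F.ε * κ = 0) (h2 : ∀ a, F.T (F.σ κ * (a * F.σ a)) = 0) {v : V}
    (hv : F.Sing v) : ∃ g : F.iso, ∀ x, (g : V ≃ₗ[K] V) x = tv F κ v x := by
  refine F.exists_iso (tv F κ v) (fun x y => ?_) (fun x => ?_)
  · rw [tv_apply, tv_apply, F.B_add_left, F.B_add_right, F.B_add_right, F.B_smul_left, F.B_smul_left, F.B_smul_right,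
      F.B_smul_right, hv.2, map_mul, F.B_symm v y]
    linear_combination (F.B x v * F.σ (F.B y v)) * h1
  · rw [tv_apply, F.Q_add, F.Q_smul, hv.1, mul_zero, add_zero, F.B_smul_right, map_mul]
    have h3 : F.σ κ * F.σ (F.B x v) * F.B x v = F.σ κ * (F.B x v * F.σ (F.B x v)) := by ring
    rw [h3, h2, add_zero]

section quad

variable (hQ : Quad F)
include hQ

theorem Quad.B_self (v : V) : F.B v v = 2 * F.Q v := by
  have h1 := F.Q_add v v
  have h2 := F.Q_smul 2 v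
  rw [two_smul, hQ.σ] at h2
  rw [hQ.T, h2] at h1
  linear_combination -h1

theorem Quad.Q_add (u v : V) : F.Q (u + v) = F.Q u + F.Q v + F.B u v := by
  rw [F.Q_add, hQ.T]

theorem Quad.Q_smul (a : K) (v : V) : F.Q (a • v) = a * a * F.Q v := by
  rw [F.Q_smul, hQ.σ]

theorem Quad.B_smul_right (a : K) (u v : V) : F.B u (a • v) = a * F.B u v := by
  rw [F.B_smul_right, hQ.σ]

theorem exists_rf {τ : K} (hτ : τ ≠ 0) {v : V} (hv : F.Q v = τ) :
    ∃ g : F.iso, ∀ x, (g : V ≃ₗ[K] V) x = tv F (-τ⁻¹) v x := by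
  have hvv := hQ.B_self v
  rw [hv] at hvv
  refine F.exists_iso (tv F (-τ⁻¹) v) (fun x y => ?_) (fun x => ?_)
  · rw [tv_apply, tv_apply, F.B_add_left, F.B_add_right, F.B_add_right, F.B_smul_left, F.B_smul_left, hQ.B_smul_right,
      hQ.B_smul_right, hvv, hQ.symm v y]
    field_simp
    ring
  · rw [tv_apply, hQ.Q_add, hQ.Q_smul, hv, hQ.B_smul_right]
    field_simp
    ring

theorem exists_sg {z y : V} (hz : F.Sing z) (hyz : F.B y z = 0) :
    ∃ g : F.iso, ∀ x, (g : V ≃ₗ[K] V) x = sg F z y x := by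
  have hzy : F.B z y = 0 := F.B_eq_zero hyz
  refine F.exists_iso (sg F z y) (fun x x' => ?_) (fun x => ?_)
  · simp only [sg_apply, F.B_add_left, F.B_sub_left, F.B_smul_left, F.B_add_right, F.B_sub_right, hQ.B_smul_right, hyz,
      hzy, hz.2, hQ.B_self y, hQ.symm y x', hQ.symm z x']
    ring
  · have e1 : sg F z y x = x + (F.B x z • y + (-(F.B x y + F.Q y * F.B x z)) • z) := by
      rw [sg_apply]; module
    rw [e1, hQ.Q_add, hQ.Q_add, hQ.Q_smul, hQ.Q_smul, hz.1, F.B_add_right, hQ.B_smul_right, hQ.B_smul_right,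
      F.B_smul_left, hQ.B_smul_right, hyz]
    ring

theorem rf_invol {τ : K} (hτ : τ ≠ 0) {v : V} (hv : F.Q v = τ) {g : F.iso}
    (hg : ∀ x, (g : V ≃ₗ[K] V) x = tv F (-τ⁻¹) v x) : g * g = 1 := by
  apply Subtype.ext
  apply LinearEquiv.ext
  intro x
  change (g : V ≃ₗ[K] V) ((g : V ≃ₗ[K] V) x) = x
  have hvv := hQ.B_self v
  rw [hv] at hvv
  rw [hg, hg, tv_apply, tv_apply, F.B_add_left, F.B_smul_left, hvv]
  have h1 : -τ⁻¹ * (F.B x v + -τ⁻¹ * F.B x v * (2 * τ)) = -(-τ⁻¹ * F.B x v) := by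
    field_simp
    ring
  rw [h1]
  module

/-- transitivity on the vectors of norm `τ` -/
theorem exists_map {τ : K} (hτ : τ ≠ 0) {v w : V} (hv : F.Q v = τ) (hw : F.Q w = τ) :
    ∃ h : F.iso, (h : V ≃ₗ[K] V) v = w := by
  have hvv := hQ.B_self v
  rw [hv] at hvv
  have hd : F.Q (v - w) = 2 * τ - F.B v w := by
    have e1 : v - w = v + (-1 : K) • w := by module
    rw [e1, hQ.Q_add, hQ.Q_smul, hQ.B_smul_right, hv, hw]
    ring
  by_cases h0 : F.Q (v - w) = 0
  · obtain ⟨s, hs⟩ : ∃ s, s = w - v := ⟨_, rfl⟩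
    have hws : w = v + s := by rw [hs]; abel
    have hs0 : F.Q s = 0 := by
      have e1 : s = (-1 : K) • (v - w) := by rw [hs]; module
      rw [e1, hQ.Q_smul, h0, mul_zero]
    have hvs : F.B v s = 0 := by
      rw [hs, F.B_sub_right, hvv]
      rw [hd] at h0
      linear_combination -h0
    obtain ⟨y', hy's, hy'v⟩ : ∃ y ∈ F.perp (K ∙ s), F.B v y ≠ 0 := by
      by_contra hcon
      push Not at hcon
      have h1 : v ∈ F.perp (F.perp (K ∙ s)) := hcon
      rw [F.perp_perp] at h1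
      obtain ⟨c, hc⟩ := Submodule.mem_span_singleton.1 h1
      apply hτ
      rw [← hv, ← hc, hQ.Q_smul, hs0, mul_zero]
    obtain ⟨y, hys, hyv⟩ : ∃ y, F.B y s = 0 ∧ F.B v y = -1 := by
      refine ⟨(-(F.B v y')⁻¹) • y', ?_, ?_⟩
      · rw [F.B_smul_left, mem_perp_span.1 hy's, mul_zero]
      · rw [hQ.B_smul_right, neg_mul, inv_mul_cancel₀ hy'v]
    obtain ⟨h, hh⟩ := exists_sg hQ (sing_of_Q hs0) hys
    refine ⟨h, ?_⟩
    rw [hh, sg_apply, hvs, hyv, hws]
    module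
  · obtain ⟨h, hh⟩ := exists_rf hQ h0 rfl
    refine ⟨h, ?_⟩
    rw [hh, tv_apply]
    have h1 : F.B v (v - w) = F.Q (v - w) := by rw [F.B_sub_right, hvv, hd]
    rw [h1, neg_mul, inv_mul_cancel₀ h0]
    module

/-- **products of two reflections in vectors of the same norm** -/
theorem rf_mul_mem {τ : K} (hτ : τ ≠ 0) {v w : V} (hv : F.Q v = τ) (hw : F.Q w = τ) {g g' : F.iso}
    (hg : ∀ x, (g : V ≃ₗ[K] V) x = tv F (-τ⁻¹) v x) (hg' : ∀ x, (g' : V ≃ₗ[K] V) x = tv F (-τ⁻¹) w x) :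
    g * g' ∈ commutator F.iso := by
  obtain ⟨h, hh⟩ := exists_map hQ hτ hv hw
  have h1 : g' = h * g * h⁻¹ := by
    apply Subtype.ext
    apply LinearEquiv.ext
    intro x
    change (g' : V ≃ₗ[K] V) x = (h : V ≃ₗ[K] V) ((g : V ≃ₗ[K] V) ((h : V ≃ₗ[K] V).symm x))
    rw [hg, hg', tv_apply, tv_apply, map_add, map_smul, LinearEquiv.apply_symm_apply, hh]
    congr 2
    congr 1
    rw [← F.iso_B h ((h : V ≃ₗ[K] V).symm x) v, LinearEquiv.apply_symm_apply, hh]
  have h2 : g⁻¹ = g := inv_eq_of_mul_eq_one_left (rf_invol hQ hτ hv hg)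
  have h3 : g * g' = ⁅g, h⁆ := by
    rw [commutatorElement_def, h1, h2]
    group
  rw [h3, commutator_def]
  exact Subgroup.commutator_mem_commutator (Subgroup.mem_top _) (Subgroup.mem_top _)

theorem sg_comp {z y₁ y₂ : V} (hz : F.Sing z) (h1 : F.B y₁ z = 0) (h2 : F.B y₂ z = 0) (x : V) :
    sg F z y₁ (sg F z y₂ x) = sg F z (y₁ + y₂) x := by
  rw [sg_apply z y₂, sg_apply z (y₁ + y₂), sg_apply z y₁, hQ.Q_add]
  have hz1 : F.B z y₁ = 0 := F.B_eq_zero h1
  simp only [F.B_sub_left, F.B_add_left, F.B_smul_left, F.B_add_right, hz.2, hz1, h2, mul_zero, add_zero, sub_zero,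
    hQ.symm y₂ y₁]
  module

/-- **the Siegel transformations lie in the commutator subgroup** -/
theorem sg_mem {m : ℕ} (hmax : ∀ W : Submodule K V, F.TS W → finrank K W ≤ m) (hm : m + 2 < finrank K V) {z y : V}
    (hz : F.Sing z) (hyz : F.B y z = 0) : ∃ g : F.iso, g ∈ commutator F.iso ∧ ∀ x, (g : V ≃ₗ[K] V) x = sg F z y x := by
  -- `Q y ≠ 0`
  have key : ∀ y : V, F.B y z = 0 → F.Q y ≠ 0 →
      ∃ g : F.iso, g ∈ commutator F.iso ∧ ∀ x, (g : V ≃ₗ[K] V) x = sg F z y x := by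
    intro y hyz hy
    have hzy : F.B z y = 0 := F.B_eq_zero hyz
    have h1 : F.Q (y + (-F.Q y) • z) = F.Q y := by
      rw [hQ.Q_add, hQ.Q_smul, hz.1, hQ.B_smul_right, hyz]
      ring
    obtain ⟨g₁, hg₁⟩ := exists_rf hQ hy h1
    obtain ⟨g₂, hg₂⟩ := exists_rf hQ hy (rfl : F.Q y = F.Q y)
    refine ⟨g₁ * g₂, rf_mul_mem hQ hy h1 rfl hg₁ hg₂, fun x => ?_⟩
    change (g₁ : V ≃ₗ[K] V) ((g₂ : V ≃ₗ[K] V) x) = _
    rw [hg₂, hg₁, tv_apply, tv_apply, sg_apply]
    simp only [F.B_add_right, hQ.B_smul_right, F.B_add_left, F.B_smul_left, hQ.B_self y, hyz]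
    obtain ⟨t, ht⟩ : ∃ t, t = F.Q y := ⟨_, rfl⟩
    rw [← ht] at hy ⊢
    obtain ⟨α, hα⟩ : ∃ α, α = F.B x z := ⟨_, rfl⟩
    obtain ⟨β, hβ⟩ : ∃ β, β = F.B x y := ⟨_, rfl⟩
    rw [← hα, ← hβ]
    have e1 : -t⁻¹ * (β + -t⁻¹ * β * (2 * t) + -t * (α + -t⁻¹ * β * 0)) = t⁻¹ * β + α := by
      field_simp
      try ring
    rw [e1]
    have e2 : (t⁻¹ * β + α) • (y + -t • z) = (t⁻¹ * β + α) • y + (-(β + t * α)) • z := by
      rw [smul_add, smul_smul]
      congr 2
      field_simp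
      try ring
    rw [e2]
    module
  by_cases hy : F.Q y = 0
  · -- a vector `u ⟂ y, z` with `Q u ≠ 0`
    obtain ⟨W, hW⟩ : ∃ W, W = F.perp ((K ∙ y) ⊔ (K ∙ z)) := ⟨_, rfl⟩
    have hWf : finrank K V ≤ finrank K W + 2 := by
      have h1 := finrank_perp F ((K ∙ y) ⊔ (K ∙ z))
      have h2 : finrank K ((K ∙ y) ⊔ (K ∙ z) : Submodule K V) ≤ 2 := by
        have h3 := Submodule.finrank_add_le_finrank_add_finrank (K ∙ y) (K ∙ z)
        have h4 := finrank_span_le_card (R := K) ({y} : Set V)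
        have h5 := finrank_span_le_card (R := K) ({z} : Set V)
        rw [Set.toFinset_singleton, Finset.card_singleton] at h4 h5
        omega
      rw [← hW] at h1
      omega
    obtain ⟨u, hu, hu0⟩ : ∃ u ∈ W, F.Q u ≠ 0 := by
      by_contra hcon
      push Not at hcon
      have h1 : F.TS W := by
        refine ⟨hcon, fun u hu u' hu' => ?_⟩
        have h2 := hcon _ (W.add_mem hu hu')
        rw [hQ.Q_add, hcon u hu, hcon u' hu'] at h2
        linear_combination h2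
      have := hmax W h1
      omega
    have huy : F.B u y = 0 := by
      rw [hW] at hu
      exact hu y ((le_sup_left : K ∙ y ≤ _) (Submodule.mem_span_singleton_self y))
    have huz : F.B u z = 0 := by
      rw [hW] at hu
      exact hu z ((le_sup_right : K ∙ z ≤ (K ∙ y) ⊔ (K ∙ z)) (Submodule.mem_span_singleton_self z))
    have hyu : F.B y u = 0 := F.B_eq_zero huy
    have h1 : F.B (y + (-1 : K) • u) z = 0 := by rw [F.B_add_left, F.B_smul_left, hyz, huz]; ring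
    have h2 : F.Q (y + (-1 : K) • u) ≠ 0 := by
      rw [hQ.Q_add, hQ.Q_smul, hQ.B_smul_right, hy, hyu]
      simpa using hu0
    obtain ⟨g₁, hg₁, h3⟩ := key _ h1 h2
    obtain ⟨g₂, hg₂, h4⟩ := key _ huz hu0
    refine ⟨g₁ * g₂, Subgroup.mul_mem _ hg₁ hg₂, fun x => ?_⟩
    change (g₁ : V ≃ₗ[K] V) ((g₂ : V ≃ₗ[K] V) x) = _
    rw [h3, h4, sg_comp hQ hz h1 huz]
    congr 2
    module
  · exact key y hyz hy

end quad

end Cfsg.Agent.H47.DP
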