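import Cfsg.Agent.H47.DP.Adj

/-!
# S4612: the Hecke test on the dual polar graph (helper47)
-/

set_option autoImplicit false
set_option linter.unusedSectionVars false

open Cfsg

namespace Cfsg.Agent.H47.DP

open Cfsg.Agent.H477.HC Cfsg.Agent.H477.HC.CForm Cfsg.Agent.H53.HC Module Cfsg.Agent.H317.PQ
open Polynomial

universe u v w

variable {K : Type u} [Field K] {V : Type v} [AddCommGroup V] [Module K V] [FiniteDimensional K V] {F : CForm K V}
variable {m E : ℕ}

open scoped Classical in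
/-- the adjacency matrix -/
noncomputable def adjm (F : CForm K V) (m : ℕ) (M N : F.Om m) : ℤ := if Adj m M.1 N.1 then 1 else 0

open scoped Classical in
/-- the indicator function of the maximal subspaces containing `U` -/
noncomputable def ind (F : CForm K V) (m : ℕ) (U : Submodule K V) (N : F.Om m) : ℤ := if U ≤ N.1 then 1 else 0

variable [Finite K] [Finite V] [Fintype (F.Om m)]

theorem op_ind (hP : Pol F m E) {U : Submodule K V} (hU : F.TS U) (M : F.Om m) [Fintype (Submodule K V)]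
    [DecidablePred fun H : Submodule K V => H ≤ U ∧ finrank K H + 1 = finrank K U] :
    op (adjm F m) (fun N => (ind F m U N : ℂ)) M = (th (Nat.card K) m E (finrank K U) : ℂ) * (ind F m U M : ℂ) +
      ∑ H ∈ Finset.univ.filter (fun H : Submodule K V => H ≤ U ∧ finrank K H + 1 = finrank K U), (ind F m H M : ℂ) := by
  classical
  have h1 := card_nbr hP M.2 hU
  have e1 : (Nat.card {N : F.Om m // Adj m M.1 N.1 ∧ U ≤ N.1} : ℤ) = ∑ N, adjm F m M N * ind F m U N := by
    rw [Nat.card_eq_fintype_card, Fintype.card_subtype, Finset.card_filter, Nat.cast_sum]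
    refine Finset.sum_congr rfl fun N _ => ?_
    unfold adjm ind
    by_cases h : Adj m M.1 N.1 <;> by_cases h' : U ≤ N.1 <;> simp [h, h']
  have e2 : (Nat.card {_x : Unit // U ≤ M.1} : ℤ) = ind F m U M := by
    unfold ind
    by_cases h : U ≤ M.1
    · rw [if_pos h]
      have : Nat.card {_x : Unit // U ≤ M.1} = 1 := by
        rw [Nat.card_eq_one_iff_unique]
        exact ⟨⟨fun a b => Subtype.ext rfl⟩, ⟨⟨(), h⟩⟩⟩
      rw [this, Nat.cast_one]
    · rw [if_neg h]
      have h0 : Nat.card {_x : Unit // U ≤ M.1} = 0 := @Nat.card_of_isEmpty _ ⟨fun x => h x.2⟩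
      rw [h0, Nat.cast_zero]
  have e3 : (Nat.card {H : Submodule K V // (H ≤ U ∧ finrank K H + 1 = finrank K U) ∧ H ≤ M.1} : ℤ) =
      ∑ H ∈ Finset.univ.filter (fun H : Submodule K V => H ≤ U ∧ finrank K H + 1 = finrank K U), ind F m H M := by
    rw [Nat.card_eq_fintype_card, Fintype.card_subtype, ← Finset.filter_filter, Finset.card_filter, Nat.cast_sum]
    refine Finset.sum_congr rfl fun H _ => ?_
    unfold ind
    by_cases h : H ≤ M.1 <;> simp [h]
  rw [e1, e2, e3] at h1
  rw [op_apply]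
  have h2 := congrArg (Int.cast : ℤ → ℂ) h1
  push_cast at h2
  exact h2

/-- `∏ (A - θ_j) v_U` is constant -/
theorem prod_ind (hP : Pol F m E) : ∀ (u : ℕ) (U : Submodule K V), F.TS U → finrank K U = u →
    aeval (op (adjm F m)) (∏ j ∈ Finset.Icc 1 u, (Polynomial.X - C (th (Nat.card K) m E j : ℂ)))
      (fun N => (ind F m U N : ℂ)) = fun _ => ((∏ j ∈ Finset.Icc 1 u, gn (Nat.card K) j : ℕ) : ℂ) := by
  classical
  have := Fintype.ofFinite (Submodule K V)
  intro u
  induction u with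
  | zero =>
    intro U hU hu
    have hb : U = ⊥ := Submodule.finrank_eq_zero.1 hu
    simp only [Nat.reduceLT, Finset.Icc_eq_empty_of_lt, Finset.prod_empty, map_one, Module.End.one_apply, Nat.cast_one]
    funext N
    rw [hb]
    simp [ind]
  | succ u ih =>
    intro U hU hu
    rw [Finset.prod_Icc_succ_top (by omega), map_mul, Module.End.mul_apply, map_sub, aeval_X, aeval_C,
      LinearMap.sub_apply, Module.algebraMap_end_apply]
    have e1 : (op (adjm F m)) (fun N => (ind F m U N : ℂ)) -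
        (th (Nat.card K) m E (u + 1) : ℂ) • (fun N => (ind F m U N : ℂ)) =
        ∑ H ∈ Finset.univ.filter (fun H : Submodule K V => H ≤ U ∧ finrank K H + 1 = finrank K U),
          fun N => (ind F m H N : ℂ) := by
      funext M
      rw [Pi.sub_apply, Pi.smul_apply, smul_eq_mul, op_ind hP hU, hu, add_sub_cancel_left, Finset.sum_apply]
    rw [e1, map_sum]
    have e2 : ∀ H ∈ Finset.univ.filter (fun H : Submodule K V => H ≤ U ∧ finrank K H + 1 = finrank K U),
        aeval (op (adjm F m)) (∏ j ∈ Finset.Icc 1 u, (Polynomial.X - C (th (Nat.card K) m E j : ℂ)))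
          (fun N => (ind F m H N : ℂ)) = fun _ => ((∏ j ∈ Finset.Icc 1 u, gn (Nat.card K) j : ℕ) : ℂ) := by
      intro H hH
      rw [Finset.mem_filter] at hH
      exact ih H (hU.mono hH.2.1) (by omega)
    rw [Finset.sum_congr rfl e2]
    funext N
    rw [Finset.sum_apply, Finset.sum_const, nsmul_eq_mul, Finset.prod_Icc_succ_top (by omega)]
    have h3 := card_hyps_le (M := U)
    rw [Nat.card_eq_fintype_card, Fintype.card_subtype, hu] at h3
    rw [hu, h3]
    push_cast
    ring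

theorem gn_add (Q a b : ℕ) : gn Q (a + b) = gn Q a + Q ^ a * gn Q b := by
  unfold gn
  rw [Finset.sum_range_add, Finset.mul_sum]
  congr 1
  exact Finset.sum_congr rfl fun i _ => by rw [pow_add]

theorem th_sub {Q j : ℕ} (hj : j ≤ m) : th Q m E 0 - th Q m E j = gn Q j * (E * Q ^ (m - j) + 1) := by
  unfold th
  obtain ⟨i, rfl⟩ := Nat.exists_eq_add_of_le hj
  rw [Nat.sub_zero, gn_zero, Nat.add_sub_cancel_left, add_comm j i, gn_add]
  push_cast
  ring

theorem op_one (hP : Pol F m E) (M : F.Om m) : ∑ N, adjm F m M N = th (Nat.card K) m E 0 := by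
  classical
  have := Fintype.ofFinite (Submodule K V)
  have h1 := card_nbr hP M.2 (TS_bot F)
  rw [finrank_bot] at h1
  have e1 : (Nat.card {N : F.Om m // Adj m M.1 N.1 ∧ ⊥ ≤ N.1} : ℤ) = ∑ N, adjm F m M N := by
    rw [Nat.card_eq_fintype_card, Fintype.card_subtype, Finset.card_filter, Nat.cast_sum]
    refine Finset.sum_congr rfl fun N _ => ?_
    unfold adjm
    by_cases h : Adj m M.1 N.1 <;> simp [h]
  have e2 : Nat.card {_x : Unit // (⊥ : Submodule K V) ≤ M.1} = 1 := by
    rw [Nat.card_eq_one_iff_unique]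
    exact ⟨⟨fun a b => Subtype.ext rfl⟩, ⟨⟨(), bot_le⟩⟩⟩
  have e3 : Nat.card {H : Submodule K V // (H ≤ ⊥ ∧ finrank K H + 1 = 0) ∧ H ≤ M.1} = 0 :=
    @Nat.card_of_isEmpty _ ⟨fun H => by have := H.2.1.2; omega⟩
  rw [e1, e2, e3] at h1
  simpa using h1

/-- cancelling in the `p`-part -/
theorem cancel {p : ℕ} (hp : p.Prime) {a b c : ℕ} (ha : a ≠ 0) (h : ∀ k, p ^ k ∣ a * b → p ^ k ∣ a * c) {k : ℕ}
    (hk : p ^ k ∣ b) : p ^ k ∣ c := by
  obtain ⟨w, a', ha', rfl⟩ := Nat.exists_eq_pow_mul_and_not_dvd ha p hp.one_lt.ne'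
  have h1 := h (w + k) (by
    rw [pow_add, mul_assoc]
    exact mul_dvd_mul_left _ (hk.mul_left _))
  rw [pow_add, mul_assoc] at h1
  have h2 := Nat.dvd_of_mul_dvd_mul_left (pow_pos hp.pos w) h1
  exact (Nat.Coprime.pow_left k ((Nat.Prime.coprime_iff_not_dvd hp).2 ha')).dvd_of_dvd_mul_left h2

/-- **the Hecke test** -/
theorem hecke {p q : ℕ} (hp : p.Prime) (hq : q.Prime) {G : Type w} [Group G] [Fintype G] [MulAction G (F.Om m)]
    (hP : Pol F m E) (hadj : ∀ (g : G) (M N : F.Om m), Adj m (g • M).1 (g • N).1 ↔ Adj m M.1 N.1)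
    (hpq : B0 p G ⊆ B0 q G) {u : ℕ} (hu : u ≤ m) {J : Finset ℕ} (hJ : J ⊆ Finset.Icc 1 u)
    (hs : ∀ j ∈ Finset.Icc 1 u, j ∉ J →
      Sep q (fnRep G (F.Om m)) (op (adjm F m)) (th (Nat.card K) m E j) (th (Nat.card K) m E 0))
    {k : ℕ} (hk : p ^ k ∣ ∏ j ∈ Finset.Icc 1 u \ J, (E * Nat.card K ^ (m - j) + 1)) :
    p ^ k ∣ ∏ j ∈ J, gn (Nat.card K) j := by
  classical
  obtain ⟨M₀, hM₀⟩ := hP.ex
  have : Nonempty (F.Om m) := ⟨⟨M₀, hM₀⟩⟩
  -- a totally singular subspace of dimension `u`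
  obtain ⟨U, hU, hUu⟩ : ∃ U : Submodule K V, F.TS U ∧ finrank K U = u := by
    let b := finBasis K M₀
    let f : Fin u → V := fun i => (b (Fin.castLE (by rw [hM₀.2]; exact hu) i) : V)
    have hli : LinearIndependent K f :=
      (b.linearIndependent.map' M₀.subtype (Submodule.ker_subtype _)).comp _ (Fin.castLE_injective _)
    refine ⟨Submodule.span K (Set.range f), hM₀.1.mono ?_, ?_⟩
    · rw [Submodule.span_le]
      rintro _ ⟨i, rfl⟩
      exact (b _).2
    · rw [finrank_span_eq_card hli, Fintype.card_fin]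
  refine cancel hp (a := ∏ j ∈ Finset.Icc 1 u \ J, gn (Nat.card K) j)
    (Finset.prod_ne_zero_iff.2 fun j hj => (gn_pos _ (by
      have := (Finset.mem_Icc.1 (Finset.mem_sdiff.1 hj).1).1
      omega)).ne') (fun k hk => ?_) hk
  rw [← Finset.prod_mul_distrib] at hk
  rw [Finset.prod_sdiff hJ]
  have hth : ∀ j ∈ Finset.Icc 1 u, th (Nat.card K) m E 0 - th (Nat.card K) m E j =
      ((gn (Nat.card K) j * (E * Nat.card K ^ (m - j) + 1) : ℕ) : ℤ) := by
    intro j hj
    rw [th_sub ((Finset.mem_Icc.1 hj).2.trans hu)]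
    push_cast
    ring
  have h1 := key_fn hp hq hpq (X := F.Om m) (a := adjm F m) (fun g M N => by
      unfold adjm
      by_cases h : Adj m M.1 N.1
      · rw [if_pos h, if_pos ((hadj g M N).2 h)]
      · rw [if_neg h, if_neg fun h' => h ((hadj g M N).1 h')])
    (θ := th (Nat.card K) m E) (op_one hP) (v := ind F m U) hJ
    (c₀ := ((∏ j ∈ Finset.Icc 1 u, gn (Nat.card K) j : ℕ) : ℤ))
    (by rw [prod_ind hP u U hU hUu]; norm_cast)
    (fun j hj h0 => by
      have h2 := hth j hj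
      rw [h0, sub_self] at h2
      have h3 : gn (Nat.card K) j * (E * Nat.card K ^ (m - j) + 1) ≠ 0 :=
        Nat.mul_ne_zero (gn_pos _ (Finset.mem_Icc.1 hj).1).ne' (Nat.succ_ne_zero _)
      exact h3 (by exact_mod_cast h2.symm))
    hs (k := k) (by
      rw [Finset.prod_congr rfl fun j hj => hth j (Finset.mem_sdiff.1 hj).1]
      exact_mod_cast hk)
  exact_mod_cast h1

end Cfsg.Agent.H47.DP
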