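import Cfsg.Agent.H47.DP.NumQ

/-!
# S4612: the numbers of the Hecke test for the unitary groups and for `Ω⁺` (helper47)
-/

set_option autoImplicit false
set_option linter.unusedSectionVars false

namespace Cfsg.Agent.H47.DP

variable {p q : ℕ}

/-- **unitary groups**, `d ≠ 1` -/
theorem num_uni {s m f d d' : ℕ} (hp : p.Prime) (hq : q.Prime) (hp2 : p ≠ 2) (hs : 2 ≤ s)
    (hd : orderOf ((s : ℕ) : ZMod p) = 2 * d) (hd' : orderOf ((s : ℕ) : ZMod q) = 2 * d') (hd1 : 1 < d)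
    (hod : Odd d) (hlt : d < d') (hno : ¬ d ∣ d') (hf : f ≤ 1)
    (hex : ∃ j, 1 ≤ j ∧ j ≤ m ∧ p ∣ s ^ (2 * (m - j) + (2 * f + 1)) + 1)
    (h : HT p q m (fun j => s ^ (2 * f + 1) * (s ^ 2) ^ (m - j) + 1) (gn (s ^ 2))
      fun j => gn (s ^ 2) j * (s ^ (2 * f + 1) * (s ^ 2) ^ (m - j) + 1)) : False := by
  have hps : ¬ p ∣ s := not_dvd_of_ord hp (by omega)
  have hqs : ¬ q ∣ s := not_dvd_of_ord hq (by omega)
  have hX : ∀ j, s ^ (2 * f + 1) * (s ^ 2) ^ (m - j) + 1 = s ^ (2 * (m - j) + (2 * f + 1)) + 1 := fun j => by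
    rw [← pow_mul, ← pow_add, add_comm (2 * f + 1)]
  have hs2 : 1 ≤ s ^ 2 := Nat.one_le_pow _ _ (by omega)
  have hp1 : ¬ p ∣ s ^ 2 - 1 := by
    intro h1
    rw [dvd_sub_one_iff (by omega), hd] at h1
    have := Nat.le_of_dvd two_pos h1
    omega
  have hq1 : ¬ q ∣ s ^ 2 - 1 := by
    intro h1
    rw [dvd_sub_one_iff (by omega), hd'] at h1
    have := Nat.le_of_dvd two_pos h1
    omega
  obtain ⟨τ, hτ1, hτ, hτ'⟩ := exists_tau hp hs hps
  classical
  obtain ⟨u₀, ⟨hu1, hum, hu⟩, hmin⟩ : ∃ u, (1 ≤ u ∧ u ≤ m ∧ p ∣ s ^ (2 * (m - u) + (2 * f + 1)) + 1) ∧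
      ∀ j < u, ¬ (1 ≤ j ∧ j ≤ m ∧ p ∣ s ^ (2 * (m - j) + (2 * f + 1)) + 1) :=
    ⟨Nat.find hex, Nat.find_spec hex, fun j hj => Nat.find_min hex hj⟩
  have hexp : ∀ j, j ≤ m → ((2 * (m - j) + (2 * f + 1) : ℕ) : ℤ) - ((2 * (m - u₀) + (2 * f + 1) : ℕ) : ℤ) =
      2 * (-((j : ℤ) - u₀)) := by
    intro j hj
    push_cast [Nat.cast_sub hj, Nat.cast_sub hum]
    ring
  have h2d : ∀ (c : ℕ) (z : ℤ), ((2 * c : ℕ) : ℤ) ∣ 2 * -z ↔ (c : ℤ) ∣ z := by
    intro c z
    push_cast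
    rw [mul_dvd_mul_iff_left (two_ne_zero), dvd_neg]
  have hYp := gn_not_dvd hp hp2 (Q := s ^ 2) (P := d) (τ := τ) hs2 hp1 (by rwa [← pow_mul, ← hd])
    (by rw [← pow_mul, dvd_sub_one_iff (by omega), hd])
  refine num_core (P := d) (P' := d') (u₀ := u₀) (τ := τ) hp hq h hlt (fun j hj => ?_) (fun j => ?_) hYp.1
    hYp.2 hτ1 (fun j hj hdv => ?_) (fun hqu j h1 h2 => ?_) hu1 ?_ hum (fun hqu => ?_)
  · have h1 := (gn_dvd hp hs2 hp1 1 j).1 (by rwa [pow_one])
    rw [pow_one, ← pow_mul, dvd_sub_one_iff (by omega), hd] at h1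
    exact Nat.dvd_of_mul_dvd_mul_left two_pos h1
  · have h1 := gn_dvd hq hs2 hq1 1 j
    rw [pow_one] at h1
    rw [h1, ← pow_mul, dvd_sub_one_iff (by omega), hd', Nat.mul_dvd_mul_iff_left two_pos]
  · rw [hX]
    refine pow_dvd_add_one hp hp2 (by omega) hτ ?_
    rw [dvd_add_one_iff hp hps hu, hexp j hj, hd, h2d]
    exact hdv
  · rw [hX]
    have hqu' : q ∣ s ^ (2 * f + 1) * (s ^ 2) ^ (m - u₀) + 1 := hqu
    rw [hX] at hqu'
    rw [dvd_add_one_iff hq hqs hqu', hexp j h2, hd', h2d]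
  · by_contra hcon
    have h1 : p ∣ s ^ (2 * (m - (u₀ - d)) + (2 * f + 1)) + 1 := by
      rw [dvd_add_one_iff hp hps hu, hd]
      exact ⟨1, by push_cast; omega⟩
    exact hmin (u₀ - d) (by omega) ⟨by omega, by omega, h1⟩
  · have hqu' : q ∣ s ^ (2 * f + 1) * (s ^ 2) ^ (m - u₀) + 1 := hqu
    rw [hX] at hqu'
    obtain ⟨a, ha, h1⟩ := dvd_add_one_mul hp hd (by omega) hu
    obtain ⟨a', ha', h2⟩ := dvd_add_one_mul hq hd' (by omega) hqu'
    obtain ⟨h3, h4, h5, h6, h7, h8⟩ := common (by omega) hlt ha ha' (h1.symm.trans h2)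
      (fun c _ h => hno ⟨c, h⟩)
    obtain ⟨r, hr⟩ := hod
    exact ⟨by omega, h5, h6, h7, h8⟩

/-- **unitary groups**, `d = 1` -/
theorem num_uni1 {s m f d' : ℕ} (hp : p.Prime) (hq : q.Prime) (hs : 2 ≤ s)
    (hd : p ∣ s + 1) (hd' : orderOf ((s : ℕ) : ZMod q) = 2 * d') (hd'1 : 1 < d')
    (hod' : Odd d') (hm : 2 ≤ m)
    (h : HT p q m (fun j => s ^ (2 * f + 1) * (s ^ 2) ^ (m - j) + 1) (gn (s ^ 2))
      fun j => gn (s ^ 2) j * (s ^ (2 * f + 1) * (s ^ 2) ^ (m - j) + 1)) : False := by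
  classical
  have hqs : ¬ q ∣ s := not_dvd_of_ord hq (by omega)
  have hX : ∀ j, s ^ (2 * f + 1) * (s ^ 2) ^ (m - j) + 1 = s ^ (2 * (m - j) + (2 * f + 1)) + 1 := fun j => by
    rw [← pow_mul, ← pow_add, add_comm (2 * f + 1)]
  have hpX : ∀ j, p ∣ s ^ (2 * f + 1) * (s ^ 2) ^ (m - j) + 1 := by
    intro j
    rw [hX, dvd_add_one]
    have h1 : p ∣ s ^ 1 + 1 := by rwa [pow_one]
    rw [dvd_add_one, pow_one] at h1
    rw [h1]
    exact Odd.neg_one_pow ⟨m - j + f, by ring⟩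
  by_cases hq1 : q ∣ s ^ (2 * (m - 1) + (2 * f + 1)) + 1
  · have hY2 : ¬ q ∣ gn (s ^ 2) 2 := by
      intro h1
      have e1 : gn (s ^ 2) 2 = s ^ 2 + 1 := by
        rw [gn_succ, gn_one, pow_one]; ring
      rw [e1] at h1
      have h2 : q ∣ s ^ (2 * 2) - 1 := by rw [sq_sub']; exact Dvd.dvd.mul_left h1 _
      rw [dvd_sub_one_iff (by omega), hd'] at h2
      have h3 := Nat.dvd_of_mul_dvd_mul_left two_pos h2
      have h4 := Nat.le_of_dvd two_pos h3
      obtain ⟨c, hc⟩ := hod'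
      omega
    have hX2 : ¬ q ∣ s ^ (2 * f + 1) * (s ^ 2) ^ (m - 2) + 1 := by
      rw [hX]
      intro h1
      have h2 := (dvd_add_one_iff hq hqs h1).1 hq1
      have h3 : ((2 * (m - 1) + (2 * f + 1) : ℕ) : ℤ) - ((2 * (m - 2) + (2 * f + 1) : ℕ) : ℤ) = 2 := by
        omega
      rw [h3, hd'] at h2
      have h4 := Int.le_of_dvd two_pos h2
      push_cast at h4
      omega
    have h1 := h 2 hm {1} (fun j => ?_) 1 ?_
    · rw [pow_one, Finset.prod_singleton, gn_one] at h1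
      exact hp.one_lt.ne' (Nat.dvd_one.1 h1)
    · rw [Finset.mem_singleton]
      constructor
      · rintro rfl
        refine ⟨⟨le_rfl, by norm_num⟩, Dvd.dvd.mul_left ?_ _⟩
        rw [hX]
        exact hq1
      · rintro ⟨⟨h2, h3⟩, h4⟩
        by_contra hne
        have h5 : j = 2 := by omega
        subst h5
        rcases hq.dvd_mul.1 h4 with h6 | h6
        · exact hY2 h6
        · exact hX2 h6
    · rw [pow_one]
      exact (hpX 2).trans (Finset.dvd_prod_of_mem (fun j => s ^ (2 * f + 1) * (s ^ 2) ^ (m - j) + 1) (by simp))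
  · have h1 := h 1 (by omega) ∅ (fun j => ?_) 1 ?_
    · rw [pow_one, Finset.prod_empty] at h1
      exact hp.one_lt.ne' (Nat.dvd_one.1 h1)
    · constructor
      · intro h2; exact absurd h2 (Finset.notMem_empty _)
      · rintro ⟨⟨h2, h3⟩, h4⟩
        exfalso
        have h5 : j = 1 := by omega
        subst h5
        rcases hq.dvd_mul.1 h4 with h6 | h6
        · rw [gn_one] at h6
          exact hq.one_lt.ne' (Nat.dvd_one.1 h6)
        · rw [hX] at h6
          exact hq1 h6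
    · rw [pow_one]
      exact (hpX 1).trans (Finset.dvd_prod_of_mem (fun j => s ^ (2 * f + 1) * (s ^ 2) ^ (m - j) + 1) (by simp))

/-! ### orthogonal groups of plus type -/

/-- `m = d' + k`, `k < d < d'` -/
theorem num_plus {Q m d d' k : ℕ} (hp : p.Prime) (hq : q.Prime) (hQ : 2 ≤ Q)
    (hd : orderOf ((Q : ℕ) : ZMod p) = 2 * d) (hd' : orderOf ((Q : ℕ) : ZMod q) = 2 * d')
    (hlt : d < d') (hk : 1 ≤ k) (hkd : k < d) (hm : m = d' + k)
    (h : HT p q m (fun j => Q ^ (m - j) + 1) (gn Q) fun j => gn Q j * (Q ^ (m - j) + 1) * ((Q ^ j + 1) * gn Q (m - j))) :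
    False := by
  classical
  have hpQ : ¬ p ∣ Q := not_dvd_of_ord hp (by omega)
  have hqQ : ¬ q ∣ Q := not_dvd_of_ord hq (by omega)
  have hp1 : ¬ p ∣ Q - 1 := by
    intro h1
    have := (dvd_sub_one_iff (p := p) (x := Q) (by omega) 1).1 (by rwa [pow_one])
    rw [hd] at this
    have := Nat.le_of_dvd one_pos this
    omega
  have hq1 : ¬ q ∣ Q - 1 := by
    intro h1
    have := (dvd_sub_one_iff (p := q) (x := Q) (by omega) 1).1 (by rwa [pow_one])
    rw [hd'] at this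
    have := Nat.le_of_dvd one_pos this
    omega
  have hgp : ∀ j, p ∣ gn Q j ↔ 2 * d ∣ j := by
    intro j
    have h1 := gn_dvd hp (Q := Q) (by omega) hp1 1 j
    rw [pow_one] at h1
    rw [h1, dvd_sub_one_iff (by omega), hd]
  have hgq : ∀ j, q ∣ gn Q j ↔ 2 * d' ∣ j := by
    intro j
    have h1 := gn_dvd hq (Q := Q) (by omega) hq1 1 j
    rw [pow_one] at h1
    rw [h1, dvd_sub_one_iff (by omega), hd']
  have hqX : ∀ t, 0 < t → t < 2 * d' → q ∣ Q ^ t + 1 → t = d' := by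
    intro t h0 h1 h2
    obtain ⟨a, ⟨c, rfl⟩, rfl⟩ := dvd_add_one_mul hq hd' (by omega) h2
    rcases Nat.eq_zero_or_pos c with rfl | hc
    · ring
    · exfalso
      have := Nat.mul_le_mul_left d' (show 3 ≤ 2 * c + 1 by omega)
      omega
  obtain ⟨J, hJd⟩ : ∃ J, J = (Finset.Icc 1 (m - d)).filter
      (fun j => q ∣ gn Q j * (Q ^ (m - j) + 1) * ((Q ^ j + 1) * gn Q (m - j))) := ⟨_, rfl⟩
  have hJ : ∀ j, j ∈ J ↔ (1 ≤ j ∧ j ≤ m - d) ∧ q ∣ gn Q j * (Q ^ (m - j) + 1) * ((Q ^ j + 1) * gn Q (m - j)) :=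
    fun j => by rw [hJd, Finset.mem_filter, Finset.mem_Icc]
  have hJk : ∀ j ∈ J, j = k := by
    intro j hj
    obtain ⟨⟨h1, h2⟩, h3⟩ := (hJ j).1 hj
    rcases hq.dvd_mul.1 h3 with h4 | h4
    · rcases hq.dvd_mul.1 h4 with h5 | h5
      · have := Nat.le_of_dvd (by omega) ((hgq j).1 h5)
        omega
      · have := hqX _ (by omega) (by omega) h5
        omega
    · rcases hq.dvd_mul.1 h4 with h5 | h5
      · have := hqX _ (by omega) (by omega) h5
        omega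
      · have := Nat.le_of_dvd (by omega) ((hgq _).1 h5)
        omega
  have hH := h (m - d) (by omega) J hJ 1
  rw [pow_one] at hH
  have h1 : p ∣ ∏ j ∈ J, gn Q j := by
    apply hH
    have h2 : m - d ∈ Finset.Icc 1 (m - d) \ J := by
      rw [Finset.mem_sdiff, Finset.mem_Icc]
      exact ⟨⟨by omega, le_rfl⟩, fun h3 => by have := hJk _ h3; omega⟩
    refine dvd_trans ?_ (Finset.dvd_prod_of_mem _ h2)
    have e1 : m - (m - d) = d := by omega
    rw [e1]
    exact add_one_of_ord hp hd (by omega)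
  obtain ⟨j, hj, h4⟩ := (Prime.dvd_finsetProd_iff hp.prime _).1 h1
  have h5 := hJk j hj
  have h6 := Nat.le_of_dvd (by omega) ((hgp j).1 h4)
  omega

/-- `m = 4`, `d = 1`, `d' = 2` -/
theorem num_plus4 {Q : ℕ} (hp : p.Prime) (hq : q.Prime) (hQ : 2 ≤ Q)
    (hd : p ∣ Q + 1) (hd' : orderOf ((Q : ℕ) : ZMod q) = 4)
    (h : HT p q 4 (fun j => Q ^ (4 - j) + 1) (gn Q) fun j => gn Q j * (Q ^ (4 - j) + 1) * ((Q ^ j + 1) * gn Q (4 - j))) :
    False := by
  classical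
  have hd2 : orderOf ((Q : ℕ) : ZMod q) = 2 * 2 := hd'
  have hqQ : ¬ q ∣ Q := not_dvd_of_ord hq (by omega)
  have hq1 : ¬ q ∣ Q - 1 := by
    intro h1
    have := (dvd_sub_one_iff (p := q) (x := Q) (by omega) 1).1 (by rwa [pow_one])
    rw [hd'] at this
    have := Nat.le_of_dvd one_pos this
    omega
  have hgq : ∀ j, q ∣ gn Q j ↔ 4 ∣ j := by
    intro j
    have h1 := gn_dvd hq (Q := Q) (by omega) hq1 1 j
    rw [pow_one] at h1
    rw [h1, dvd_sub_one_iff (by omega), hd']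
  have h1 := h 1 (by norm_num) ∅ (fun j => ?_) 1 ?_
  · rw [pow_one, Finset.prod_empty] at h1
    exact hp.one_lt.ne' (Nat.dvd_one.1 h1)
  · constructor
    · intro h2; exact absurd h2 (Finset.notMem_empty _)
    · rintro ⟨⟨h2, h3⟩, h4⟩
      exfalso
      have h5 : j = 1 := by omega
      subst h5
      rcases hq.dvd_mul.1 h4 with h6 | h6
      · rcases hq.dvd_mul.1 h6 with h7 | h7
        · have := (hgq 1).1 h7
          omega
        · obtain ⟨a, ha, h8⟩ := dvd_add_one_mul hq hd2 two_pos h7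
          omega
      · rcases hq.dvd_mul.1 h6 with h7 | h7
        · obtain ⟨a, ha, h8⟩ := dvd_add_one_mul hq hd2 two_pos h7
          omega
        · have := (hgq 3).1 h7
          omega
  · rw [pow_one]
    have h2 : p ∣ Q ^ 3 + 1 := by
      rw [dvd_add_one]
      have h3 : p ∣ Q ^ 1 + 1 := by rwa [pow_one]
      rw [dvd_add_one, pow_one] at h3
      rw [h3]
      exact Odd.neg_one_pow ⟨1, rfl⟩
    exact h2.trans (Finset.dvd_prod_of_mem (fun j => Q ^ (4 - j) + 1) (by simp : (1 : ℕ) ∈ Finset.Icc 1 1 \ ∅))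

/-- `d = 1` -/
theorem num_plus1 {Q m d' : ℕ} (hp : p.Prime) (hq : q.Prime) (hQ : 2 ≤ Q) (hd : p ∣ Q + 1)
    (hd' : orderOf ((Q : ℕ) : ZMod q) = 2 * d') (hd'0 : 0 < d') (he : Even d') (hm : 4 ≤ m) (hc : Even m ∨ d' ≠ 2)
    (h : HT p q m (fun j => Q ^ (m - j) + 1) (gn Q) fun j => gn Q j * (Q ^ (m - j) + 1) * ((Q ^ j + 1) * gn Q (m - j))) :
    False := by
  classical
  have hqQ : ¬ q ∣ Q := not_dvd_of_ord hq (by omega)
  have hq1 : ¬ q ∣ Q - 1 := by
    intro h1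
    have := (dvd_sub_one_iff (p := q) (x := Q) (by omega) 1).1 (by rwa [pow_one])
    rw [hd'] at this
    have := Nat.le_of_dvd one_pos this
    omega
  have hgq : ∀ j, q ∣ gn Q j → 2 ∣ j := by
    intro j h0
    have h1 := gn_dvd hq (Q := Q) (by omega) hq1 1 j
    rw [pow_one] at h1
    rw [h1, dvd_sub_one_iff (by omega), hd'] at h0
    exact (Dvd.intro _ rfl).trans h0
  have hev : ∀ t, q ∣ Q ^ t + 1 → 2 ∣ t := by
    intro t h0
    obtain ⟨a, -, rfl⟩ := dvd_add_one_mul hq hd' hd'0 h0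
    exact (even_iff_two_dvd.1 he).mul_right a
  have hpX : ∀ t, ¬ 2 ∣ t → p ∣ Q ^ t + 1 := by
    intro t ht
    rw [dvd_add_one]
    have h3 : p ∣ Q ^ 1 + 1 := by rwa [pow_one]
    rw [dvd_add_one, pow_one] at h3
    rw [h3]
    exact Odd.neg_one_pow (Nat.odd_iff.2 (by omega))
  by_cases hme : Even m
  · have h1 := h 1 (by omega) ∅ (fun j => ?_) 1 ?_
    · rw [pow_one, Finset.prod_empty] at h1
      exact hp.one_lt.ne' (Nat.dvd_one.1 h1)
    · constructor
      · intro h2; exact absurd h2 (Finset.notMem_empty _)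
      · rintro ⟨⟨h2, h3⟩, h4⟩
        exfalso
        obtain ⟨c, hc⟩ := hme
        have h5 : j = 1 := by omega
        subst h5
        rcases hq.dvd_mul.1 h4 with h6 | h6
        · rcases hq.dvd_mul.1 h6 with h7 | h7
          · have := hgq _ h7
            omega
          · have := hev _ h7
            omega
        · rcases hq.dvd_mul.1 h6 with h7 | h7
          · have := hev _ h7
            omega
          · have := hgq _ h7
            omega
    · rw [pow_one]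
      obtain ⟨c, hc⟩ := hme
      exact (hpX (m - 1) (by omega)).trans
        (Finset.dvd_prod_of_mem (fun j => Q ^ (m - j) + 1) (by simp : (1 : ℕ) ∈ Finset.Icc 1 1 \ ∅))
  · have hd'2 := hc.resolve_left hme
    rw [Nat.not_even_iff_odd] at hme
    obtain ⟨c, hc'⟩ := hme
    obtain ⟨b, hb⟩ := he
    have h2J : ¬ q ∣ gn Q 2 * (Q ^ (m - 2) + 1) * ((Q ^ 2 + 1) * gn Q (m - 2)) := by
      intro h4
      rcases hq.dvd_mul.1 h4 with h6 | h6
      · rcases hq.dvd_mul.1 h6 with h7 | h7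
        · have h1 := gn_dvd hq (Q := Q) (by omega) hq1 1 2
          rw [pow_one] at h1
          rw [h1, dvd_sub_one_iff (by omega), hd'] at h7
          have := Nat.le_of_dvd two_pos h7
          omega
        · have := hev _ h7
          omega
      · rcases hq.dvd_mul.1 h6 with h7 | h7
        · obtain ⟨a, ha, h8⟩ := dvd_add_one_mul hq hd' hd'0 h7
          have h9 : d' ∣ 2 := ⟨a, h8⟩
          have := Nat.le_of_dvd two_pos h9
          omega
        · have := hgq _ h7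
          omega
    obtain ⟨J, hJd⟩ : ∃ J, J = (Finset.Icc 1 2).filter
        (fun j => q ∣ gn Q j * (Q ^ (m - j) + 1) * ((Q ^ j + 1) * gn Q (m - j))) := ⟨_, rfl⟩
    have hJ : ∀ j, j ∈ J ↔ (1 ≤ j ∧ j ≤ 2) ∧ q ∣ gn Q j * (Q ^ (m - j) + 1) * ((Q ^ j + 1) * gn Q (m - j)) :=
      fun j => by rw [hJd, Finset.mem_filter, Finset.mem_Icc]
    have hH := h 2 (by omega) J hJ 1
    rw [pow_one] at hH
    have h2 : (2 : ℕ) ∈ Finset.Icc 1 2 \ J := by
      rw [Finset.mem_sdiff, Finset.mem_Icc]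
      exact ⟨⟨by norm_num, le_rfl⟩, fun h3 => h2J ((hJ 2).1 h3).2⟩
    have h3 := hH ((hpX (m - 2) (by omega)).trans (Finset.dvd_prod_of_mem (fun j => Q ^ (m - j) + 1) h2))
    obtain ⟨j, hj, h4⟩ := (Prime.dvd_finsetProd_iff hp.prime _).1 h3
    have h5 := (hJ j).1 hj
    have h6 : j = 1 := by
      rcases Nat.lt_or_ge j 2 with h | h
      · omega
      · have h7 : j = 2 := by omega
        subst h7
        exact absurd h5.2 h2J
    subst h6
    rw [gn_one] at h4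
    exact hp.one_lt.ne' (Nat.dvd_one.1 h4)

end Cfsg.Agent.H47.DP
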