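import Cfsg.Agent.H47.DP.El
import Cfsg.Agent.H47.DP.NumU

/-!
# S4612: the Hecke test for the classical groups (helper47)
-/

set_option autoImplicit false
set_option linter.unusedSectionVars false

open Cfsg

namespace Cfsg.Agent.H47.DP

open Cfsg.Agent.H477.HC Cfsg.Agent.H477.HC.CForm Cfsg.Agent.H53.HC Module Cfsg.Agent.H317.PQ
open Polynomial

universe u v w

variable {K : Type u} [Field K] {V : Type v} [AddCommGroup V] [Module K V] [FiniteDimensional K V] {F : CForm K V}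

theorem exists_act {S : Type w} [Group S] {N : Subgroup F.iso} (f : N →* S) (hf : Function.Surjective f)
    (hker : ∀ z ∈ f.ker, ∃ a : K, ∀ v, ((z : F.iso) : V ≃ₗ[K] V) v = a • v) (m : ℕ) :
    ∃ _ : MulAction S (F.Om m), Act F m N f := by
  have h1 : f.ker ≤ ((omHom F m).comp N.subtype).ker := by
    intro z hz
    obtain ⟨a, ha⟩ := hker z hz
    rw [MonoidHom.mem_ker]
    apply Equiv.ext
    intro M
    apply Subtype.ext
    change (omHom F m (z : F.iso) M).1 = M.1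
    rw [omHom_val]
    refine Submodule.eq_of_le_of_finrank_eq ?_ (LinearEquiv.finrank_map_eq ((z : F.iso) : V ≃ₗ[K] V) _)
    rintro _ ⟨x, hx, rfl⟩
    have h2 : (F.iso.subtype (z : F.iso) : V →ₗ[K] V) x = a • x := ha x
    rw [h2]
    exact M.1.smul_mem _ hx
  let ψ : S →* Equiv.Perm (F.Om m) := (f.liftOfSurjective hf) ⟨(omHom F m).comp N.subtype, h1⟩
  have hψ : ∀ n : N, ψ (f n) = omHom F m n := fun n =>
    MonoidHom.liftOfRightInverse_comp_apply f _ (Function.rightInverse_surjInv hf) ⟨(omHom F m).comp N.subtype, h1⟩ n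
  let _ := MulAction.compHom (F.Om m) ψ
  refine ⟨MulAction.compHom (F.Om m) ψ, hf, fun n => ?_⟩
  apply Equiv.ext
  intro M
  change ψ (f n) M = _
  rw [hψ]

variable {m E : ℕ}

section

variable [Finite V] [Finite K]

theorem ht_of {p q : ℕ} (hp : p.Prime) (hq : q.Prime) [Fintype (F.Om m)] {S : Type w} [Group S] [Fintype S]
    [MulAction S (F.Om m)] (hP : Pol F m E) {N : Subgroup F.iso} {φ : N →* S} (hA : Act F m N φ)
    (hpq : B0 p S ⊆ B0 q S) {Z : ℕ → ℕ} (hs : ∀ j, 1 ≤ j → j ≤ m → ¬ q ∣ Z j →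
      Sep q (fnRep S (F.Om m)) (op (adjm F m)) (th (Nat.card K) m E j) (th (Nat.card K) m E 0)) :
    HT p q m (fun j => E * Nat.card K ^ (m - j) + 1) (gn (Nat.card K)) Z := by
  intro u hu J hJ k hk
  refine hecke hp hq hP hA.adj hpq hu (J := J) (fun j hj => ?_) (fun j hj hjJ => ?_) hk
  · rw [Finset.mem_Icc]
    exact ((hJ j).1 hj).1
  · rw [Finset.mem_Icc] at hj
    exact hs j hj.1 (hj.2.trans hu) fun h => hjJ ((hJ j).2 ⟨hj, h⟩)

variable {q : ℕ}

theorem not_dvd_cT (hq : q.Prime) (hqK : ¬ q ∣ Nat.card K) (hq1 : ¬ q ∣ Nat.card K - 1) (m : ℕ) :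
    ¬ (q : ℤ) ∣ cT K m := by
  unfold cT
  rw [Int.natCast_dvd_natCast, hq.dvd_mul]
  rintro (h | h)
  · exact hq1 h
  · exact hqK (hq.dvd_of_dvd_pow h)

theorem not_dvd_sub (hq1 : ¬ q ∣ Nat.card K - 1) : ¬ (q : ℤ) ∣ (Nat.card K : ℤ) - 1 := by
  have h : ((Nat.card K : ℤ) - 1) = ((Nat.card K - 1 : ℕ) : ℤ) := by
    have : 0 < Nat.card K := Nat.card_pos
    omega
  rw [h, Int.natCast_dvd_natCast]
  exact hq1

theorem not_dvd_cP (hq : q.Prime) (hqK : ¬ q ∣ Nat.card K) (hq1 : ¬ q ∣ Nat.card K - 1) (m : ℕ) :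
    ¬ (q : ℤ) ∣ cP K m := by
  have hqp : Prime (q : ℤ) := Nat.prime_iff_prime_int.1 hq
  have h0 : ¬ (q : ℤ) ∣ (Nat.card K : ℤ) ^ (m - 1) := by
    intro h
    exact hqK (Int.natCast_dvd_natCast.1 (hqp.dvd_of_dvd_pow h))
  unfold cP
  rw [hqp.dvd_mul, hqp.dvd_mul]
  rintro ((h | h) | h)
  · exact h0 h
  · exact h0 h
  · exact not_dvd_sub hq1 h

theorem th_dvd {j : ℕ} (hj : j ≤ m) : (q : ℤ) ∣ th (Nat.card K) m E j - th (Nat.card K) m E 0 ↔
    q ∣ gn (Nat.card K) j * (E * Nat.card K ^ (m - j) + 1) := by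
  rw [← dvd_neg, neg_sub, th_sub hj]
  have : ((gn (Nat.card K) j : ℤ) * (E * (Nat.card K : ℤ) ^ (m - j) + 1)) =
      ((gn (Nat.card K) j * (E * Nat.card K ^ (m - j) + 1) : ℕ) : ℤ) := by push_cast; ring
  rw [this, Int.natCast_dvd_natCast]

variable {p : ℕ} (hp : p.Prime) (hq : q.Prime) (hqK : ¬ q ∣ Nat.card K) (hq1 : ¬ q ∣ Nat.card K - 1)
  {S : Type w} [Group S] [Finite S] (hP : Pol F m E) {N : Subgroup F.iso} (f : N →* S) (hf : Function.Surjective f)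
  (hker : ∀ z ∈ f.ker, ∃ a : K, ∀ v, ((z : F.iso) : V ≃ₗ[K] V) v = a • v) (hpq : B0 p S ⊆ B0 q S)

include hp hq hqK hq1 hP hf hker hpq

/-- **groups with transvections** -/
theorem ht_lin {κ : K} (hκ : κ ≠ 0) (hT : F.T (-κ⁻¹) = 0)
    (hg : ∀ v ∈ Sv F 0, ∃ g : F.iso, g ∈ N ∧ ∀ x, (g : V ≃ₗ[K] V) x = tv F κ v x) :
    HT p q m (fun j => E * Nat.card K ^ (m - j) + 1) (gn (Nat.card K))
      fun j => gn (Nat.card K) j * (E * Nat.card K ^ (m - j) + 1) := by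
  classical
  have := Fintype.ofFinite (F.Om m)
  have := Fintype.ofFinite (Sv F 0)
  have := Fintype.ofFinite S
  obtain ⟨_, hA⟩ := exists_act f hf hker m
  refine ht_of hp hq hP hA hpq fun j h1 h2 h3 => sep_tv hP hA hκ hT hg ?_
  rw [(Nat.prime_iff_prime_int.1 hq).dvd_mul]
  rintro (h | h)
  · exact not_dvd_cT hq hqK hq1 m h
  · exact h3 ((th_dvd h2).1 h)

end

end Cfsg.Agent.H47.DP
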