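import Cfsg.Agent.H47.DP.Main

/-!
# S4612: the Hecke test for the orthogonal groups (helper47)
-/

set_option autoImplicit false
set_option linter.unusedSectionVars false

open Cfsg

namespace Cfsg.Agent.H47.DP

open Cfsg.Agent.H477.HC Cfsg.Agent.H477.HC.CForm Cfsg.Agent.H53.HC Module Cfsg.Agent.H317.PQ
open Polynomial

universe u v w

variable {K : Type u} [Field K] {V : Type v} [AddCommGroup V] [Module K V] [FiniteDimensional K V] {F : CForm K V}

variable {m E : ℕ} [Finite V] [Finite K]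

theorem aT_eq [Fintype (F.Om m)] {κ τ : K} [Fintype (Sv F τ)] (hP : Pol F m E) (hκ : κ ≠ 0) (hT : F.T (-κ⁻¹) = τ)
    (hg : ∀ v ∈ Sv F τ, ∃ g : F.iso, ∀ x, (g : V ≃ₗ[K] V) x = tv F κ v x) (M : F.Om m) :
    aT F m E τ = Nat.card {v : V // v ∈ Sv F τ ∧ v ∈ F.perp M.1} := by
  choose g hg using fun v : Sv F τ => hg v v.2
  have h1 := tv_matrix hP hκ hT hg M M
  have h2 : adjm F m M M = 0 := by
    unfold adjm
    rw [if_neg fun h => h.ne M.2.2 rfl]
  rw [if_pos rfl, h2, mul_one, mul_zero, add_zero] at h1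
  have h3 : aT F m E τ = (Nat.card {v : Sv F τ // omHom F m (g v) M = M} : ℤ) := h1.symm
  rw [h3]
  congr 1
  have h4 : ∀ v : Sv F τ, omHom F m (g v) M = M ↔ (v : V) ∈ F.perp M.1 := by
    intro v
    rw [Subtype.ext_iff, omHom_val]
    have e1 : (F.iso.subtype (g v) : V →ₗ[K] V) = tv F κ v := LinearMap.ext fun x => hg v x
    rw [e1]
    constructor
    · intro h5 x hx
      by_contra h6
      have h7 : F.B x v ≠ 0 := fun h => h6 (F.B_eq_zero h)
      have h8 : tv F κ v x ∈ M.1.map (tv F κ v) := ⟨x, hx, rfl⟩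
      rw [h5, tv_apply] at h8
      have h9 : (v : V) ∈ M.1 := by
        rw [← Submodule.smul_mem_iff _ (mul_ne_zero hκ h7)]
        have := M.1.sub_mem h8 hx
        rwa [add_sub_cancel_left] at this
      exact h7 (M.2.1.2 x hx v h9)
    · intro h5
      refine Submodule.eq_of_le_of_finrank_eq ?_ ?_
      · rintro _ ⟨x, hx, rfl⟩
        rw [tv_apply, F.B_eq_zero (h5 x hx), mul_zero, zero_smul, add_zero]
        exact hx
      · rw [← e1]
        exact LinearEquiv.finrank_map_eq (g v : V ≃ₗ[K] V) _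
  exact Nat.card_congr ((Equiv.subtypeEquivRight h4).trans
    (Equiv.subtypeSubtypeEquivSubtypeInter (fun v => v ∈ Sv F τ) fun v => v ∈ F.perp M.1))

/-- odd dimension: a norm missing from `Mᗮ` -/
theorem exists_aT_zero (hQ : Quad F) (h2 : ringChar K ≠ 2) (hP : Pol F m E) (hd : finrank K V = 2 * m + 1) {M : Submodule K V}
    (hM : M ∈ F.Om m) : ∃ τ : K, τ ≠ 0 ∧ ∀ v ∈ F.perp M, F.Q v ≠ τ := by
  classical
  have := Fintype.ofFinite K
  obtain ⟨ν, hν⟩ := FiniteField.exists_nonsquare h2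
  have hf := finrank_perp F M
  rw [hM.2, hd] at hf
  obtain ⟨w, hw, hwM⟩ : ∃ w ∈ F.perp M, w ∉ M := by
    by_contra hcon
    push Not at hcon
    have := Submodule.finrank_mono (show F.perp M ≤ M from hcon)
    rw [hM.2] at this
    omega
  have hw0 : F.Q w ≠ 0 := fun h => hwM (mem_of_perp hP.max hM (sing_of_Q h) hw)
  have hν0 : ν ≠ 0 := by rintro rfl; exact hν (IsSquare.zero)
  refine ⟨ν * F.Q w, mul_ne_zero hν0 hw0, fun v hv h => ?_⟩
  have hMw : M ⊔ K ∙ w = F.perp M := by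
    refine Submodule.eq_of_le_of_finrank_eq (sup_le hM.1.le_perp ((Submodule.span_singleton_le_iff_mem _ _).2 hw)) ?_
    rw [finrank_sup_span hwM, hM.2]
    omega
  rw [← hMw] at hv
  obtain ⟨x, hx, s, hs, rfl⟩ := Submodule.mem_sup.1 hv
  obtain ⟨c, rfl⟩ := Submodule.mem_span_singleton.1 hs
  rw [hQ.Q_add, hM.1.1 x hx, hQ.Q_smul, hQ.B_smul_right, F.B_eq_zero (hw x hx), mul_zero, zero_add, add_zero] at h
  exact hν ⟨c, (mul_right_cancel₀ hw0 h).symm⟩

/-- the sum of the constants over all norms -/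
theorem sum_aT (hP : Pol F m E) {M : Submodule K V} (hM : M ∈ F.Om m) [Fintype K] [DecidableEq K] :
    ∑ τ ∈ Finset.univ.erase (0 : K), Nat.card {v : V // v ∈ Sv F τ ∧ v ∈ F.perp M} + Nat.card K ^ m =
      Nat.card K ^ (finrank K V - m) := by
  classical
  have := Fintype.ofFinite V
  have h1 : Nat.card K ^ (finrank K V - m) = Nat.card (F.perp M) := by
    rw [Module.natCard_eq_pow_finrank (K := K) (V := F.perp M)]
    congr 1
    have h1 := finrank_perp F M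
    rw [hM.2] at h1
    omega
  have h2 : Nat.card K ^ m = (Finset.univ.filter fun v : V => v ∈ F.perp M ∧ F.Q v = 0).card := by
    have h3 : Nat.card K ^ m = Nat.card M := by
      rw [Module.natCard_eq_pow_finrank (K := K) (V := M), hM.2]
    rw [h3, Nat.card_eq_fintype_card, Fintype.card_subtype]
    congr 1
    ext v
    simp only [Finset.mem_filter, Finset.mem_univ, true_and]
    exact ⟨fun h => ⟨hM.1.le_perp h, hM.1.1 v h⟩, fun h => mem_of_perp hP.max hM (sing_of_Q h.2) h.1⟩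
  have h4 : Nat.card (F.perp M) = (Finset.univ.filter fun v : V => v ∈ F.perp M).card := by
    rw [Nat.card_eq_fintype_card, Fintype.card_subtype]
  have h6 := Finset.card_eq_sum_card_fiberwise (s := Finset.univ.filter fun v : V => v ∈ F.perp M) (f := F.Q)
    (t := (Finset.univ : Finset K)) (fun _ _ => Finset.mem_coe.2 (Finset.mem_univ _))
  rw [← Finset.sum_erase_add _ _ (Finset.mem_univ (0 : K))] at h6
  rw [h1, h4, h2, h6]
  congr 1
  · refine Finset.sum_congr rfl fun τ hτ => ?_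
    rw [Nat.card_eq_fintype_card, Fintype.card_subtype]
    congr 1
    ext v
    simp only [Finset.mem_filter, Finset.mem_univ, true_and]
    constructor
    · rintro ⟨h5, h6⟩; exact ⟨h6, h5.2⟩
    · rintro ⟨h5, h6⟩
      refine ⟨⟨?_, h6⟩, h5⟩
      rintro rfl
      rw [F.Q_zero] at h6
      exact (Finset.mem_erase.1 hτ).1 h6.symm
  · congr 1
    ext v
    simp only [Finset.mem_filter, Finset.mem_univ, true_and]

section tests

variable {p q : ℕ} (hp : p.Prime) (hq : q.Prime) (hqK : ¬ q ∣ Nat.card K) (hq1 : ¬ q ∣ Nat.card K - 1)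
  {S : Type w} [Group S] [Finite S] (hQ : Quad F) (hP : Pol F m E) {N : Subgroup F.iso} (f : N →* S)
  (hf : Function.Surjective f)
  (hker : ∀ z ∈ f.ker, ∃ a : K, ∀ v, ((z : F.iso) : V ≃ₗ[K] V) v = a • v) (hpq : B0 p S ⊆ B0 q S)
  (hN : commutator F.iso ≤ N) (hm : m + 2 < finrank K V)

include hq hqK hq1 hQ hP hN hm in
theorem sep_tp' [Fintype (F.Om m)] [Fintype S] [MulAction S (F.Om m)] (hA : Act F m N f) {a b : ℤ}
    (hs : ¬ Sep q (fnRep S (F.Om m)) (op (adjm F m)) a b) (hab : ¬ (q : ℤ) ∣ a - b) :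
    (q : ℤ) ∣ ((Nat.card K : ℤ) - 1) * (a + b) + ((E : ℤ) - 1) := by
  classical
  have := Fintype.ofFinite (Pz F)
  have hqp : Prime (q : ℤ) := Nat.prime_iff_prime_int.1 hq
  by_contra hcon
  refine hs (sep_tp hQ hP hA (fun p hp => ?_) ?_)
  · obtain ⟨g, h1, h2⟩ := sg_mem hQ hP.max hm hp.2.1 hp.2.2
    exact ⟨g, hN h1, h2⟩
  · rw [hqp.dvd_mul, hqp.dvd_mul]
    rintro (h | h | h)
    · exact not_dvd_cP hq hqK hq1 m h
    · exact hab h
    · exact hcon h

include hq hqK hq1 hQ hP hN in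
theorem sep_sq' [Fintype (F.Om m)] [Fintype S] [MulAction S (F.Om m)] (hA : Act F m N f) {τ : K} (hτ : τ ≠ 0)
    {M : Submodule K V} (hM : M ∈ F.Om m) {a b : ℤ}
    (hs : ¬ Sep q (fnRep S (F.Om m)) (op (adjm F m)) a b) (hab : ¬ (q : ℤ) ∣ a - b) :
    (q : ℤ) ∣ 2 * (Nat.card {v : V // v ∈ Sv F τ ∧ v ∈ F.perp M} : ℤ) + cT K m * (a + b) := by
  classical
  have := Fintype.ofFinite (Sv F τ)
  have hqp : Prime (q : ℤ) := Nat.prime_iff_prime_int.1 hq
  have hκ : -τ⁻¹ ≠ 0 := neg_ne_zero.2 (inv_ne_zero hτ)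
  have hT : F.T (-(-τ⁻¹)⁻¹) = τ := by rw [hQ.T, inv_neg, inv_inv, neg_neg]
  have hg : ∀ v ∈ Sv F τ, ∃ g : F.iso, ∀ x, (g : V ≃ₗ[K] V) x = tv F (-τ⁻¹) v x := fun v hv => exists_rf hQ hτ hv.2
  rw [← aT_eq hP hκ hT hg ⟨M, hM⟩]
  by_contra hcon
  refine hs (sep_sq hP hA hκ hT hg (fun v hv w hw g g' h1 h2 => hN (rf_mul_mem hQ hτ hv.2 hw.2 h1 h2)) ?_)
  rw [hqp.dvd_mul, hqp.dvd_mul]
  rintro (h | h | h)
  · exact not_dvd_cT hq hqK hq1 m h
  · exact hab h
  · exact hcon h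

include hp hq hqK hq1 hQ hP hf hker hpq hN hm

/-- **orthogonal groups, odd dimension** -/
theorem ht_odd (h2 : ringChar K ≠ 2) (hd : finrank K V = 2 * m + 1) (hE : E = Nat.card K) :
    HT p q m (fun j => E * Nat.card K ^ (m - j) + 1) (gn (Nat.card K))
      fun j => gn (Nat.card K) j * (E * Nat.card K ^ (m - j) + 1) := by
  classical
  have := Fintype.ofFinite (F.Om m)
  have := Fintype.ofFinite S
  have hqp : Prime (q : ℤ) := Nat.prime_iff_prime_int.1 hq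
  obtain ⟨_, hA⟩ := exists_act f hf hker m
  refine ht_of hp hq hP hA hpq fun j h1 h3 h4 => ?_
  by_contra hs
  have hab : ¬ (q : ℤ) ∣ th (Nat.card K) m E j - th (Nat.card K) m E 0 := fun h => h4 ((th_dvd h3).1 h)
  have e1 := sep_tp' hq hqK hq1 hQ hP f hN hm hA hs hab
  obtain ⟨M, hM⟩ := hP.ex
  obtain ⟨τ, hτ, h0⟩ := exists_aT_zero hQ h2 hP hd hM
  have e2 := sep_sq' hq hqK hq1 hQ hP f hN hA hτ hM hs hab
  have h5 : Nat.card {v : V // v ∈ Sv F τ ∧ v ∈ F.perp M} = 0 :=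
    @Nat.card_of_isEmpty _ ⟨fun v => h0 v.1 v.2.2 v.2.1.2⟩
  rw [h5, Nat.cast_zero, mul_zero, zero_add, hqp.dvd_mul] at e2
  have e3 := e2.resolve_left (not_dvd_cT hq hqK hq1 m)
  rw [hE] at e1
  rw [hE] at e3
  have e4 := (dvd_add_right (e3.mul_left ((Nat.card K : ℤ) - 1))).1 e1
  exact not_dvd_sub hq1 e4

/-- **orthogonal groups, minus type** -/
theorem ht_minus (hd : finrank K V = 2 * m + 2) (hE : E = Nat.card K ^ 2) (hq2 : ¬ q ∣ Nat.card K + 1) :
    HT p q m (fun j => E * Nat.card K ^ (m - j) + 1) (gn (Nat.card K))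
      fun j => gn (Nat.card K) j * (E * Nat.card K ^ (m - j) + 1) := by
  classical
  have := Fintype.ofFinite (F.Om m)
  have := Fintype.ofFinite S
  have := Fintype.ofFinite K
  have hqp : Prime (q : ℤ) := Nat.prime_iff_prime_int.1 hq
  obtain ⟨_, hA⟩ := exists_act f hf hker m
  refine ht_of hp hq hP hA hpq fun j h1 h3 h4 => ?_
  by_contra hs
  have hab : ¬ (q : ℤ) ∣ th (Nat.card K) m E j - th (Nat.card K) m E 0 := fun h => h4 ((th_dvd h3).1 h)
  have hm1 : 1 ≤ m := by omega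
  have e1 := sep_tp' hq hqK hq1 hQ hP f hN hm hA hs hab
  obtain ⟨M, hM⟩ := hP.ex
  have e2 : (q : ℤ) ∣ ∑ τ ∈ Finset.univ.erase (0 : K), (2 * (Nat.card {v : V // v ∈ Sv F τ ∧ v ∈ F.perp M} : ℤ) +
      cT K m * (th (Nat.card K) m E j + th (Nat.card K) m E 0)) :=
    Finset.dvd_sum fun τ hτ => sep_sq' hq hqK hq1 hQ hP f hN hA (Finset.mem_erase.1 hτ).1 hM hs hab
  have h5 := sum_aT hP hM
  rw [Finset.sum_add_distrib, ← Finset.mul_sum, Finset.sum_const, Finset.card_erase_of_mem (Finset.mem_univ _),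
    Finset.card_univ, ← Nat.card_eq_fintype_card, nsmul_eq_mul] at e2
  obtain ⟨s, hs'⟩ : ∃ s, s = th (Nat.card K) m E j + th (Nat.card K) m E 0 := ⟨_, rfl⟩
  rw [← hs'] at e1 e2
  obtain ⟨Q, hQd⟩ : ∃ Q, Q = Nat.card K := ⟨_, rfl⟩
  have hQ1 : 1 ≤ Q := by rw [hQd]; exact Nat.card_pos
  obtain ⟨m', rfl⟩ : ∃ m', m = m' + 1 := ⟨m - 1, by omega⟩
  have h6 : finrank K V - (m' + 1) = m' + 3 := by omega
  rw [h6, ← hQd] at h5
  have h7 : (∑ τ ∈ Finset.univ.erase (0 : K), (Nat.card {v : V // v ∈ Sv F τ ∧ v ∈ F.perp M} : ℤ)) =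
      (Q : ℤ) ^ (m' + 3) - (Q : ℤ) ^ (m' + 1) := by
    have h8 := congrArg (Nat.cast : ℕ → ℤ) h5
    push_cast at h8
    linear_combination h8
  have h9 : ((Q - 1 : ℕ) : ℤ) = (Q : ℤ) - 1 := by push_cast [Nat.cast_sub hQ1]; ring
  unfold cT at e2
  rw [h7, ← hQd, Nat.cast_mul, h9, Nat.add_sub_cancel] at e2
  rw [← hQd, hE, ← hQd] at e1
  push_cast at e1 e2
  -- `q ∣ s + Q + 1`
  have hsub : ¬ (q : ℤ) ∣ (Q : ℤ) - 1 := by rw [hQd]; exact not_dvd_sub hq1
  have e3 : (q : ℤ) ∣ s + Q + 1 := by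
    have : ((Q : ℤ) - 1) * s + ((Q : ℤ) ^ 2 - 1) = ((Q : ℤ) - 1) * (s + Q + 1) := by ring
    rw [this, hqp.dvd_mul] at e1
    exact e1.resolve_left hsub
  have e4 : (q : ℤ) ∣ ((Q : ℤ) - 1) * ((Q : ℤ) ^ m' * (((Q : ℤ) - 1) * (s + Q + 1) + ((Q : ℤ) + 1) * (Q + 1))) := by
    have : 2 * ((Q : ℤ) ^ (m' + 3) - Q ^ (m' + 1)) + ((Q : ℤ) - 1) * (((Q : ℤ) - 1) * Q ^ m' * s) =
        ((Q : ℤ) - 1) * ((Q : ℤ) ^ m' * (((Q : ℤ) - 1) * (s + Q + 1) + ((Q : ℤ) + 1) * (Q + 1))) := by ring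
    rw [← this]
    exact e2
  rw [hqp.dvd_mul, hqp.dvd_mul] at e4
  rcases e4 with h | h | h
  · exact hsub h
  · have h8 := hqp.dvd_of_dvd_pow h
    rw [hQd, Int.natCast_dvd_natCast] at h8
    exact hqK h8
  · have h8 := (dvd_add_right (e3.mul_left ((Q : ℤ) - 1))).1 h
    rw [hqp.dvd_mul, or_self, hQd] at h8
    exact hq2 (Int.natCast_dvd_natCast.1 (by push_cast; exact h8))

/-- **orthogonal groups, plus type** -/
theorem ht_plus (hE : E = 1) :
    HT p q m (fun j => Nat.card K ^ (m - j) + 1) (gn (Nat.card K))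
      fun j => gn (Nat.card K) j * (Nat.card K ^ (m - j) + 1) * ((Nat.card K ^ j + 1) * gn (Nat.card K) (m - j)) := by
  classical
  have := Fintype.ofFinite (F.Om m)
  have := Fintype.ofFinite S
  have hqp : Prime (q : ℤ) := Nat.prime_iff_prime_int.1 hq
  obtain ⟨_, hA⟩ := exists_act f hf hker m
  subst hE
  have hX : (fun j => Nat.card K ^ (m - j) + 1) = fun j => 1 * Nat.card K ^ (m - j) + 1 := by
    funext j; rw [one_mul]
  rw [hX]
  refine ht_of hp hq hP hA hpq fun j h1 h3 h4 => ?_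
  by_contra hs
  rw [hq.dvd_mul, not_or] at h4
  have hab : ¬ (q : ℤ) ∣ th (Nat.card K) m 1 j - th (Nat.card K) m 1 0 := fun h => by
    have := (th_dvd h3).1 h
    rw [one_mul] at this
    exact h4.1 this
  have e1 := sep_tp' hq hqK hq1 hQ hP f hN hm hA hs hab
  rw [Nat.cast_one, sub_self, add_zero, hqp.dvd_mul] at e1
  have e2 := e1.resolve_left (not_dvd_sub hq1)
  apply h4.2
  have e3 : th (Nat.card K) m 1 j + th (Nat.card K) m 1 0 = (((Nat.card K ^ j + 1) * gn (Nat.card K) (m - j) : ℕ) : ℤ) := by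
    unfold th
    obtain ⟨i, rfl⟩ := Nat.exists_eq_add_of_le h3
    rw [Nat.sub_zero, gn_zero, Nat.add_sub_cancel_left, gn_add]
    push_cast
    ring
  rw [e3, Int.natCast_dvd_natCast] at e2
  exact e2

end tests

end Cfsg.Agent.H47.DP
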