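import Mathlib

/-!
# S4612: the numbers of the Hecke test (helper47)
-/

set_option autoImplicit false
set_option linter.unusedSectionVars false

namespace Cfsg.Agent.H47.DP

section

variable {p : ℕ} {Y : ℕ → ℕ}

theorem rhs_bound (hp : p.Prime) {J : Finset ℕ} {i τ : ℕ} (h1 : ∀ j ∈ J, j ≠ i → ¬ p ∣ Y j) (h2 : ¬ p ^ (τ + 1) ∣ Y i) :
    ¬ p ^ (τ + 1) ∣ ∏ j ∈ J, Y j := by
  classical
  intro h
  by_cases hi : i ∈ J
  · rw [← Finset.mul_prod_erase J Y hi] at h
    have h3 : Nat.Coprime (p ^ (τ + 1)) (∏ j ∈ J.erase i, Y j) := by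
      refine Nat.Coprime.pow_left _ (Nat.Coprime.prod_right fun j hj => ?_)
      rw [Finset.mem_erase] at hj
      exact (Nat.Prime.coprime_iff_not_dvd hp).2 (h1 j hj.2 hj.1)
    exact h2 (h3.dvd_of_dvd_mul_right h)
  · have h3 : p ∣ ∏ j ∈ J, Y j := (Dvd.intro_left _ (pow_succ p τ).symm).trans h
    obtain ⟨j, hj, h4⟩ := (Prime.dvd_finsetProd_iff hp.prime _).1 h3
    exact h1 j hj (fun h5 => hi (h5 ▸ hj)) h4

theorem lhs_two {X : ℕ → ℕ} {T : Finset ℕ} {i j τ : ℕ} (hi : i ∈ T) (hj : j ∈ T) (hij : i ≠ j) (h1 : p ^ τ ∣ X i)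
    (h2 : p ^ τ ∣ X j) (hτ : 1 ≤ τ) : p ^ (τ + 1) ∣ ∏ j ∈ T, X j := by
  classical
  have h3 : X i * X j ∣ ∏ j ∈ T, X j := by
    rw [← Finset.prod_pair hij]
    refine Finset.prod_dvd_prod_of_subset _ _ _ ?_
    intro x hx
    rw [Finset.mem_insert, Finset.mem_singleton] at hx
    rcases hx with rfl | rfl
    · exact hi
    · exact hj
  refine dvd_trans ?_ h3
  refine dvd_trans ?_ (mul_dvd_mul h1 h2)
  rw [← pow_add]
  exact pow_dvd_pow _ (by omega)

end

/-- the conclusion of the Hecke test -/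
def HT (p q m : ℕ) (X Y Z : ℕ → ℕ) : Prop :=
  ∀ u ≤ m, ∀ J : Finset ℕ, (∀ j, j ∈ J ↔ (1 ≤ j ∧ j ≤ u) ∧ q ∣ Z j) →
    ∀ k, p ^ k ∣ ∏ j ∈ Finset.Icc 1 u \ J, X j → p ^ k ∣ ∏ j ∈ J, Y j

theorem num_core {p q m P P' u₀ τ : ℕ} {X Y : ℕ → ℕ} (hp : p.Prime) (hq : q.Prime)
    (hHT : HT p q m X Y fun j => Y j * X j) (hPP : P < P')
    (hYp : ∀ j, p ∣ Y j → P ∣ j) (hYq : ∀ j, q ∣ Y j ↔ P' ∣ j)
    (hY1 : ¬ p ^ (τ + 1) ∣ Y P) (hY2 : ¬ p ^ (τ + 1) ∣ Y (2 * P)) (hτ : 1 ≤ τ)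
    (hXp : ∀ j, j ≤ m → (P : ℤ) ∣ (j : ℤ) - u₀ → p ^ τ ∣ X j)
    (hXq : q ∣ X u₀ → ∀ j, 1 ≤ j → j ≤ m → (q ∣ X j ↔ (P' : ℤ) ∣ (j : ℤ) - u₀))
    (hu1 : 1 ≤ u₀) (huP : u₀ ≤ P) (hum : u₀ ≤ m)
    (hcom : q ∣ X u₀ → u₀ + 2 * P ≤ m ∧ ¬ P' ∣ P ∧ ¬ P' ∣ 2 * P ∧ ¬ P' ∣ 3 * P ∧ ¬ P' ∣ 4 * P) : False := by
  classical
  have hpτ : p ∣ p ^ τ := dvd_pow_self p (by omega)
  by_cases h0 : q ∣ X u₀
  · obtain ⟨hm, n1, n2, n3, n4⟩ := hcom h0
    have z1 : ¬ (P' : ℤ) ∣ P := fun h => n1 (Int.natCast_dvd_natCast.1 h)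
    have z2 : ¬ (P' : ℤ) ∣ 2 * P := fun h => n2 (Int.natCast_dvd_natCast.1 (by push_cast; exact h))
    have z3 : ¬ (P' : ℤ) ∣ 3 * P := fun h => n3 (Int.natCast_dvd_natCast.1 (by push_cast; exact h))
    have z4 : ¬ (P' : ℤ) ∣ 4 * P := fun h => n4 (Int.natCast_dvd_natCast.1 (by push_cast; exact h))
    have hD : ∀ j, 1 ≤ j → j ≤ m → (q ∣ Y j * X j ↔ (P' : ℤ) ∣ j ∨ (P' : ℤ) ∣ (j : ℤ) - u₀) := by
      intro j h1 h2
      rw [hq.dvd_mul, hYq, hXq h0 j h1 h2, Int.natCast_dvd_natCast]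
    obtain ⟨J, hJd⟩ : ∃ J, J = (Finset.Icc 1 (u₀ + 2 * P)).filter (fun j => q ∣ Y j * X j) := ⟨_, rfl⟩
    have hJ : ∀ j, j ∈ J ↔ (1 ≤ j ∧ j ≤ u₀ + 2 * P) ∧ q ∣ Y j * X j := fun j => by
      rw [hJd, Finset.mem_filter, Finset.mem_Icc]
    have hH := hHT _ hm J hJ
    have hJ' : ∀ j ∈ J, (P' : ℤ) ∣ j ∨ (P' : ℤ) ∣ (j : ℤ) - u₀ := fun j hj => by
      have h1 := (hJ j).1 hj
      exact (hD j h1.1.1 (h1.1.2.trans hm)).1 h1.2
    have hnJ : ∀ j, 1 ≤ j → j ≤ u₀ + 2 * P → ¬ ((P' : ℤ) ∣ j ∨ (P' : ℤ) ∣ (j : ℤ) - u₀) →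
        j ∈ Finset.Icc 1 (u₀ + 2 * P) \ J := fun j h1 h2 h3 => by
      rw [Finset.mem_sdiff, Finset.mem_Icc]
      exact ⟨⟨h1, h2⟩, fun h => h3 (hJ' j h)⟩
    have e1 : p ^ τ ∣ X (u₀ + P) := hXp _ (by omega) ⟨1, by push_cast; ring⟩
    have e2 : p ^ τ ∣ X (u₀ + 2 * P) := hXp _ (by omega) ⟨2, by push_cast; ring⟩
    -- multiples of `P` in `J`
    have hmul : ∀ j ∈ J, p ∣ Y j → j = P ∨ j = 2 * P ∨ (u₀ = P ∧ j = 3 * P) := by
      intro j hj h
      obtain ⟨c, rfl⟩ := hYp j h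
      obtain ⟨⟨h1, h2⟩, -⟩ := (hJ _).1 hj
      have hc0 : c ≠ 0 := by rintro rfl; rw [mul_zero] at h1; omega
      have hc4 : c < 4 := by
        by_contra hc
        have := Nat.mul_le_mul_left P (not_lt.1 hc)
        omega
      interval_cases c
      · exact absurd rfl hc0
      · exact Or.inl (mul_one P)
      · exact Or.inr (Or.inl (mul_comm P 2))
      · exact Or.inr (Or.inr ⟨by omega, mul_comm P 3⟩)
    by_cases hu : u₀ = P
    · subst hu
      refine rhs_bound (Y := Y) hp (i := u₀) (fun j hj hne h => ?_) hY1 (hH (τ + 1)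
        (lhs_two (hnJ (u₀ + u₀) (by omega) (by omega) ?_) (hnJ (u₀ + 2 * u₀) (by omega) le_rfl ?_) (by omega) e1 e2 hτ))
      · rcases hmul j hj h with rfl | rfl | ⟨-, rfl⟩
        · exact hne rfl
        · rcases hJ' _ hj with h1 | h1
          · exact z2 (by push_cast at h1; exact h1)
          · exact z1 (by push_cast at h1; have : (2 : ℤ) * u₀ - u₀ = u₀ := by ring
                         rwa [this] at h1)
        · rcases hJ' _ hj with h1 | h1
          · exact z3 (by push_cast at h1; exact h1)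
          · exact z2 (by push_cast at h1; have : (3 : ℤ) * u₀ - u₀ = 2 * u₀ := by ring
                         rwa [this] at h1)
      · rintro (h1 | h1)
        · exact z2 (by push_cast at h1; rwa [← two_mul] at h1)
        · exact z1 (by push_cast at h1; rwa [add_sub_cancel_right] at h1)
      · rintro (h1 | h1)
        · exact z3 (by push_cast at h1; have : (u₀ : ℤ) + 2 * u₀ = 3 * u₀ := by ring
                       rwa [this] at h1)
        · exact z2 (by push_cast at h1; rwa [add_sub_cancel_left] at h1)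
    · have hlt : u₀ < P := lt_of_le_of_ne huP hu
      have hPJ : ¬ P ∈ J := by
        intro h
        rcases hJ' _ h with h1 | h1
        · exact z1 h1
        · have h2 : ((P : ℤ) - u₀) = ((P - u₀ : ℕ) : ℤ) := by omega
          rw [h2, Int.natCast_dvd_natCast] at h1
          have := Nat.le_of_dvd (by omega) h1
          omega
      by_cases h2 : (P' : ℤ) ∣ 2 * P - u₀
      · refine rhs_bound (Y := Y) hp (i := 2 * P) (fun j hj hne h => ?_) hY2 (hH (τ + 1)
          (lhs_two (hnJ (u₀ + P) (by omega) (by omega) ?_) (hnJ (u₀ + 2 * P) (by omega) le_rfl ?_) (by omega) e1 e2 hτ))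
        · rcases hmul j hj h with rfl | rfl | ⟨h3, -⟩
          · exact hPJ hj
          · exact hne rfl
          · exact hu h3
        · rintro (h1 | h1)
          · exact z3 (by
              have := dvd_add h1 h2
              push_cast at this
              have e : (u₀ : ℤ) + P + (2 * P - u₀) = 3 * P := by ring
              rwa [e] at this)
          · exact z1 (by push_cast at h1; rwa [add_sub_cancel_left] at h1)
        · rintro (h1 | h1)
          · exact z4 (by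
              have := dvd_add h1 h2
              push_cast at this
              have e : (u₀ : ℤ) + 2 * P + (2 * P - u₀) = 4 * P := by ring
              rwa [e] at this)
          · exact z2 (by push_cast at h1; rwa [add_sub_cancel_left] at h1)
      · have hno : ¬ p ∣ ∏ j ∈ J, Y j := by
          intro h
          obtain ⟨j, hj, h4⟩ := (Prime.dvd_finsetProd_iff hp.prime _).1 h
          rcases hmul j hj h4 with rfl | rfl | ⟨h3, -⟩
          · exact hPJ hj
          · rcases hJ' _ hj with h1 | h1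
            · exact z2 (by push_cast at h1; exact h1)
            · exact h2 (by push_cast at h1; exact h1)
          · exact hu h3
        apply hno
        have h3 := hH 1
        rw [pow_one] at h3
        apply h3
        by_cases h4 : (P' : ℤ) ∣ ((u₀ + P : ℕ) : ℤ)
        · refine (hpτ.trans e2).trans (Finset.dvd_prod_of_mem _ (hnJ (u₀ + 2 * P) (by omega) le_rfl ?_))
          rintro (h1 | h1)
          · exact z1 (by
              have := dvd_sub h1 h4
              push_cast at this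
              have e : (u₀ : ℤ) + 2 * P - (u₀ + P) = P := by ring
              rwa [e] at this)
          · exact z2 (by push_cast at h1; rwa [add_sub_cancel_left] at h1)
        · refine (hpτ.trans e1).trans (Finset.dvd_prod_of_mem _ (hnJ (u₀ + P) (by omega) (by omega) ?_))
          rintro (h1 | h1)
          · exact h4 h1
          · exact z1 (by push_cast at h1; rwa [add_sub_cancel_left] at h1)
  · obtain ⟨J, hJd⟩ : ∃ J, J = (Finset.Icc 1 u₀).filter (fun j => q ∣ Y j * X j) := ⟨_, rfl⟩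
    have hJ : ∀ j, j ∈ J ↔ (1 ≤ j ∧ j ≤ u₀) ∧ q ∣ Y j * X j := fun j => by
      rw [hJd, Finset.mem_filter, Finset.mem_Icc]
    have hnu : u₀ ∉ J := by
      intro h
      rcases hq.dvd_mul.1 ((hJ _).1 h).2 with h1 | h1
      · have := Nat.le_of_dvd (by omega) ((hYq _).1 h1)
        omega
      · exact h0 h1
    have hH := hHT _ hum J hJ 1
    rw [pow_one] at hH
    have h1 := hH ((hpτ.trans (hXp u₀ hum ⟨0, by ring⟩)).trans
      (Finset.dvd_prod_of_mem _ (Finset.mem_sdiff.2 ⟨Finset.mem_Icc.2 ⟨hu1, le_rfl⟩, hnu⟩)))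
    obtain ⟨j, hj, h4⟩ := (Prime.dvd_finsetProd_iff hp.prime _).1 h1
    obtain ⟨⟨h5, h6⟩, -⟩ := (hJ _).1 hj
    have h7 := Nat.le_of_dvd (by omega) (hYp j h4)
    have h8 : j = u₀ := by omega
    exact hnu (h8 ▸ hj)

end Cfsg.Agent.H47.DP
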