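import Cfsg.Agent.H477.HC.Trans
import Cfsg.Agent.H950.Count

/-!
# S4612: maximal totally singular subspaces of a `CForm` (helper47)

* `finrank_perp`, `mem_of_perp`, `finrank_inf_perp`;
* `card_hyps` : the number of hyperplanes of `M` containing `U`.
-/

set_option autoImplicit false
set_option linter.unusedSectionVars false

open Cfsg

namespace Cfsg.Agent.H47.DP

open Cfsg.Agent.H477.HC Cfsg.Agent.H477.HC.CForm Cfsg.Agent.H53.HC Module

universe u v

variable {K : Type u} [Field K] {V : Type v} [AddCommGroup V] [Module K V] [FiniteDimensional K V] (F : CForm K V)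

theorem finrank_perp (W : Submodule K V) : finrank K (F.perp W) + finrank K W = finrank K V := by
  obtain ⟨C, hC⟩ := (F.perp W).exists_isCompl
  have h1 := Submodule.finrank_add_eq_of_isCompl hC
  have h2 : finrank K C ≤ finrank K W := F.finrank_le_of_opp (by rw [inf_comm]; exact hC.inf_eq_bot)
  have h3 : finrank K W ≤ finrank K C := by
    apply F.finrank_le_of_opp
    rw [Submodule.eq_bot_iff]
    rintro x ⟨hx, hx'⟩
    refine F.nondeg x fun v => ?_
    have hv : v ∈ F.perp W ⊔ C := by rw [hC.sup_eq_top]; trivial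
    obtain ⟨a, ha, c, hc, rfl⟩ := Submodule.mem_sup.1 hv
    rw [F.B_add_right, F.B_eq_zero (ha x hx), hx' c hc, add_zero]
  omega

theorem perp_sup (W W' : Submodule K V) : F.perp (W ⊔ W') = F.perp W ⊓ F.perp W' := by
  apply le_antisymm
  · exact le_inf (F.perp_anti le_sup_left) (F.perp_anti le_sup_right)
  · rintro x ⟨hx, hx'⟩ w hw
    obtain ⟨a, ha, b, hb, rfl⟩ := Submodule.mem_sup.1 hw
    rw [F.B_add_right, hx a ha, hx' b hb, add_zero]

theorem perp_bot : F.perp ⊥ = ⊤ := by
  rw [eq_top_iff]
  intro v _ w hw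
  rw [(Submodule.mem_bot K).1 hw, F.B_zero_right]

theorem TS_bot : F.TS ⊥ := by
  refine ⟨fun w hw => ?_, fun w hw w' hw' => ?_⟩
  · rw [(Submodule.mem_bot K).1 hw, F.Q_zero]
  · rw [(Submodule.mem_bot K).1 hw, F.B_zero_left]

variable {F} {m : ℕ} (hmax : ∀ W : Submodule K V, F.TS W → finrank K W ≤ m)

section
include hmax

theorem le_of_perp {M : Submodule K V} (hM : M ∈ F.Om m) {W : Submodule K V} (hW : F.TS W) (h : W ≤ F.perp M) :
    W ≤ M := by
  have h1 : F.TS (M ⊔ W) := F.TS_sup hM.1 hW fun x hx w hw => F.B_eq_zero (h hw x hx)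
  have h2 := hmax _ h1
  have h3 : M = M ⊔ W := Submodule.eq_of_le_of_finrank_le le_sup_left (by rw [hM.2]; exact h2)
  exact le_sup_right.trans h3.ge

theorem mem_of_perp {M : Submodule K V} (hM : M ∈ F.Om m) {v : V} (hv : F.Sing v) (h : v ∈ F.perp M) : v ∈ M := by
  have h1 : F.TS (K ∙ v) := by
    refine ⟨fun w hw => ?_, fun w hw w' hw' => ?_⟩
    · obtain ⟨a, rfl⟩ := Submodule.mem_span_singleton.1 hw
      rw [F.Q_smul, hv.1, mul_zero]
    · obtain ⟨a, rfl⟩ := Submodule.mem_span_singleton.1 hw
      obtain ⟨b, rfl⟩ := Submodule.mem_span_singleton.1 hw'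
      rw [F.B_smul_left, F.B_smul_right, hv.2, mul_zero, mul_zero]
  exact le_of_perp hmax hM h1 ((Submodule.span_singleton_le_iff_mem _ _).2 h) (Submodule.mem_span_singleton_self v)

theorem perp_inf {M U : Submodule K V} (hM : M ∈ F.Om m) (hU : F.TS U) : F.perp M ⊓ U = M ⊓ U := by
  apply le_antisymm
  · rintro x ⟨hx, hxU⟩
    exact ⟨mem_of_perp hmax hM (hU.sing hxU) hx, hxU⟩
  · exact inf_le_inf_right _ hM.1.le_perp

theorem finrank_inf_perp {M U : Submodule K V} (hM : M ∈ F.Om m) (hU : F.TS U) :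
    finrank K (M ⊓ F.perp U : Submodule K V) + finrank K U = m + finrank K (M ⊓ U : Submodule K V) := by
  have h1 : M ⊓ F.perp U = F.perp (F.perp M ⊔ U) := by rw [perp_sup, F.perp_perp]
  have h2 := finrank_perp F (F.perp M ⊔ U)
  have h3 := Submodule.finrank_sup_add_finrank_inf_eq (F.perp M) U
  have h4 := finrank_perp F M
  rw [perp_inf hmax hM hU] at h3
  rw [h1]
  have h5 := hM.2
  omega

theorem proj_mem {M U : Submodule K V} (hM : M ∈ F.Om m) (hU : F.TS U) : (M ⊓ F.perp U) ⊔ U ∈ F.Om m := by
  refine ⟨F.TS_sup (hM.1.mono inf_le_left) hU inf_le_right, ?_⟩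
  have h1 := Submodule.finrank_sup_add_finrank_inf_eq (M ⊓ F.perp U) U
  have h2 := finrank_inf_perp hmax hM hU
  have h3 : M ⊓ F.perp U ⊓ U = M ⊓ U := by
    rw [inf_assoc]
    congr 1
    exact inf_eq_right.2 hU.le_perp
  rw [h3] at h1
  omega

end

/-! ### hyperplanes -/

/-- the number of points of a projective space -/
def gn (Q n : ℕ) : ℕ := ∑ i ∈ Finset.range n, Q ^ i

theorem gn_zero (Q : ℕ) : gn Q 0 = 0 := rfl

theorem gn_succ (Q n : ℕ) : gn Q (n + 1) = gn Q n + Q ^ n := Finset.sum_range_succ _ _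

theorem gn_one (Q : ℕ) : gn Q 1 = 1 := by rw [gn_succ, gn_zero, pow_zero, zero_add]

theorem gn_pos (Q : ℕ) {n : ℕ} (hn : 0 < n) : 0 < gn Q n := by
  obtain ⟨n, rfl⟩ := Nat.exists_eq_succ_of_ne_zero hn.ne'
  unfold gn
  rw [Finset.sum_range_succ', pow_zero]
  exact Nat.succ_pos _

theorem gn_mul (Q n : ℕ) (hQ : 1 ≤ Q) : gn Q n * (Q - 1) = Q ^ n - 1 := by
  induction n with
  | zero => simp [gn_zero]
  | succ n ih =>
    rw [gn_succ, add_mul, ih]
    have h1 : 1 ≤ Q ^ n := Nat.one_le_pow _ _ hQ
    have h2 : Q ^ n ≤ Q ^ (n + 1) := Nat.pow_le_pow_right hQ (Nat.le_succ _)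
    zify [hQ, h1, h1.trans h2]
    ring

theorem card_hyps_top [Finite K] {W : Type*} [AddCommGroup W] [Module K W] [FiniteDimensional K W] :
    Nat.card {H : Submodule K W // finrank K H + 1 = finrank K W} = gn (Nat.card K) (finrank K W) := by
  classical
  have := Fintype.ofFinite K
  rcases Nat.eq_zero_or_pos (finrank K W) with h0 | hpos
  · rw [h0, gn_zero]
    refine @Nat.card_of_isEmpty _ ⟨fun H => ?_⟩
    have := H.2
    omega
  · have h1 := H950.card_subspaces_symm (F := K) (V := W) (n := finrank K W) rfl (k := 1) hpos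
    have h2 := H950.card_subspaces_eq (F := K) (V := W) (n := finrank K W) rfl (k := 1) hpos rfl
    have h3 : Nat.card {H : Submodule K W // finrank K H + 1 = finrank K W} =
        Nat.card {H : Submodule K W // finrank K H = finrank K W - 1} :=
      Nat.card_congr (Equiv.subtypeEquivRight fun H => by omega)
    rw [h3, h1]
    rw [Fin.prod_univ_one, Fin.prod_univ_one] at h2
    simp only [Fin.val_zero, Nat.sub_zero, pow_one] at h2
    rw [Fintype.card_eq_nat_card] at h2
    have hQ : 1 < Nat.card K := Finite.one_lt_card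
    rw [← gn_mul _ _ hQ.le] at h2
    exact Nat.eq_of_mul_eq_mul_right (Nat.sub_pos_of_lt hQ) h2

theorem card_hyps_le [Finite K] {M : Submodule K V} :
    Nat.card {H : Submodule K V // H ≤ M ∧ finrank K H + 1 = finrank K M} = gn (Nat.card K) (finrank K M) := by
  rw [← card_hyps_top (K := K) (W := M)]
  refine Nat.card_congr
    { toFun := fun H => ⟨H.1.comap M.subtype, ?_⟩
      invFun := fun H => ⟨H.1.map M.subtype, Submodule.map_subtype_le _ _, ?_⟩
      left_inv := fun H => Subtype.ext ?_
      right_inv := fun H => Subtype.ext ?_ }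
  · rw [(Submodule.comapSubtypeEquivOfLe H.2.1).finrank_eq]
    exact H.2.2
  · rw [← (Submodule.equivMapOfInjective _ M.subtype_injective H.1).finrank_eq]
    exact H.2
  · exact (Submodule.map_comap_subtype _ _).trans (inf_eq_right.2 H.2.1)
  · exact Submodule.comap_map_eq_of_injective M.subtype_injective _

/-- hyperplanes containing a subspace -/
theorem card_hyps_ge [Finite K] {W : Type*} [AddCommGroup W] [Module K W] [FiniteDimensional K W] (U : Submodule K W) :
    Nat.card {H : Submodule K W // U ≤ H ∧ finrank K H + 1 = finrank K W} =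
      gn (Nat.card K) (finrank K W - finrank K U) := by
  have hq : finrank K (W ⧸ U) = finrank K W - finrank K U := by
    have := Submodule.finrank_quotient_add_finrank U
    omega
  have hle := Submodule.finrank_le U
  rw [← hq, ← card_hyps_top (K := K) (W := W ⧸ U)]
  have key : ∀ H : Submodule K (W ⧸ U), finrank K (H.comap U.mkQ) = finrank K H + finrank K U := by
    intro H
    have h1 := Submodule.finrank_quotient_add_finrank (H.comap U.mkQ)
    have h2 := Submodule.finrank_quotient_add_finrank H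
    have h3 : finrank K (W ⧸ H.comap U.mkQ) = finrank K ((W ⧸ U) ⧸ H) := by
      refine LinearEquiv.finrank_eq (LinearEquiv.ofBijective
        (Submodule.mapQ (H.comap U.mkQ) H U.mkQ le_rfl) ⟨?_, ?_⟩)
      · rw [← LinearMap.ker_eq_bot, Submodule.mapQ, Submodule.ker_liftQ, LinearMap.ker_comp, Submodule.ker_mkQ,
          Submodule.mkQ_map_self]
      · intro x
        obtain ⟨x, rfl⟩ := H.mkQ_surjective x
        obtain ⟨x, rfl⟩ := U.mkQ_surjective x
        exact ⟨(H.comap U.mkQ).mkQ x, rfl⟩
    have h4 := Submodule.finrank_le (H.comap U.mkQ)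
    have h5 := Submodule.finrank_le H
    omega
  refine Nat.card_congr
    { toFun := fun H => ⟨H.1.map U.mkQ, ?_⟩
      invFun := fun H => ⟨H.1.comap U.mkQ, ?_, ?_⟩
      left_inv := fun H => Subtype.ext ?_
      right_inv := fun H => Subtype.ext ?_ }
  · have h1 := key (H.1.map U.mkQ)
    have h2 : (H.1.map U.mkQ).comap U.mkQ = H.1 := by
      rw [Submodule.comap_map_eq, Submodule.ker_mkQ]
      exact sup_eq_left.2 H.2.1
    rw [h2] at h1
    have := H.2.2
    omega
  · intro x hx
    rw [Submodule.mem_comap, Submodule.mkQ_apply, (Submodule.Quotient.mk_eq_zero U).2 hx]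
    exact H.1.zero_mem
  · rw [key]
    have := H.2
    omega
  · change (H.1.map U.mkQ).comap U.mkQ = H.1
    rw [Submodule.comap_map_eq, Submodule.ker_mkQ]
    exact sup_eq_left.2 H.2.1
  · exact Submodule.map_comap_eq_of_surjective U.mkQ_surjective _

theorem card_hyps [Finite K] {U M : Submodule K V} (hUM : U ≤ M) :
    Nat.card {H : Submodule K V // U ≤ H ∧ H ≤ M ∧ finrank K H + 1 = finrank K M} =
      gn (Nat.card K) (finrank K M - finrank K U) := by
  have h1 : finrank K (U.comap M.subtype) = finrank K U := (Submodule.comapSubtypeEquivOfLe hUM).finrank_eq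
  rw [← h1, ← card_hyps_ge (K := K) (W := M)]
  refine Nat.card_congr
    { toFun := fun H => ⟨H.1.comap M.subtype, Submodule.comap_mono H.2.1, ?_⟩
      invFun := fun H => ⟨H.1.map M.subtype, ?_, Submodule.map_subtype_le _ _, ?_⟩
      left_inv := fun H => Subtype.ext ?_
      right_inv := fun H => Subtype.ext ?_ }
  · rw [(Submodule.comapSubtypeEquivOfLe H.2.2.1).finrank_eq]
    exact H.2.2.2
  · have h2 := Submodule.map_mono (f := M.subtype) H.2.1
    rwa [Submodule.map_comap_subtype, inf_eq_right.2 hUM] at h2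
  · rw [← (Submodule.equivMapOfInjective _ M.subtype_injective H.1).finrank_eq]
    exact H.2.2
  · exact (Submodule.map_comap_subtype _ _).trans (inf_eq_right.2 H.2.2.1)
  · exact Submodule.comap_map_eq_of_injective M.subtype_injective _

end Cfsg.Agent.H47.DP
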