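import Cfsg.Agent.H47.DP.Num
import Cfsg.Agent.H47.DP.Perp

/-!
# S4612: the numbers of the Hecke test for the classical groups (helper47)
-/

set_option autoImplicit false
set_option linter.unusedSectionVars false

namespace Cfsg.Agent.H47.DP

section basic

variable {p x : ℕ}

theorem ord_pos (hp : p.Prime) (hx : ¬ p ∣ x) : 0 < orderOf ((x : ℕ) : ZMod p) := by
  have : Fact p.Prime := ⟨hp⟩
  have h0 : ((x : ℕ) : ZMod p) ≠ 0 := by rwa [Ne, ZMod.natCast_eq_zero_iff]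
  rw [← Units.val_mk0 h0, orderOf_units]
  exact orderOf_pos _

theorem not_dvd_of_ord (hp : p.Prime) (h : 0 < orderOf ((x : ℕ) : ZMod p)) : ¬ p ∣ x := by
  intro h1
  have : Fact p.Prime := ⟨hp⟩
  have h0 : ((x : ℕ) : ZMod p) = 0 := (ZMod.natCast_eq_zero_iff _ _).2 h1
  have h2 := pow_orderOf_eq_one ((x : ℕ) : ZMod p)
  rw [h0] at h2 h
  rw [zero_pow h.ne'] at h2
  exact zero_ne_one h2

theorem dvd_sub_one_iff (hx : 1 ≤ x) (i : ℕ) : p ∣ x ^ i - 1 ↔ orderOf ((x : ℕ) : ZMod p) ∣ i := by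
  rw [orderOf_dvd_iff_pow_eq_one, ← ZMod.natCast_eq_zero_iff, Nat.cast_sub (Nat.one_le_pow _ _ hx), Nat.cast_pow,
    Nat.cast_one, sub_eq_zero]

theorem dvd_add_one (i : ℕ) : p ∣ x ^ i + 1 ↔ ((x : ℕ) : ZMod p) ^ i = -1 := by
  rw [← ZMod.natCast_eq_zero_iff, Nat.cast_add, Nat.cast_pow, Nat.cast_one, add_eq_zero_iff_eq_neg]

theorem dvd_add_one_iff (hp : p.Prime) (hx : ¬ p ∣ x) {a b : ℕ} (ha : p ∣ x ^ a + 1) :
    p ∣ x ^ b + 1 ↔ (orderOf ((x : ℕ) : ZMod p) : ℤ) ∣ (b : ℤ) - a := by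
  have : Fact p.Prime := ⟨hp⟩
  have h0 : ((x : ℕ) : ZMod p) ≠ 0 := by rwa [Ne, ZMod.natCast_eq_zero_iff]
  rw [dvd_add_one] at ha ⊢
  rw [← ha, ← Units.val_mk0 h0, orderOf_units, ← Units.val_pow_eq_pow_val, ← Units.val_pow_eq_pow_val, Units.val_inj,
    pow_eq_pow_iff_modEq, Nat.ModEq.comm, Nat.modEq_iff_dvd]

theorem not_both (hp : p.Prime) (hp2 : p ≠ 2) (hx : 1 ≤ x) {a : ℕ} (ha : p ∣ x ^ a + 1) : ¬ p ∣ x ^ a - 1 := by
  intro h
  have h5 : x ^ a + 1 = (x ^ a - 1) + 2 := by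
    have := Nat.one_le_pow a x hx
    omega
  rw [h5] at ha
  exact hp2 ((Nat.prime_dvd_prime_iff_eq hp Nat.prime_two).1 ((Nat.dvd_add_right h).1 ha))

theorem sq_sub' (a : ℕ) : x ^ (2 * a) - 1 = (x ^ a - 1) * (x ^ a + 1) := by
  have h := Nat.sq_sub_sq (x ^ a) 1
  rw [one_pow, ← pow_mul, mul_comm a 2] at h
  rw [h, mul_comm]

theorem pow_dvd_add_one (hp : p.Prime) (hp2 : p ≠ 2) (hx : 1 ≤ x) {τ : ℕ}
    (hτ : p ^ τ ∣ x ^ orderOf ((x : ℕ) : ZMod p) - 1) {a : ℕ} (ha : p ∣ x ^ a + 1) : p ^ τ ∣ x ^ a + 1 := by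
  have h1 : p ∣ x ^ (2 * a) - 1 := by rw [sq_sub']; exact Dvd.dvd.mul_left ha _
  obtain ⟨c, hc⟩ := (dvd_sub_one_iff hx _).1 h1
  have h2 : p ^ τ ∣ x ^ (2 * a) - 1 := by
    refine hτ.trans ?_
    rw [hc, pow_mul]
    simpa using Nat.sub_dvd_pow_sub_pow (x ^ orderOf ((x : ℕ) : ZMod p)) 1 c
  rw [sq_sub'] at h2
  exact (Nat.Coprime.pow_left τ ((Nat.Prime.coprime_iff_not_dvd hp).2 (not_both hp hp2 hx ha))).dvd_of_dvd_mul_left h2

/-- the exact power -/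
theorem exists_tau (hp : p.Prime) (hx : 2 ≤ x) (hpx : ¬ p ∣ x) : ∃ τ, 1 ≤ τ ∧
    p ^ τ ∣ x ^ orderOf ((x : ℕ) : ZMod p) - 1 ∧ ¬ p ^ (τ + 1) ∣ x ^ orderOf ((x : ℕ) : ZMod p) - 1 := by
  have h0 := ord_pos hp hpx
  have h1 : x ^ orderOf ((x : ℕ) : ZMod p) - 1 ≠ 0 := by
    have := Nat.one_lt_pow h0.ne' hx
    omega
  obtain ⟨τ, a', ha', h2⟩ := Nat.exists_eq_pow_mul_and_not_dvd h1 p hp.one_lt.ne'
  refine ⟨τ, ?_, ⟨a', h2⟩, ?_⟩
  · by_contra h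
    have h3 : τ = 0 := by omega
    rw [h3, pow_zero, one_mul] at h2
    exact ha' (h2 ▸ (dvd_sub_one_iff (by omega) _).2 dvd_rfl)
  · intro h
    rw [h2, pow_succ] at h
    exact ha' (Nat.dvd_of_mul_dvd_mul_left (pow_pos hp.pos _) h)

theorem gn_dvd (hp : p.Prime) {Q : ℕ} (hQ : 1 ≤ Q) (hp1 : ¬ p ∣ Q - 1) (k j : ℕ) : p ^ k ∣ gn Q j ↔ p ^ k ∣ Q ^ j - 1 := by
  rw [← gn_mul Q j hQ]
  constructor
  · intro h; exact Dvd.dvd.mul_right h _
  · intro h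
    exact (Nat.Coprime.pow_left k ((Nat.Prime.coprime_iff_not_dvd hp).2 hp1)).dvd_of_dvd_mul_right h

/-- `Y P` and `Y (2P)` -/
theorem gn_not_dvd (hp : p.Prime) (hp2 : p ≠ 2) {Q P τ : ℕ} (hQ : 1 ≤ Q) (hp1 : ¬ p ∣ Q - 1)
    (h : ¬ p ^ (τ + 1) ∣ Q ^ P - 1) (hP : p ∣ Q ^ P - 1) : ¬ p ^ (τ + 1) ∣ gn Q P ∧ ¬ p ^ (τ + 1) ∣ gn Q (2 * P) := by
  refine ⟨by rwa [gn_dvd hp hQ hp1], ?_⟩
  rw [gn_dvd hp hQ hp1, sq_sub']
  intro h1
  have h2 : ¬ p ∣ Q ^ P + 1 := fun h3 => not_both hp hp2 hQ h3 hP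
  exact h ((Nat.Coprime.pow_left (τ + 1) ((Nat.Prime.coprime_iff_not_dvd hp).2 h2)).dvd_of_dvd_mul_right h1)

theorem add_one_of_ord (hp : p.Prime) {d : ℕ} (hd : orderOf ((x : ℕ) : ZMod p) = 2 * d) (hd0 : 0 < d) :
    p ∣ x ^ d + 1 := by
  have : Fact p.Prime := ⟨hp⟩
  rw [dvd_add_one]
  have h1 : ((x : ℕ) : ZMod p) ^ (2 * d) = 1 := by rw [← hd]; exact pow_orderOf_eq_one _
  rw [mul_comm, pow_mul] at h1
  rcases sq_eq_sq_iff_eq_or_eq_neg.1 (h1.trans (one_pow 2).symm) with h | h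
  · exfalso
    have h2 := orderOf_dvd_of_pow_eq_one h
    rw [hd] at h2
    have := Nat.le_of_dvd hd0 h2
    omega
  · exact h

/-- two odd multiples -/
theorem common {d d' a a' : ℕ} (hd : 0 < d) (hlt : d < d') (ha : Odd a) (ha' : Odd a') (h : d * a = d' * a')
    (hno : ∀ c, Odd c → d' ≠ d * c) : 5 * d ≤ d * a ∧ 2 ≤ d ∧ ¬ d' ∣ d ∧ ¬ d' ∣ 2 * d ∧ ¬ d' ∣ 3 * d ∧ ¬ d' ∣ 4 * d := by
  have ha'3 : 3 ≤ a' := by
    obtain ⟨c, rfl⟩ := ha'
    rcases Nat.eq_zero_or_pos c with rfl | hc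
    · exfalso
      exact hno a ha (by rw [h]; ring)
    · omega
  have hlt' : a' < a := by
    by_contra hcon
    have h1 := Nat.mul_le_mul_left d (not_lt.1 hcon)
    have h2 : d * a' < d' * a' := Nat.mul_lt_mul_of_pos_right hlt (by omega)
    omega
  have ha5 : 5 ≤ a := by
    obtain ⟨c, rfl⟩ := ha
    obtain ⟨c', rfl⟩ := ha'
    omega
  -- `i d = d' c` gives `i a' = ... `
  have key : ∀ i c : ℕ, i * d = d' * c → c * a = i * a' := by
    intro i c h1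
    have h2 : d * (c * a) = d * (i * a') := by
      calc d * (c * a) = c * (d * a) := by ring
        _ = c * (d' * a') := by rw [h]
        _ = (d' * c) * a' := by ring
        _ = (i * d) * a' := by rw [h1]
        _ = d * (i * a') := by ring
    exact Nat.eq_of_mul_eq_mul_left hd h2
  have hclt : ∀ i c : ℕ, 0 < i → i * d = d' * c → c < i := by
    intro i c hi h1
    by_contra hcon
    have h2 : d' * i ≤ d' * c := Nat.mul_le_mul_left _ (not_lt.1 hcon)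
    have h3 : i * d < d' * i := by rw [mul_comm d' i]; exact Nat.mul_lt_mul_of_pos_left hlt hi
    omega
  obtain ⟨s, hs⟩ := ha
  obtain ⟨s', hs'⟩ := ha'
  refine ⟨?_, ?_, ?_, ?_, ?_, ?_⟩
  · rw [mul_comm 5 d]
    exact Nat.mul_le_mul_left _ ha5
  · by_contra h1
    have h2 : d = 1 := by omega
    subst h2
    rw [one_mul] at h
    have h3 : Odd (d' * a') := ⟨s, by omega⟩
    exact hno d' (Nat.odd_mul.1 h3).1 (by rw [one_mul])
  · rintro ⟨c, hc⟩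
    have h1 := hclt 1 c one_pos (by rw [one_mul]; exact hc)
    have h2 : c = 0 := by omega
    rw [h2, mul_zero] at hc
    omega
  · rintro ⟨c, hc⟩
    have h1 := hclt 2 c two_pos hc
    have h2 := key 2 c hc
    interval_cases c
    · omega
    · omega
  · rintro ⟨c, hc⟩
    have h1 := hclt 3 c (by norm_num) hc
    have h2 := key 3 c hc
    interval_cases c
    · omega
    · exact hno 3 ⟨1, rfl⟩ (by omega)
    · omega
  · rintro ⟨c, hc⟩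
    have h1 := hclt 4 c (by norm_num) hc
    have h2 := key 4 c hc
    interval_cases c <;> omega

/-- the odd multiples -/
theorem dvd_add_one_mul (hp : p.Prime) {d : ℕ} (hd : orderOf ((x : ℕ) : ZMod p) = 2 * d) (hd0 : 0 < d) {t : ℕ}
    (h : p ∣ x ^ t + 1) : ∃ a, Odd a ∧ t = d * a := by
  have hx : ¬ p ∣ x := not_dvd_of_ord hp (by omega)
  have h1 := (dvd_add_one_iff hp hx (add_one_of_ord hp hd hd0)).1 h
  rw [hd] at h1
  obtain ⟨c, hc⟩ := h1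
  have h2 : 0 ≤ c := by
    by_contra h3
    push_cast at hc
    have h4 : c ≤ -1 := by omega
    have h5 : (2 : ℤ) * d * c ≤ 2 * d * (-1) := mul_le_mul_of_nonneg_left h4 (by positivity)
    omega
  obtain ⟨n, rfl⟩ := Int.eq_ofNat_of_zero_le h2
  refine ⟨2 * n + 1, ⟨n, rfl⟩, ?_⟩
  push_cast at hc
  have h3 : (t : ℤ) = d * (2 * n + 1) := by linear_combination hc
  exact_mod_cast h3

end basic

section main

variable {p q : ℕ}

/-- **symplectic groups, orthogonal groups in odd dimension or of minus type** -/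
theorem num_quad {Q m e d d' : ℕ} (hp : p.Prime) (hq : q.Prime) (hp2 : p ≠ 2) (hQ : 2 ≤ Q)
    (hd : orderOf ((Q : ℕ) : ZMod p) = 2 * d) (hd' : orderOf ((Q : ℕ) : ZMod q) = 2 * d') (hd0 : 0 < d)
    (hlt : d < d') (hno : ∀ c, Odd c → d' ≠ d * c) (he1 : 1 ≤ e) (he2 : e ≤ 2)
    (hex : ∃ j, 1 ≤ j ∧ j ≤ m ∧ p ∣ Q ^ (m - j + e) + 1)
    (h : HT p q m (fun j => Q ^ e * Q ^ (m - j) + 1) (gn Q) fun j => gn Q j * (Q ^ e * Q ^ (m - j) + 1)) : False := by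
  have hpQ : ¬ p ∣ Q := not_dvd_of_ord hp (by omega)
  have hqQ : ¬ q ∣ Q := not_dvd_of_ord hq (by omega)
  have hX : ∀ j, Q ^ e * Q ^ (m - j) + 1 = Q ^ (m - j + e) + 1 := fun j => by rw [← pow_add, add_comm e]
  have hp1 : ¬ p ∣ Q - 1 := by
    intro h1
    have := (dvd_sub_one_iff (p := p) (x := Q) (by omega) 1).1 (by rwa [pow_one])
    rw [hd] at this
    have := Nat.le_of_dvd one_pos this
    omega
  have hq1 : ¬ q ∣ Q - 1 := by
    intro h1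
    have := (dvd_sub_one_iff (p := q) (x := Q) (by omega) 1).1 (by rwa [pow_one])
    rw [hd'] at this
    have := Nat.le_of_dvd one_pos this
    omega
  obtain ⟨τ, hτ1, hτ, hτ'⟩ := exists_tau hp hQ hpQ
  -- the first `j`
  classical
  obtain ⟨u₀, ⟨hu1, hum, hu⟩, hmin⟩ : ∃ u, (1 ≤ u ∧ u ≤ m ∧ p ∣ Q ^ (m - u + e) + 1) ∧
      ∀ j < u, ¬ (1 ≤ j ∧ j ≤ m ∧ p ∣ Q ^ (m - j + e) + 1) :=
    ⟨Nat.find hex, Nat.find_spec hex, fun j hj => Nat.find_min hex hj⟩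
  have hexp : ∀ j, j ≤ m → ((m - j + e : ℕ) : ℤ) - ((m - u₀ + e : ℕ) : ℤ) = -((j : ℤ) - u₀) := by
    intro j hj
    omega
  have hYp := gn_not_dvd hp hp2 (Q := Q) (P := 2 * d) (τ := τ) (by omega) hp1 (by rwa [hd] at hτ')
    (by rw [dvd_sub_one_iff (by omega), hd])
  refine num_core (P := 2 * d) (P' := 2 * d') (u₀ := u₀) (τ := τ) hp hq h (by omega) (fun j hj => ?_) (fun j => ?_) hYp.1
    hYp.2 hτ1 (fun j hj hdv => ?_) (fun hqu j h1 h2 => ?_) hu1 ?_ hum (fun hqu => ?_)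
  · have h1 := (gn_dvd hp (by omega) hp1 1 j).1 (by rwa [pow_one])
    rw [pow_one, dvd_sub_one_iff (by omega), hd] at h1
    exact h1
  · have h1 := gn_dvd hq (Q := Q) (by omega) hq1 1 j
    rw [pow_one] at h1
    rw [h1, dvd_sub_one_iff (by omega), hd']
  · rw [hX]
    refine pow_dvd_add_one hp hp2 (by omega) hτ ?_
    rw [dvd_add_one_iff hp hpQ hu, hexp j hj, dvd_neg, hd]
    exact hdv
  · rw [hX]
    have hqu' : q ∣ Q ^ e * Q ^ (m - u₀) + 1 := hqu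
    rw [hX] at hqu'
    rw [dvd_add_one_iff hq hqQ hqu', hexp j h2, dvd_neg, hd']
  · by_contra hcon
    have h1 : p ∣ Q ^ (m - (u₀ - 2 * d) + e) + 1 := by
      rw [dvd_add_one_iff hp hpQ hu, hd]
      exact ⟨1, by push_cast; omega⟩
    exact hmin (u₀ - 2 * d) (by omega) ⟨by omega, by omega, h1⟩
  · have hqu' : q ∣ Q ^ e * Q ^ (m - u₀) + 1 := hqu
    rw [hX] at hqu'
    obtain ⟨a, ha, h1⟩ := dvd_add_one_mul hp hd hd0 hu
    obtain ⟨a', ha', h2⟩ := dvd_add_one_mul hq hd' (by omega) hqu'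
    obtain ⟨h3, h4, h5, h6, h7, h8⟩ := common hd0 hlt ha ha' (h1.symm.trans h2) hno
    refine ⟨by omega, ?_, ?_, ?_, ?_⟩
    · exact fun h => h5 (Nat.dvd_of_mul_dvd_mul_left two_pos h)
    · exact fun h => h6 (Nat.dvd_of_mul_dvd_mul_left two_pos h)
    · intro h
      have e1 : 3 * (2 * d) = 2 * (3 * d) := by ring
      rw [e1] at h
      exact h7 (Nat.dvd_of_mul_dvd_mul_left two_pos h)
    · intro h
      have e1 : 4 * (2 * d) = 2 * (4 * d) := by ring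
      rw [e1] at h
      exact h8 (Nat.dvd_of_mul_dvd_mul_left two_pos h)

end main

end Cfsg.Agent.H47.DP
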