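import Cfsg.Agent.H47.DP.Hecke

/-!
# S4612: central elements from invariant families (helper47)
-/

set_option autoImplicit false
set_option linter.unusedSectionVars false

open Cfsg

namespace Cfsg.Agent.H47.DP

open Cfsg.Agent.Blocks.Osima Cfsg.Agent.Blocks.Central Cfsg.Agent.Blocks.LocalRing
open Polynomial

universe u v w

section

variable {G : Type u} [Group G] [Finite G] {M0 : Type v} [AddCommGroup M0] [Module ℂ M0]

/-- the sum of a family of group elements -/
noncomputable def famSum {ι : Type w} [Fintype ι] (s : ι → G) : MonoidAlgebra ℂ G :=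
  ∑ i, MonoidAlgebra.single (s i) 1

theorem famSum_coeff {ι : Type w} [Fintype ι] (s : ι → G) (g : G) : ∃ n : ℤ, (famSum s).coeff g = n := by
  classical
  refine ⟨∑ i, if s i = g then 1 else 0, ?_⟩
  unfold famSum
  rw [← Finsupp.applyAddHom_apply, MonoidAlgebra.coeff_sum, map_sum]
  push_cast
  refine Finset.sum_congr rfl fun i _ => ?_
  rw [Finsupp.applyAddHom_apply, MonoidAlgebra.coeff_single, Finsupp.single_apply]

theorem famSum_center {ι : Type w} [Fintype ι] {s : ι → G} (hs : ∀ g : G, ∃ π : Equiv.Perm ι, ∀ i, g * s i * g⁻¹ = s (π i)) :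
    famSum s ∈ Subalgebra.center ℂ (MonoidAlgebra ℂ G) := by
  rw [Subalgebra.mem_center_iff]
  intro b
  induction b using MonoidAlgebra.induction_linear with
  | zero => rw [zero_mul, mul_zero]
  | add x y hx hy => rw [add_mul, mul_add, hx, hy]
  | single g c =>
    obtain ⟨π, hπ⟩ := hs g
    unfold famSum
    rw [Finset.mul_sum, Finset.sum_mul]
    refine Fintype.sum_equiv π _ _ fun i => ?_
    rw [MonoidAlgebra.single_mul_single, MonoidAlgebra.single_mul_single, mul_one, one_mul, ← hπ, inv_mul_cancel_right]

theorem famSum_rep {ι : Type w} [Fintype ι] (s : ι → G) (ρ : Representation ℂ G M0) :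
    ρ.asAlgebraHom (famSum s) = ∑ i, ρ (s i) := by
  unfold famSum
  rw [map_sum]
  exact Finset.sum_congr rfl fun i _ => by rw [Representation.asAlgebraHom_single, one_smul]

theorem sep_of_fam {q : ℕ} {ρ : Representation ℂ G M0} {A : Module.End ℂ M0} {a b : ℤ} {ι : Type w} [Fintype ι] {s : ι → G}
    (hs : ∀ g : G, ∃ π : Equiv.Perm ι, ∀ i, g * s i * g⁻¹ = s (π i)) (f : ℤ[X])
    (hf : ∑ i, ρ (s i) = aeval A (f.map (Int.castRingHom ℂ))) (hq : ¬ (q : ℤ) ∣ f.eval a - f.eval b) :
    Sep q ρ A a b :=
  ⟨famSum s, f, famSum_center hs, famSum_coeff s, by rw [famSum_rep, hf], hq⟩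

end

section

variable {X : Type v} [Fintype X]

/-- the permutation operator -/
noncomputable def permOp (T : Equiv.Perm X) : Module.End ℂ (X → ℂ) := LinearMap.funLeft ℂ ℂ T.symm

theorem permOp_apply (T : Equiv.Perm X) (f : X → ℂ) (x : X) : permOp T f x = f (T.symm x) := rfl

theorem fnRep_eq_permOp {G : Type u} [Group G] [MulAction G X] (g : G) : fnRep G X g = permOp (MulAction.toPerm g) := rfl

theorem permOp_mul (S T : Equiv.Perm X) : permOp (S * T) = permOp S * permOp T := rfl

theorem sum_permOp {ι : Type w} [Fintype ι] (T : ι → Equiv.Perm X) (b : X → X → ℤ)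
    (h : ∀ x y, (Nat.card {i // T i y = x} : ℤ) = b x y) : ∑ i, permOp (T i) = op b := by
  classical
  refine LinearMap.ext fun f => funext fun x => ?_
  rw [LinearMap.sum_apply, Finset.sum_apply, op_apply]
  have h1 : ∀ i, permOp (T i) f x = ∑ y, if T i y = x then f y else 0 := by
    intro i
    rw [permOp_apply, Finset.sum_eq_single ((T i).symm x)]
    · rw [if_pos (Equiv.apply_symm_apply _ _)]
    · intro y _ hy
      rw [if_neg]
      rintro rfl
      exact hy (Equiv.symm_apply_apply _ _).symm
    · intro h'; exact absurd (Finset.mem_univ _) h'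
  simp only [h1]
  rw [Finset.sum_comm]
  refine Finset.sum_congr rfl fun y _ => ?_
  rw [← Finset.sum_filter, Finset.sum_const, nsmul_eq_mul, ← h x y, Nat.card_eq_fintype_card, Fintype.card_subtype]
  norm_cast

/-- `a + c A` -/
theorem op_lin [DecidableEq X] (b : X → X → ℤ) (a c : ℤ) :
    op (fun x y => a * (if x = y then 1 else 0) + c * b x y) =
      aeval (op b) ((C a + C c * Polynomial.X : ℤ[X]).map (Int.castRingHom ℂ)) := by
  refine LinearMap.ext fun f => funext fun x => ?_
  rw [Polynomial.map_add, Polynomial.map_mul, map_C, map_C, map_X, map_add, map_mul, aeval_C, aeval_C, aeval_X,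
    LinearMap.add_apply, Module.End.mul_apply, Module.algebraMap_end_apply, Module.algebraMap_end_apply, Pi.add_apply,
    Pi.smul_apply, Pi.smul_apply, op_apply, op_apply, smul_eq_mul, smul_eq_mul, Finset.mul_sum]
  push_cast
  simp only [add_mul, Finset.sum_add_distrib]
  congr 1
  · rw [Finset.sum_eq_single x]
    · simp
    · intro y _ hy
      rw [if_neg hy.symm]
      ring
    · intro h'; exact absurd (Finset.mem_univ _) h'
  · refine Finset.sum_congr rfl fun y _ => ?_
    simp only [eq_intCast]
    ring

end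

end Cfsg.Agent.H47.DP
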