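import Cfsg.Agent.H47.DP.Act

/-!
# S4612: the unipotent radicals of the stabilizers of points, on the dual polar graph (helper47)

`F` quadratic (`σ = id`, `ε = 1`, `T = id`). `sg z y : x ↦ x + B(x,z) y - (B(x,y) + Q(y) B(x,z)) z` (`z` singular, `y ⟂ z`).
The sum of all these acts as `a₀ + C ((Q-1) A² + (E-1) A)`.
-/

set_option autoImplicit false
set_option linter.unusedSectionVars false

open Cfsg

namespace Cfsg.Agent.H47.DP

open Cfsg.Agent.H477.HC Cfsg.Agent.H477.HC.CForm Cfsg.Agent.H53.HC Module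
open Polynomial

universe u v w

variable {K : Type u} [Field K] {V : Type v} [AddCommGroup V] [Module K V] [FiniteDimensional K V] {F : CForm K V}

/-- quadratic forms -/
structure Quad (F : CForm K V) : Prop where
  σ : ∀ a, F.σ a = a
  ε : F.ε = 1
  T : ∀ a, F.T a = a

theorem Quad.symm (h : Quad F) (u v : V) : F.B u v = F.B v u := by
  rw [F.B_symm, h.ε, h.σ, one_mul]

/-- the Siegel transformation -/
def sg (F : CForm K V) (z y : V) : V →ₗ[K] V where
  toFun x := x + F.B x z • y - (F.B x y + F.Q y * F.B x z) • z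
  map_add' a b := by rw [F.B_add_left, F.B_add_left]; module
  map_smul' c a := by rw [F.B_smul_left, F.B_smul_left, RingHom.id_apply]; module

theorem sg_apply (z y x : V) : sg F z y x = x + F.B x z • y - (F.B x y + F.Q y * F.B x z) • z := rfl

/-- the index set -/
def Pz (F : CForm K V) : Set (V × V) := {p | p.1 ≠ 0 ∧ F.Sing p.1 ∧ F.B p.2 p.1 = 0}

variable {m E : ℕ}

/-- `M_z = (M ∩ z^⊥) + z` -/
def pz (F : CForm K V) (M : Submodule K V) (z : V) : Submodule K V := (M ⊓ F.perp (K ∙ z)) ⊔ K ∙ z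

theorem mem_perp_span {x z : V} : x ∈ F.perp (K ∙ z) ↔ F.B x z = 0 := by
  constructor
  · intro h; exact h z (Submodule.mem_span_singleton_self z)
  · intro h w hw
    obtain ⟨a, rfl⟩ := Submodule.mem_span_singleton.1 hw
    rw [F.B_smul_right, h, mul_zero]

theorem pz_mem (hP : Pol F m E) {M : Submodule K V} (hM : M ∈ F.Om m) {z : V} (hz : F.Sing z) : pz F M z ∈ F.Om m :=
  proj_mem hP.max hM (TS_span hz)

theorem mem_pz_self (M : Submodule K V) (z : V) : z ∈ pz F M z :=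
  (le_sup_right : K ∙ z ≤ pz F M z) (Submodule.mem_span_singleton_self z)

variable [Finite V]

/-- `L = M_z` for neighbours `L` of `M` with `z ∈ L`, `z ∉ M` -/
theorem pz_eq_iff (hP : Pol F m E) {M L : Submodule K V} (hM : M ∈ F.Om m) (hL : L ∈ F.Om m) {z : V}
    (hz : F.Sing z) (hzM : z ∉ M) : pz F M z = L ↔ Adj m M L ∧ z ∈ L := by
  have hz0 : z ≠ 0 := by rintro rfl; exact hzM M.zero_mem
  have hfz : finrank K (K ∙ z) = 1 := finrank_span_singleton hz0
  have hMz : M ⊓ K ∙ z = ⊥ := by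
    rw [Submodule.eq_bot_iff]
    rintro x ⟨hx, hx'⟩
    obtain ⟨a, rfl⟩ := Submodule.mem_span_singleton.1 hx'
    rcases eq_or_ne a 0 with rfl | ha
    · exact zero_smul _ _
    · exact absurd ((Submodule.smul_mem_iff _ ha).1 hx) hzM
  have h1 := finrank_inf_perp hP.max hM (TS_span hz)
  rw [hMz, hfz, finrank_bot, add_zero] at h1
  constructor
  · rintro rfl
    refine ⟨?_, mem_pz_self M z⟩
    have hne : M ≠ pz F M z := fun h => hzM (h ▸ mem_pz_self M z)
    have h2 := adj_of_ne hM.2 hL.2 h1 inf_le_left (le_sup_left : M ⊓ F.perp (K ∙ z) ≤ pz F M z) hne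
    unfold Adj
    rw [h2]
    exact h1
  · rintro ⟨hadj, hzL⟩
    have h2 : M ⊓ L ≤ M ⊓ F.perp (K ∙ z) := by
      rintro x ⟨hx, hx'⟩
      exact ⟨hx, mem_perp_span.2 (hL.1.2 x hx' z hzL)⟩
    have h3 : M ⊓ L = M ⊓ F.perp (K ∙ z) := Submodule.eq_of_le_of_finrank_eq h2 (by unfold Adj at hadj; omega)
    refine Submodule.eq_of_le_of_finrank_eq ?_ (by rw [(pz_mem hP hM hz).2, hL.2])
    unfold pz
    rw [← h3]
    exact sup_le inf_le_right ((Submodule.span_singleton_le_iff_mem _ _).2 hzL)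

section count

variable (hQ : Quad F) (hP : Pol F m E) (hg : ∀ p ∈ Pz F, ∃ g : F.iso, ∀ x, (g : V ≃ₗ[K] V) x = sg F p.1 p.2 x)
include hQ hP hg

theorem sg_stab {N : Submodule K V} (hN : N ∈ F.Om m) {z y : V} (hp : (z, y) ∈ Pz F) (hzN : z ∈ N) :
    N.map (sg F z y) = N := by
  obtain ⟨g, hg⟩ := hg _ hp
  have hinj : Function.Injective (sg F z y) := by
    intro a b hab
    rw [← hg, ← hg] at hab
    exact (g : V ≃ₗ[K] V).injective hab
  refine Submodule.eq_of_le_of_finrank_eq ?_ (Submodule.equivMapOfInjective _ hinj N).finrank_eq.symm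
  rintro _ ⟨x, hx, rfl⟩
  rw [sg_apply, hN.1.2 x hx z hzN, zero_smul, add_zero, mul_zero, add_zero]
  exact N.sub_mem hx (N.smul_mem _ hzN)

theorem sg_map_iff {N M : Submodule K V} (hN : N ∈ F.Om m) (hM : M ∈ F.Om m) {z : V} (hz0 : z ≠ 0) (hz : F.Sing z)
    (hzN : z ∉ N) {y : V} (hyz : F.B y z = 0) (h : N.map (sg F z y) = M) : z ∉ M ∧ pz F M z = pz F N z := by
  obtain ⟨g, hg'⟩ := hg (z, y) ⟨hz0, hz, hyz⟩
  have hgz : sg F z y z = z := by
    rw [sg_apply, hz.2, hQ.symm z y, hyz, zero_smul, mul_zero, add_zero, add_zero, zero_smul, sub_zero]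
  have hzM : z ∉ M := by
    intro hzM
    rw [← h] at hzM
    obtain ⟨x, hx, hx'⟩ := hzM
    have h1 : x = z := by
      apply (g : V ≃ₗ[K] V).injective
      rw [hg', hg', hgz]
      exact hx'
    exact hzN (h1 ▸ hx)
  refine ⟨hzM, ?_⟩
  symm
  refine Submodule.eq_of_le_of_finrank_eq (sup_le ?_ le_sup_right) (by rw [(pz_mem hP hN hz).2, (pz_mem hP hM hz).2])
  rintro x ⟨hx, hxz⟩
  have hxz' : F.B x z = 0 := mem_perp_span.1 hxz
  have h1 : sg F z y x = x - F.B x y • z := by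
    rw [sg_apply, hxz', zero_smul, mul_zero, add_zero, add_zero]
  have h2 : x - F.B x y • z ∈ M := by rw [← h1, ← h]; exact ⟨x, hx, rfl⟩
  have h3 : x = (x - F.B x y • z) + F.B x y • z := by abel
  rw [h3]
  refine Submodule.add_mem_sup ⟨h2, mem_perp_span.2 ?_⟩ (Submodule.smul_mem _ _ (Submodule.mem_span_singleton_self z))
  rw [F.B_sub_left, F.B_smul_left, hxz', hz.2, mul_zero, sub_zero]

variable [Finite K]

/-- the number of `y` for a given `z` -/
theorem card_y {N M : Submodule K V} (hN : N ∈ F.Om m) (hM : M ∈ F.Om m) {z : V} (hz0 : z ≠ 0) (hz : F.Sing z)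
    (hzN : z ∉ N) (hzM : z ∉ M) (hL : pz F M z = pz F N z) :
    Nat.card {y : V // F.B y z = 0 ∧ N.map (sg F z y) = M} = Nat.card K ^ m := by
  classical
  have hpz := pz_mem hP hN hz
  -- base points
  have base : ∀ N : Submodule K V, N ∈ F.Om m → z ∉ N → ∃ x ∈ N, F.B x z = 1 := by
    intro N hN hzN
    by_contra hcon
    push Not at hcon
    apply hzN
    refine mem_of_perp hP.max hN hz fun w hw => ?_
    by_contra h0
    rw [hQ.symm] at h0
    refine hcon ((F.B w z)⁻¹ • w) (N.smul_mem _ hw) ?_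
    rw [F.B_smul_left, inv_mul_cancel₀ h0]
  obtain ⟨x₀, hx₀, hx₀z⟩ := base N hN hzN
  obtain ⟨m₀, hm₀, hm₀z⟩ := base M hM hzM
  obtain ⟨L, hLd⟩ : ∃ L, L = pz F N z := ⟨_, rfl⟩
  rw [← hLd] at hpz hL
  have hzL : z ∈ L := by rw [hLd]; exact mem_pz_self N z
  have hLz : ∀ w ∈ L, F.B w z = 0 := fun w hw => hpz.1.2 w hw z hzL
  have hNL : ∀ x ∈ N, F.B x z = 0 → x ∈ L := fun x hx h => by
    rw [hLd]; exact (le_sup_left : N ⊓ F.perp (K ∙ z) ≤ pz F N z) ⟨hx, mem_perp_span.2 h⟩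
  have hML : ∀ x ∈ M, F.B x z = 0 → x ∈ L := fun x hx h => by
    rw [← hL]; exact (le_sup_left : M ⊓ F.perp (K ∙ z) ≤ pz F M z) ⟨hx, mem_perp_span.2 h⟩
  have hLM : ∀ w ∈ L, ∃ m' ∈ M, F.B m' z = 0 ∧ ∃ μ : K, w = m' + μ • z := by
    intro w hw
    rw [← hL] at hw
    obtain ⟨m', ⟨hm', hm'z⟩, s, hs, rfl⟩ := Submodule.mem_sup.1 hw
    obtain ⟨μ, rfl⟩ := Submodule.mem_span_singleton.1 hs
    exact ⟨m', hm', mem_perp_span.1 hm'z, μ, rfl⟩
  have key : ∀ y : V, (F.B y z = 0 ∧ N.map (sg F z y) = M) ↔ y - (m₀ - x₀) ∈ L := by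
    intro y
    constructor
    · rintro ⟨hyz, hNM⟩
      obtain ⟨t, ht⟩ : ∃ t, t = F.B x₀ y + F.Q y * F.B x₀ z := ⟨_, rfl⟩
      have h1 : sg F z y x₀ = x₀ + y - t • z := by
        rw [sg_apply, ← ht, hx₀z, one_smul]
      have h2 : x₀ + y - t • z ∈ M := by rw [← h1, ← hNM]; exact ⟨x₀, hx₀, rfl⟩
      have h3 : x₀ + y - t • z - m₀ ∈ L := by
        refine hML _ (M.sub_mem h2 hm₀) ?_
        rw [F.B_sub_left, F.B_sub_left, F.B_add_left, F.B_smul_left, hx₀z, hyz, hz.2, hm₀z]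
        ring
      have h4 : y - (m₀ - x₀) = (x₀ + y - t • z - m₀) + t • z := by abel
      rw [h4]
      exact L.add_mem h3 (L.smul_mem _ hzL)
    · intro hw
      obtain ⟨w, hwd⟩ : ∃ w, w = y - (m₀ - x₀) := ⟨_, rfl⟩
      have hy : y = m₀ - x₀ + w := by rw [hwd]; abel
      rw [← hwd] at hw
      have hyz : F.B y z = 0 := by
        rw [hy, F.B_add_left, F.B_sub_left, hm₀z, hx₀z, hLz w hw]
        ring
      refine ⟨hyz, ?_⟩
      obtain ⟨g, hg'⟩ := hg (z, y) ⟨hz0, hz, hyz⟩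
      have hinj : Function.Injective (sg F z y) := by
        intro a b hab
        rw [← hg', ← hg'] at hab
        exact (g : V ≃ₗ[K] V).injective hab
      refine Submodule.eq_of_le_of_finrank_eq ?_
        ((Submodule.equivMapOfInjective _ hinj N).finrank_eq.symm.trans (hN.2.trans hM.2.symm))
      -- on `N ∩ z^⊥`
      have hp1 : ∀ x ∈ N, F.B x z = 0 → sg F z y x ∈ M := by
        intro x hx hxz
        obtain ⟨m', hm', hm'z, μ, hxe⟩ := hLM x (hNL x hx hxz)
        have h1 : F.B x y = μ := by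
          rw [hy, F.B_add_right, F.B_sub_right, hN.1.2 x hx x₀ hx₀, hpz.1.2 x (hNL x hx hxz) w hw, hxe, F.B_add_left,
            F.B_smul_left, hM.1.2 m' hm' m₀ hm₀, hQ.symm z m₀, hm₀z]
          ring
        rw [sg_apply, hxz, zero_smul, mul_zero, add_zero, add_zero, h1, hxe, add_sub_cancel_right]
        exact hm'
      have hp2 : sg F z y x₀ ∈ M := by
        obtain ⟨m', hm', hm'z, μ, hwe⟩ := hLM w hw
        obtain ⟨t, ht⟩ : ∃ t, t = F.B x₀ y + F.Q y * F.B x₀ z := ⟨_, rfl⟩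
        have h1 : sg F z y x₀ = (m₀ + m') + (μ - t) • z := by
          rw [sg_apply, ← ht, hx₀z, one_smul, hy, hwe]
          module
        have h2 : F.Q (sg F z y x₀) = 0 := by
          rw [← hg', F.iso_Q]
          exact hN.1.1 x₀ hx₀
        rw [h1, F.Q_add, F.Q_smul, hz.1, hM.1.1 _ (M.add_mem hm₀ hm'), F.B_smul_right, F.B_add_left, hm₀z, hm'z, hQ.T,
          hQ.σ] at h2
        have h3 : μ - t = 0 := by linear_combination h2
        rw [h1, h3, zero_smul, add_zero]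
        exact M.add_mem hm₀ hm'
      rintro _ ⟨x, hx, rfl⟩
      have h5 : x = (x - F.B x z • x₀) + F.B x z • x₀ := by abel
      rw [h5, map_add, map_smul]
      refine M.add_mem (hp1 _ (N.sub_mem hx (N.smul_mem _ hx₀)) ?_) (M.smul_mem _ hp2)
      rw [F.B_sub_left, F.B_smul_left, hx₀z, mul_one, sub_self]
  have hcL : Nat.card L = Nat.card K ^ m := by
    rw [Module.natCard_eq_pow_finrank (K := K) (V := L), hpz.2]
  rw [← hcL]
  refine Nat.card_congr
    { toFun := fun y => ⟨y.1 - (m₀ - x₀), (key y.1).1 y.2⟩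
      invFun := fun w => ⟨w.1 + (m₀ - x₀), (key _).2 (by rw [add_sub_cancel_right]; exact w.2)⟩
      left_inv := fun y => Subtype.ext (sub_add_cancel _ _)
      right_inv := fun w => Subtype.ext (add_sub_cancel_right _ _) }

end count

end Cfsg.Agent.H47.DP
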