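import Cfsg.Agent.H47.DP.Tp

/-!
# S4612: the radicals of the point stabilizers: the matrix (helper47)
-/

set_option autoImplicit false
set_option linter.unusedSectionVars false

open Cfsg

namespace Cfsg.Agent.H47.DP

open Cfsg.Agent.H477.HC Cfsg.Agent.H477.HC.CForm Cfsg.Agent.H53.HC Module
open Polynomial

universe u v w

variable {K : Type u} [Field K] {V : Type v} [AddCommGroup V] [Module K V] [FiniteDimensional K V] {F : CForm K V}
variable {m E : ℕ} [Finite V] [Finite K]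

theorem card_of_finrank {W : Submodule K V} {k : ℕ} (h : finrank K W = k) : Nat.card W = Nat.card K ^ k := by
  rw [Module.natCard_eq_pow_finrank (K := K) (V := W), h]

/-- the vectors of `L` outside `M` and `N` -/
theorem card_out {L M N : Submodule K V} (hL : finrank K L = m) (hM : Adj m M L) (hN : Adj m N L) (hm : 1 ≤ m)
    [Decidable (L ⊓ M = L ⊓ N)] :
    (Nat.card K : ℤ) * Nat.card {z : V // z ∈ L ∧ z ∉ M ∧ z ∉ N} =
      (Nat.card K : ℤ) ^ (m - 1) * ((Nat.card K : ℤ) - 1) ^ 2 +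
        (Nat.card K : ℤ) ^ (m - 1) * ((Nat.card K : ℤ) - 1) * (if L ⊓ M = L ⊓ N then 1 else 0) := by
  classical
  have := Fintype.ofFinite V
  obtain ⟨Q, hQ⟩ : ∃ Q, Q = Nat.card K := ⟨_, rfl⟩
  have cM : finrank K (L ⊓ M : Submodule K V) + 1 = m := by rw [inf_comm]; exact hM
  have cN : finrank K (L ⊓ N : Submodule K V) + 1 = m := by rw [inf_comm]; exact hN
  -- as finsets
  let s : Submodule K V → Finset V := fun W => Finset.univ.filter fun z => z ∈ W
  have hs : ∀ (W : Submodule K V) (k : ℕ), finrank K W = k → (s W).card = Q ^ k := by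
    intro W k hk
    have h1 := card_of_finrank hk
    rw [Nat.card_eq_fintype_card, Fintype.card_subtype] at h1
    rw [hQ]
    exact h1
  have h1 : Nat.card {z : V // z ∈ L ∧ z ∉ M ∧ z ∉ N} = (s L \ (s (L ⊓ M) ∪ s (L ⊓ N))).card := by
    rw [Nat.card_eq_fintype_card, Fintype.card_subtype]
    congr 1
    ext z
    simp only [s, Finset.mem_filter, Finset.mem_univ, true_and, Finset.mem_sdiff, Finset.mem_union, Submodule.mem_inf]
    tauto
  have h2 : s (L ⊓ M) ∪ s (L ⊓ N) ⊆ s L := by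
    intro z
    simp only [s, Finset.mem_filter, Finset.mem_univ, true_and, Finset.mem_union, Submodule.mem_inf]
    tauto
  have h3 : (s (L ⊓ M) ∪ s (L ⊓ N)).card + (s (L ⊓ M ⊓ N)).card = (s (L ⊓ M)).card + (s (L ⊓ N)).card := by
    have h30 := Finset.card_union_add_card_inter (s (L ⊓ M)) (s (L ⊓ N))
    have h31 : s (L ⊓ M) ∩ s (L ⊓ N) = s (L ⊓ M ⊓ N) := by
      ext z
      simp only [s, Finset.mem_filter, Finset.mem_univ, true_and, Finset.mem_inter, Submodule.mem_inf]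
      tauto
    rw [h31] at h30
    exact h30
  have h4 : (s L \ (s (L ⊓ M) ∪ s (L ⊓ N))).card + (s (L ⊓ M) ∪ s (L ⊓ N)).card = (s L).card :=
    Finset.card_sdiff_add_card_eq_card h2
  rw [hs L m hL] at h4
  rw [hs (L ⊓ M) (m - 1) (by omega), hs (L ⊓ N) (m - 1) (by omega)] at h3
  obtain ⟨m', rfl⟩ : ∃ m', m = m' + 1 := ⟨m - 1, by omega⟩
  rw [Nat.add_sub_cancel] at h3 ⊢
  rw [← hQ, h1]
  by_cases hLMN : L ⊓ M = L ⊓ N
  · rw [if_pos hLMN]
    have h5 : L ⊓ M ⊓ N = L ⊓ M := by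
      rw [hLMN, inf_assoc, inf_idem]
    rw [h5, hs (L ⊓ M) m' (by omega)] at h3
    zify at h3 h4
    have h6 : (((s L \ (s (L ⊓ M) ∪ s (L ⊓ N))).card : ℕ) : ℤ) = (Q : ℤ) ^ (m' + 1) - Q ^ m' := by
      linear_combination h4 - h3
    rw [h6]
    ring
  · rw [if_neg hLMN]
    have h7 : finrank K (L ⊓ M ⊓ N : Submodule K V) + 1 = m' := by
      have h8 := Submodule.finrank_sup_add_finrank_inf_eq (L ⊓ M) (L ⊓ N)
      have h9 : (L ⊓ M) ⊓ (L ⊓ N) = L ⊓ M ⊓ N := by
        rw [inf_inf_inf_comm, inf_idem, inf_assoc]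
      have h10 : finrank K ((L ⊓ M) ⊔ (L ⊓ N) : Submodule K V) = m' + 1 := by
        have h11 : finrank K ((L ⊓ M) ⊔ (L ⊓ N) : Submodule K V) ≤ m' + 1 := by
          rw [← hL]
          exact Submodule.finrank_mono (sup_le inf_le_left inf_le_left)
        have h12 : finrank K (L ⊓ M : Submodule K V) < finrank K ((L ⊓ M) ⊔ (L ⊓ N) : Submodule K V) := by
          refine Submodule.finrank_lt_finrank_of_lt (lt_of_le_of_ne le_sup_left fun h => hLMN ?_)
          have h13 : L ⊓ N ≤ L ⊓ M := by rw [h]; exact le_sup_right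
          exact (Submodule.eq_of_le_of_finrank_eq h13 (by omega)).symm
        omega
      rw [h9, h10] at h8
      omega
    rw [hs (L ⊓ M ⊓ N) (m' - 1) (by omega)] at h3
    have hm' : Q ^ (m' - 1) * Q = Q ^ m' := by
      rw [← pow_succ]; congr 1; omega
    zify at h3 h4 hm'
    have h6 : (((s L \ (s (L ⊓ M) ∪ s (L ⊓ N))).card : ℕ) : ℤ) = (Q : ℤ) ^ (m' + 1) - 2 * Q ^ m' + Q ^ (m' - 1) := by
      linear_combination h4 - h3
    rw [h6]
    linear_combination hm'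

/-- the points `z` which see `M` and `N` in the same subspace -/
def Zs (F : CForm K V) (M N : Submodule K V) : Set V := {z | F.Sing z ∧ z ∉ M ∧ z ∉ N ∧ pz F M z = pz F N z}

theorem card_common (hP : Pol F m E) {M N : Submodule K V} (hM : M ∈ F.Om m) (hN : N ∈ F.Om m) (hne : M ≠ N)
    [Decidable (Adj m M N)] :
    (Nat.card {L : F.Om m // Adj m M L.1 ∧ Adj m N L.1 ∧ L.1 ⊓ M = L.1 ⊓ N} : ℤ) =
      ((E : ℤ) - 1) * (if Adj m M N then 1 else 0) := by
  classical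
  by_cases hadj : Adj m M N
  · rw [if_pos hadj, mul_one]
    have := Fintype.ofFinite (F.Om m)
    have hcard := hP.card (M ⊓ N) (hM.1.mono inf_le_left) hadj
    rw [Nat.card_eq_fintype_card, Fintype.card_subtype] at hcard ⊢
    have h1 : (Finset.univ.filter fun L : F.Om m => Adj m M L.1 ∧ Adj m N L.1 ∧ L.1 ⊓ M = L.1 ⊓ N) =
        ((Finset.univ.filter fun L : F.Om m => M ⊓ N ≤ L.1).erase ⟨M, hM⟩).erase ⟨N, hN⟩ := by
      ext L
      simp only [Finset.mem_filter, Finset.mem_univ, true_and, Finset.mem_erase, ne_eq, Subtype.ext_iff]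
      constructor
      · rintro ⟨h2, h3, h4⟩
        refine ⟨(h3.ne hN.2).symm, (h2.ne hM.2).symm, ?_⟩
        have h5 : L.1 ⊓ M ≤ M ⊓ N := le_inf inf_le_right (h4 ▸ inf_le_right)
        have h6 : L.1 ⊓ M = M ⊓ N := Submodule.eq_of_le_of_finrank_eq h5 (by
          have h7 := h2.symm
          unfold Adj at h7 hadj
          omega)
        rw [← h6]
        exact inf_le_left
      · rintro ⟨h2, h3, h4⟩
        have h5 := adj_of_ne hM.2 L.2.2 hadj inf_le_left h4 (Ne.symm h3)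
        have h6 := adj_of_ne hN.2 L.2.2 hadj inf_le_right h4 (Ne.symm h2)
        refine ⟨?_, ?_, ?_⟩
        · unfold Adj; rw [h5]; exact hadj
        · unfold Adj; rw [h6]; exact hadj
        · rw [inf_comm L.1 M, inf_comm L.1 N, h5, h6]
    rw [h1, Finset.card_erase_of_mem, Finset.card_erase_of_mem, hcard]
    · have hE : 1 ≤ E := by
        have h8 : 1 < (Finset.univ.filter fun L : F.Om m => M ⊓ N ≤ L.1).card := by
          rw [Finset.one_lt_card]
          exact ⟨⟨M, hM⟩, by simp, ⟨N, hN⟩, by simp, fun h => hne (congrArg Subtype.val h)⟩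
        omega
      omega
    · simp
    · simp only [Finset.mem_erase, ne_eq, Subtype.ext_iff, Finset.mem_filter, Finset.mem_univ, true_and]
      exact ⟨fun h => hne h.symm, inf_le_right⟩
  · rw [if_neg hadj, mul_zero]
    have : Nat.card {L : F.Om m // Adj m M L.1 ∧ Adj m N L.1 ∧ L.1 ⊓ M = L.1 ⊓ N} = 0 := by
      refine @Nat.card_of_isEmpty _ ⟨fun L => hadj ?_⟩
      obtain ⟨L, h2, h3, h4⟩ := L
      have h5 : L.1 ⊓ M ≤ M ⊓ N := le_inf inf_le_right (h4 ▸ inf_le_right)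
      have h6 := Submodule.finrank_mono h5
      have h7 : finrank K (M ⊓ N : Submodule K V) < m := by
        rw [← hM.2]
        refine Submodule.finrank_lt_finrank_of_lt (lt_of_le_of_ne inf_le_left fun h0 => hne ?_)
        exact Submodule.eq_of_le_of_finrank_eq (inf_eq_left.1 h0) (by rw [hM.2, hN.2])
      have h8 := h2.symm
      unfold Adj at h8 ⊢
      omega
    rw [this, Nat.cast_zero]

theorem card_Zs [Fintype (F.Om m)] (hP : Pol F m E) {M N : F.Om m} (hne : M ≠ N) :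
    (Nat.card K : ℤ) * Nat.card (Zs F M.1 N.1) =
      (Nat.card K : ℤ) ^ (m - 1) * ((Nat.card K : ℤ) - 1) *
        (((Nat.card K : ℤ) - 1) * ∑ L, adjm F m M L * adjm F m L N + ((E : ℤ) - 1) * adjm F m M N) := by
  classical
  have hm : 1 ≤ m := by
    rcases Nat.eq_zero_or_pos m with h0 | h; swap
    · exact h
    exfalso
    apply hne
    apply Subtype.ext
    have h1 : finrank K M.1 = 0 := M.2.2.trans h0
    have h2 : finrank K N.1 = 0 := N.2.2.trans h0
    rw [Submodule.finrank_eq_zero.1 h1, Submodule.finrank_eq_zero.1 h2]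
  -- fibering over `L = M_z`
  have h1 : Nat.card (Zs F M.1 N.1) =
      ∑ L : F.Om m, if Adj m M.1 L.1 ∧ Adj m N.1 L.1 then Nat.card {z : V // z ∈ L.1 ∧ z ∉ M.1 ∧ z ∉ N.1} else 0 := by
    let π : Zs F M.1 N.1 → F.Om m := fun z => ⟨pz F M.1 z.1, pz_mem hP M.2 z.2.1⟩
    rw [Nat.card_congr (Equiv.sigmaFiberEquiv π).symm, Nat.card_sigma]
    refine Finset.sum_congr rfl fun L _ => ?_
    have h2 : ∀ z : V, z ∉ M.1 → z ∉ N.1 → F.Sing z → ((pz F M.1 z = L.1 ∧ pz F N.1 z = L.1) ↔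
        (Adj m M.1 L.1 ∧ Adj m N.1 L.1) ∧ z ∈ L.1) := by
      intro z hz1 hz2 hz
      rw [pz_eq_iff hP M.2 L.2 hz hz1, pz_eq_iff hP N.2 L.2 hz hz2]
      tauto
    by_cases hadj : Adj m M.1 L.1 ∧ Adj m N.1 L.1
    · rw [if_pos hadj]
      refine Nat.card_congr
        { toFun := fun z => ⟨z.1.1, ?_, z.1.2.2.1, z.1.2.2.2.1⟩
          invFun := fun z => ⟨⟨z.1, L.2.1.sing z.2.1, z.2.2.1, z.2.2.2, ?_⟩, Subtype.ext ?_⟩
          left_inv := fun z => Subtype.ext (Subtype.ext rfl)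
          right_inv := fun z => Subtype.ext rfl }
      · obtain ⟨⟨z, hz, hz1, hz2, hz3⟩, hz4⟩ := z
        have h3 : pz F M.1 z = L.1 := congrArg Subtype.val hz4
        exact ((h2 z hz1 hz2 hz).1 ⟨h3, hz3 ▸ h3⟩).2
      · have h3 := (h2 z.1 z.2.2.1 z.2.2.2 (L.2.1.sing z.2.1)).2 ⟨hadj, z.2.1⟩
        rw [h3.1, h3.2]
      · exact ((h2 z.1 z.2.2.1 z.2.2.2 (L.2.1.sing z.2.1)).2 ⟨hadj, z.2.1⟩).1
    · rw [if_neg hadj]
      refine @Nat.card_of_isEmpty _ ⟨fun z => hadj ?_⟩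
      obtain ⟨⟨z, hz, hz1, hz2, hz3⟩, hz4⟩ := z
      have h3 : pz F M.1 z = L.1 := congrArg Subtype.val hz4
      exact ((h2 z hz1 hz2 hz).1 ⟨h3, hz3 ▸ h3⟩).1
  have h2 := card_common hP M.2 N.2 (fun h => hne (Subtype.ext h))
  have h3 : (Nat.card {L : F.Om m // Adj m M.1 L.1 ∧ Adj m N.1 L.1 ∧ L.1 ⊓ M.1 = L.1 ⊓ N.1} : ℤ) =
      ∑ L : F.Om m, if Adj m M.1 L.1 ∧ Adj m N.1 L.1 ∧ L.1 ⊓ M.1 = L.1 ⊓ N.1 then 1 else 0 := by
    rw [Nat.card_eq_fintype_card, Fintype.card_subtype, Finset.card_filter, Nat.cast_sum]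
    exact Finset.sum_congr rfl fun v _ => by split_ifs <;> simp
  rw [h3] at h2
  rw [h1]
  push_cast
  have h4 : adjm F m M N = if Adj m M.1 N.1 then 1 else 0 := by
    unfold adjm; congr
  rw [h4, ← h2, Finset.mul_sum, Finset.mul_sum, ← Finset.sum_add_distrib, Finset.mul_sum]
  refine Finset.sum_congr rfl fun L _ => ?_
  have h5 : adjm F m M L * adjm F m L N = if Adj m M.1 L.1 ∧ Adj m N.1 L.1 then 1 else 0 := by
    unfold adjm
    by_cases h6 : Adj m M.1 L.1 <;> by_cases h7 : Adj m N.1 L.1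
    · rw [if_pos h6, if_pos h7.symm, if_pos ⟨h6, h7⟩, mul_one]
    · rw [if_neg (fun h : Adj m L.1 N.1 => h7 h.symm), if_neg (fun h : Adj m M.1 L.1 ∧ Adj m N.1 L.1 => h7 h.2), mul_zero]
    · rw [if_neg h6, if_neg (fun h : Adj m M.1 L.1 ∧ Adj m N.1 L.1 => h6 h.1), zero_mul]
    · rw [if_neg h6, if_neg (fun h : Adj m M.1 L.1 ∧ Adj m N.1 L.1 => h6 h.1), zero_mul]
  rw [h5]
  by_cases hadj : Adj m M.1 L.1 ∧ Adj m N.1 L.1
  · rw [if_pos hadj, if_pos hadj, card_out L.2.2 hadj.1 hadj.2 hm]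
    by_cases h8 : L.1 ⊓ M.1 = L.1 ⊓ N.1
    · rw [if_pos h8, if_pos ⟨hadj.1, hadj.2, h8⟩]
      ring
    · rw [if_neg h8, if_neg fun h => h8 h.2.2]
      ring
  · rw [if_neg hadj, if_neg hadj, if_neg fun h => hadj ⟨h.1, h.2.1⟩]
    ring

end Cfsg.Agent.H47.DP
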