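import Cfsg.Agent.H47.DP.TpB

/-!
# S4612: the test with the radicals of the point stabilizers (helper47)
-/

set_option autoImplicit false
set_option linter.unusedSectionVars false

open Cfsg

namespace Cfsg.Agent.H47.DP

open Cfsg.Agent.H477.HC Cfsg.Agent.H477.HC.CForm Cfsg.Agent.H53.HC Module
open Polynomial

universe u v w

section

variable {X : Type v} [Fintype X]

/-- `a + c (d A² + e A)` -/
theorem op_quad [DecidableEq X] (b : X → X → ℤ) (a c d e : ℤ) :
    op (fun x y => a * (if x = y then 1 else 0) + c * (d * ∑ z, b x z * b z y + e * b x y)) =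
      aeval (op b) ((C a + C c * (C d * Polynomial.X ^ 2 + C e * Polynomial.X) : ℤ[X]).map (Int.castRingHom ℂ)) := by
  refine LinearMap.ext fun f => funext fun x => ?_
  simp only [Polynomial.map_add, Polynomial.map_mul, map_C, map_X, map_add, map_mul, aeval_C,
    aeval_X, sq, LinearMap.add_apply, Module.End.mul_apply, Module.algebraMap_end_apply, Pi.add_apply, Pi.smul_apply,
    op_apply, smul_eq_mul]
  simp only [eq_intCast]
  have h1 : ∀ y : X, ((a * (if x = y then 1 else 0) + c * (d * ∑ z, b x z * b z y + e * b x y) : ℤ) : ℂ) * f y =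
      (if x = y then (a : ℂ) * f y else 0) + (c * (d * ∑ z, (b x z : ℂ) * (b z y * f y)) + c * (e * ((b x y : ℂ) * f y))) := by
    intro y
    push_cast
    have : (∑ z, (b x z : ℂ) * (b z y * f y)) = (∑ z, (b x z : ℂ) * b z y) * f y := by
      rw [Finset.sum_mul]
      exact Finset.sum_congr rfl fun z _ => by ring
    rw [this]
    split_ifs <;> ring
  rw [Finset.sum_congr rfl fun y _ => h1 y, Finset.sum_add_distrib, Finset.sum_add_distrib, Finset.sum_ite_eq,
    if_pos (Finset.mem_univ x), ← Finset.mul_sum, ← Finset.mul_sum, ← Finset.mul_sum, ← Finset.mul_sum,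
    Finset.sum_comm]
  simp only [← Finset.mul_sum]

end

variable {K : Type u} [Field K] {V : Type v} [AddCommGroup V] [Module K V] [FiniteDimensional K V] {F : CForm K V}
variable {m E : ℕ} [Finite V] [Finite K]

/-- the coefficient -/
noncomputable def cP (K : Type u) (m : ℕ) : ℤ := (Nat.card K : ℤ) ^ (m - 1) * (Nat.card K : ℤ) ^ (m - 1) * ((Nat.card K : ℤ) - 1)

theorem card_Pz_off [Fintype (F.Om m)] (hQ : Quad F) (hP : Pol F m E)
    (hg : ∀ p ∈ Pz F, ∃ g : F.iso, ∀ x, (g : V ≃ₗ[K] V) x = sg F p.1 p.2 x) {M N : F.Om m} (hne : M ≠ N) :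
    (Nat.card {p : V × V // p ∈ Pz F ∧ N.1.map (sg F p.1 p.2) = M.1} : ℤ) =
      cP K m * (((Nat.card K : ℤ) - 1) * ∑ L, adjm F m M L * adjm F m L N + ((E : ℤ) - 1) * adjm F m M N) := by
  classical
  have hm : 1 ≤ m := by
    rcases Nat.eq_zero_or_pos m with h0 | h; swap
    · exact h
    exfalso
    apply hne
    apply Subtype.ext
    have h1 : finrank K M.1 = 0 := M.2.2.trans h0
    have h2 : finrank K N.1 = 0 := N.2.2.trans h0
    rw [Submodule.finrank_eq_zero.1 h1, Submodule.finrank_eq_zero.1 h2]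
  have hkey : ∀ z y : V, (z, y) ∈ Pz F → N.1.map (sg F z y) = M.1 → z ∈ Zs F M.1 N.1 := by
    intro z y hp h
    have hzN : z ∉ N.1 := fun hz => hne (Subtype.ext (h.symm.trans (sg_stab hQ hP hg N.2 hp hz)))
    have h1 := sg_map_iff hQ hP hg N.2 M.2 hp.1 hp.2.1 hzN hp.2.2 h
    exact ⟨hp.2.1, h1.1, hzN, h1.2⟩
  have h1 : Nat.card {p : V × V // p ∈ Pz F ∧ N.1.map (sg F p.1 p.2) = M.1} =
      Nat.card (Σ z : Zs F M.1 N.1, {y : V // F.B y z.1 = 0 ∧ N.1.map (sg F z.1 y) = M.1}) :=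
    Nat.card_congr
      { toFun := fun p => ⟨⟨p.1.1, hkey p.1.1 p.1.2 p.2.1 p.2.2⟩, ⟨p.1.2, p.2.1.2.2, p.2.2⟩⟩
        invFun := fun s => ⟨(s.1.1, s.2.1), ⟨fun h : s.1.1 = 0 => s.1.2.2.2.1 (by rw [h]; exact N.1.zero_mem), s.1.2.1, s.2.2.1⟩, s.2.2.2⟩
        left_inv := fun p => rfl
        right_inv := fun s => rfl }
  have := Fintype.ofFinite (Zs F M.1 N.1)
  rw [h1, Nat.card_sigma, Finset.sum_congr rfl (g := fun _ => Nat.card K ^ m)]
  · rw [Finset.sum_const, smul_eq_mul, Finset.card_univ, ← Nat.card_eq_fintype_card]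
    have h2 := card_Zs hP hne
    obtain ⟨m', rfl⟩ : ∃ m', m = m' + 1 := ⟨m - 1, by omega⟩
    unfold cP
    rw [Nat.add_sub_cancel] at h2 ⊢
    push_cast
    linear_combination (Nat.card K : ℤ) ^ m' * h2
  · rintro z -
    exact card_y hQ hP hg N.2 M.2 (fun h => z.2.2.2.1 (h ▸ N.1.zero_mem)) z.2.1 z.2.2.2.1 z.2.2.1 z.2.2.2.2

variable [Fintype (F.Om m)] [Fintype (Pz F)]

/-- the constant term -/
noncomputable def aP (F : CForm K V) (m E : ℕ) [Fintype (Pz F)] : ℤ :=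
  (Fintype.card (Pz F) : ℤ) - cP K m * (((Nat.card K : ℤ) - 1) * (th (Nat.card K) m E 0 * th (Nat.card K) m E 0) +
    ((E : ℤ) - 1) * th (Nat.card K) m E 0)

theorem adjm_symm (M N : F.Om m) : adjm F m M N = adjm F m N M := by
  unfold adjm
  by_cases h : Adj m M.1 N.1
  · rw [if_pos h, if_pos h.symm]
  · rw [if_neg h, if_neg fun h' => h (Adj.symm h')]

open scoped Classical in
theorem tp_matrix (hQ : Quad F) (hP : Pol F m E) {g : Pz F → F.iso}
    (hg : ∀ p x, (g p : V ≃ₗ[K] V) x = sg F p.1.1 p.1.2 x) (M N : F.Om m) :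
    (Nat.card {p : Pz F // omHom F m (g p) N = M} : ℤ) = aP F m E * (if M = N then 1 else 0) +
      cP K m * (((Nat.card K : ℤ) - 1) * ∑ L, adjm F m M L * adjm F m L N + ((E : ℤ) - 1) * adjm F m M N) := by
  have hval : ∀ (v : Pz F) (M N : F.Om m), omHom F m (g v) N = M ↔ N.1.map (sg F v.1.1 v.1.2) = M.1 := by
    intro v M N
    rw [Subtype.ext_iff, omHom_val]
    have : (F.iso.subtype (g v) : V →ₗ[K] V) = sg F v.1.1 v.1.2 := LinearMap.ext fun x => hg v x
    rw [this]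
  have hoff : ∀ M N : F.Om m, M ≠ N → (Nat.card {v : Pz F // omHom F m (g v) N = M} : ℤ) =
      cP K m * (((Nat.card K : ℤ) - 1) * ∑ L, adjm F m M L * adjm F m L N + ((E : ℤ) - 1) * adjm F m M N) := by
    intro M N hne
    rw [← card_Pz_off hQ hP (fun p hp => ⟨g ⟨p, hp⟩, hg ⟨p, hp⟩⟩) hne]
    congr 1
    exact Nat.card_congr ((Equiv.subtypeEquivRight fun v => hval v M N).trans
      (Equiv.subtypeSubtypeEquivSubtypeInter (fun v => v ∈ Pz F) fun v => N.1.map (sg F v.1 v.2) = M.1))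
  by_cases hMN : M = N
  · subst hMN
    rw [if_pos rfl, mul_one]
    have htot : ∑ N : F.Om m, (Nat.card {v : Pz F // omHom F m (g v) N = M} : ℤ) = Fintype.card (Pz F) := by
      have h3 : ∀ N : F.Om m, (Nat.card {v : Pz F // omHom F m (g v) N = M} : ℤ) =
          ∑ v : Pz F, if omHom F m (g v) N = M then 1 else 0 := by
        intro N
        rw [Nat.card_eq_fintype_card, Fintype.card_subtype, Finset.card_filter, Nat.cast_sum]
        exact Finset.sum_congr rfl fun v _ => by split_ifs <;> simp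
      simp only [h3]
      rw [Finset.sum_comm]
      have h4 : ∀ v : Pz F, (∑ N : F.Om m, if omHom F m (g v) N = M then (1 : ℤ) else 0) = 1 := by
        intro v
        rw [Finset.sum_eq_single ((omHom F m (g v)).symm M)]
        · rw [if_pos (Equiv.apply_symm_apply _ _)]
        · intro N _ hN
          rw [if_neg]
          rintro rfl
          exact hN (Equiv.symm_apply_apply _ _).symm
        · intro h'; exact absurd (Finset.mem_univ _) h'
      simp only [h4]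
      rw [Finset.sum_const, Finset.card_univ]
      simp
    have hrow : ∑ N : F.Om m, ∑ L, adjm F m M L * adjm F m L N = th (Nat.card K) m E 0 * th (Nat.card K) m E 0 := by
      rw [Finset.sum_comm]
      simp only [← Finset.mul_sum, op_one hP, ← Finset.sum_mul]
    have hrow1 := op_one hP M
    rw [← Finset.add_sum_erase _ _ (Finset.mem_univ M)] at htot hrow hrow1
    rw [Finset.sum_congr rfl fun N hN => hoff M N (Finset.ne_of_mem_erase hN).symm, ← Finset.mul_sum,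
      Finset.sum_add_distrib, ← Finset.mul_sum, ← Finset.mul_sum] at htot
    unfold aP
    linear_combination htot - cP K m * ((Nat.card K : ℤ) - 1) * hrow - cP K m * ((E : ℤ) - 1) * hrow1
  · rw [if_neg hMN, mul_zero, zero_add, hoff M N hMN]

theorem tp_op (hQ : Quad F) (hP : Pol F m E) {g : Pz F → F.iso}
    (hg : ∀ p x, (g p : V ≃ₗ[K] V) x = sg F p.1.1 p.1.2 x) :
    ∑ v, permOp (omHom F m (g v)) =
      aeval (op (adjm F m)) ((C (aP F m E) + C (cP K m) * (C ((Nat.card K : ℤ) - 1) * Polynomial.X ^ 2 +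
        C ((E : ℤ) - 1) * Polynomial.X) : ℤ[X]).map (Int.castRingHom ℂ)) := by
  classical
  rw [← op_quad]
  exact sum_permOp _ _ fun M N => tp_matrix hQ hP hg M N

theorem tp_conj {g : Pz F → F.iso} (hg : ∀ p x, (g p : V ≃ₗ[K] V) x = sg F p.1.1 p.1.2 x) (n : F.iso) :
    ∃ π : Equiv.Perm (Pz F), ∀ v, n * g v * n⁻¹ = g (π v) := by
  let f : F.iso → Pz F → Pz F := fun n p => ⟨((n : V ≃ₗ[K] V) p.1.1, (n : V ≃ₗ[K] V) p.1.2),
    (LinearEquiv.map_ne_zero_iff _).2 p.2.1, ⟨(F.iso_Q n _).trans p.2.2.1.1, (F.iso_B n _ _).trans p.2.2.1.2⟩, (F.iso_B n _ _).trans p.2.2.2⟩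
  refine ⟨⟨f n, f n⁻¹, fun v => Subtype.ext (Prod.ext ?_ ?_), fun v => Subtype.ext (Prod.ext ?_ ?_)⟩, fun v => ?_⟩
  · exact (n : V ≃ₗ[K] V).symm_apply_apply v.1.1
  · exact (n : V ≃ₗ[K] V).symm_apply_apply v.1.2
  · exact (n : V ≃ₗ[K] V).apply_symm_apply v.1.1
  · exact (n : V ≃ₗ[K] V).apply_symm_apply v.1.2
  · apply Subtype.ext
    apply LinearEquiv.ext
    intro x
    obtain ⟨x, rfl⟩ := (n : V ≃ₗ[K] V).surjective x
    change (n : V ≃ₗ[K] V) ((g v : V ≃ₗ[K] V) ((n : V ≃ₗ[K] V).symm ((n : V ≃ₗ[K] V) x))) =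
      (g (f n v) : V ≃ₗ[K] V) ((n : V ≃ₗ[K] V) x)
    rw [LinearEquiv.symm_apply_apply, hg, hg, sg_apply, sg_apply, map_sub, map_add, map_smul, map_smul]
    change _ = (n : V ≃ₗ[K] V) x + F.B ((n : V ≃ₗ[K] V) x) ((n : V ≃ₗ[K] V) v.1.1) • (n : V ≃ₗ[K] V) v.1.2 -
      (F.B ((n : V ≃ₗ[K] V) x) ((n : V ≃ₗ[K] V) v.1.2) + F.Q ((n : V ≃ₗ[K] V) v.1.2) *
        F.B ((n : V ≃ₗ[K] V) x) ((n : V ≃ₗ[K] V) v.1.1)) • (n : V ≃ₗ[K] V) v.1.1
    rw [F.iso_B, F.iso_B, F.iso_Q]

/-- **test with the radicals of the point stabilizers** -/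
theorem sep_tp {S : Type w} [Group S] [Fintype S] [MulAction S (F.Om m)] {N : Subgroup F.iso} {φ : N →* S}
    (hQ : Quad F) (hP : Pol F m E) (hA : Act F m N φ)
    (hg : ∀ p ∈ Pz F, ∃ g : F.iso, g ∈ N ∧ ∀ x, (g : V ≃ₗ[K] V) x = sg F p.1 p.2 x) {q : ℕ} {a b : ℤ}
    (hq : ¬ (q : ℤ) ∣ cP K m * ((a - b) * (((Nat.card K : ℤ) - 1) * (a + b) + ((E : ℤ) - 1)))) :
    Sep q (fnRep S (F.Om m)) (op (adjm F m)) a b := by
  choose g hgN hg using fun v : Pz F => hg v v.2
  refine sep_of_fam (s := fun v : Pz F => φ ⟨g v, hgN v⟩) (fun s => ?_)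
    (C (aP F m E) + C (cP K m) * (C ((Nat.card K : ℤ) - 1) * Polynomial.X ^ 2 + C ((E : ℤ) - 1) * Polynomial.X)) ?_ ?_
  · obtain ⟨n, rfl⟩ := hA.surj s
    obtain ⟨π, hπ⟩ := tp_conj hg (n : F.iso)
    refine ⟨π, fun v => ?_⟩
    rw [← map_mul, ← map_inv, ← map_mul]
    congr 1
    exact Subtype.ext (hπ v)
  · rw [← tp_op hQ hP hg]
    refine Finset.sum_congr rfl fun v _ => ?_
    rw [fnRep_eq_permOp, hA.perm]
  · simp only [eval_add, eval_C, eval_mul, eval_X, eval_pow]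
    have : aP F m E + cP K m * (((Nat.card K : ℤ) - 1) * a ^ 2 + ((E : ℤ) - 1) * a) -
        (aP F m E + cP K m * (((Nat.card K : ℤ) - 1) * b ^ 2 + ((E : ℤ) - 1) * b)) =
        cP K m * ((a - b) * (((Nat.card K : ℤ) - 1) * (a + b) + ((E : ℤ) - 1))) := by ring
    rwa [this]

end Cfsg.Agent.H47.DP
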