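import Cfsg.Agent.H47.DP.Edge
import Cfsg.Agent.H47.DP.Sum

/-!
# S4612: transvections and reflections on the dual polar graph (helper47)

`tv κ v : x ↦ x + κ B(x,v) v` for `v` with `Q v = τ`, `T(-κ⁻¹) = τ`.
-/

set_option autoImplicit false
set_option linter.unusedSectionVars false

open Cfsg

namespace Cfsg.Agent.H47.DP

open Cfsg.Agent.H477.HC Cfsg.Agent.H477.HC.CForm Cfsg.Agent.H53.HC Module

universe u v

variable {K : Type u} [Field K] {V : Type v} [AddCommGroup V] [Module K V] [FiniteDimensional K V] {F : CForm K V}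

/-- `x ↦ x + κ B(x,v) v` -/
def tv (F : CForm K V) (κ : K) (v : V) : V →ₗ[K] V where
  toFun x := x + (κ * F.B x v) • v
  map_add' x y := by rw [F.B_add_left]; module
  map_smul' a x := by rw [F.B_smul_left, RingHom.id_apply]; module

theorem tv_apply (κ : K) (v x : V) : tv F κ v x = x + (κ * F.B x v) • v := rfl

/-- the vectors `v` with `Q v = τ` -/
def Sv (F : CForm K V) (τ : K) : Set V := {v | v ≠ 0 ∧ F.Q v = τ}

variable {m E : ℕ} {κ τ : K}

theorem adj_of_map {N M : Submodule K V} (hN : N ∈ F.Om m) (hM : M ∈ F.Om m) {v : V}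
    (h : N.map (tv F κ v) = M) (hne : N ≠ M) : Adj m N M := by
  -- `N ∩ v^⊥` has codimension at most one and lies in `M`
  let φ : N →ₗ[K] K := (F.lf v).comp N.subtype
  have h1 : (LinearMap.ker φ).map N.subtype ≤ N ⊓ M := by
    rintro _ ⟨x, hx, rfl⟩
    refine ⟨x.2, ?_⟩
    rw [← h]
    refine ⟨x, x.2, ?_⟩
    have hx' : F.B x v = 0 := hx
    rw [tv_apply, hx', mul_zero, zero_smul, add_zero]
    rfl
  have h2 : finrank K (LinearMap.ker φ) + 1 ≥ m := by
    have h3 := LinearMap.finrank_range_add_finrank_ker φ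
    have h4 : finrank K (LinearMap.range φ) ≤ 1 := by
      have := Submodule.finrank_le (LinearMap.range φ)
      rwa [finrank_self] at this
    rw [hN.2] at h3
    omega
  have h5 : finrank K ((LinearMap.ker φ).map N.subtype) = finrank K (LinearMap.ker φ) :=
    (Submodule.equivMapOfInjective _ N.subtype_injective _).finrank_eq.symm
  have h6 := Submodule.finrank_mono h1
  have h7 : finrank K (N ⊓ M : Submodule K V) < m := by
    rw [← hN.2]
    refine Submodule.finrank_lt_finrank_of_lt (lt_of_le_of_ne inf_le_left fun h0 => hne ?_)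
    exact Submodule.eq_of_le_of_finrank_eq (inf_eq_left.1 h0) (by rw [hM.2, hN.2])
  unfold Adj
  omega

variable [Finite V] [Finite K]

/-- the number of `v` moving `N` to its neighbour `M` -/
theorem card_adj (hP : Pol F m E) (hκ : κ ≠ 0) (hT : F.T (-κ⁻¹) = τ)
    (hg : ∀ v ∈ Sv F τ, ∃ g : F.iso, ∀ x, (g : V ≃ₗ[K] V) x = tv F κ v x) {N M : Submodule K V} (hN : N ∈ F.Om m)
    (hM : M ∈ F.Om m) (hadj : Adj m N M) :
    Nat.card {v : V // v ∈ Sv F τ ∧ N.map (tv F κ v) = M} = (Nat.card K - 1) * Nat.card K ^ (m - 1) := by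
  classical
  obtain ⟨H, hHd⟩ : ∃ H, H = N ⊓ M := ⟨_, rfl⟩
  have hHf : finrank K H + 1 = m := by rw [hHd]; exact hadj
  have hHN : H ≤ N := by rw [hHd]; exact inf_le_left
  have hHM : H ≤ M := by rw [hHd]; exact inf_le_right
  obtain ⟨x, hxN, hxM⟩ : ∃ x ∈ N, x ∉ M := by
    by_contra hcon
    push Not at hcon
    have : N ≤ M := hcon
    unfold Adj at hadj
    rw [inf_eq_left.2 this, hN.2] at hadj
    omega
  have hxH : x ∉ H := fun h => hxM (hHM h)
  have hNx : H ⊔ K ∙ x = N := by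
    refine Submodule.eq_of_le_of_finrank_eq (sup_le hHN ((Submodule.span_singleton_le_iff_mem _ _).2 hxN)) ?_
    rw [finrank_sup_span hxH, hN.2, hHf]
  have hx := hN.1.sing hxN
  obtain ⟨y, hyM, hxy⟩ : ∃ y ∈ M, F.B x y = 1 := by
    by_contra hcon
    push Not at hcon
    apply hxM
    refine mem_of_perp hP.max hM hx fun w hw => ?_
    by_contra h0
    refine hcon (F.σ (F.B x w)⁻¹ • w) (M.smul_mem _ hw) ?_
    rw [F.B_smul_right, F.σσ, inv_mul_cancel₀ h0]
  have hyN : y ∉ N := fun h => one_ne_zero (hxy.symm.trans (hN.1.2 x hxN y h))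
  have hyH : y ∉ H := fun h => hyN (hHN h)
  have hMy : H ⊔ K ∙ y = M := by
    refine Submodule.eq_of_le_of_finrank_eq (sup_le hHM ((Submodule.span_singleton_le_iff_mem _ _).2 hyM)) ?_
    rw [finrank_sup_span hyH, hM.2, hHf]
  have hy := hM.1.sing hyM
  -- the form on `α x + β y + h`
  have hB : ∀ (α β : K) (h : V), h ∈ H → F.B x (α • x + β • y + h) = F.σ β := by
    intro α β h hh
    rw [F.B_add_right, F.B_add_right, F.B_smul_right, F.B_smul_right, hx.2, hxy, hN.1.2 x hxN h (hHN hh)]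
    ring
  have hQ : ∀ (α β : K) (h : V), h ∈ H → F.Q (α • x + β • y + h) = F.T (α * F.σ β) := by
    intro α β h hh
    rw [F.Q_add, F.Q_add, F.Q_smul, F.Q_smul, hx.1, hy.1, hN.1.1 h (hHN hh), F.B_smul_left, F.B_smul_right, hxy,
      F.B_add_left, F.B_smul_left, F.B_smul_left, hN.1.2 x hxN h (hHN hh), hM.1.2 y hyM h (hHM hh)]
    simp
  have hκi : -κ⁻¹ ≠ 0 := neg_ne_zero.2 (inv_ne_zero hκ)
  -- `σ` is injective
  have hσ0 : ∀ β, F.σ β = 0 → β = 0 := fun β h => by
    have := congrArg F.σ h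
    rwa [F.σσ, map_zero] at this
  have hfwd : ∀ v : V, v ∈ Sv F τ → N.map (tv F κ v) = M → ∃ α : K, α ≠ 0 ∧ ∃ h ∈ H,
      v = α • x + F.σ (-κ⁻¹ * α⁻¹) • y + h := by
    intro v hv hNM
    have h1 : tv F κ v x ∈ M := by rw [← hNM]; exact ⟨x, hxN, rfl⟩
    rw [tv_apply] at h1
    have h2 : F.B x v ≠ 0 := by
      intro h0
      rw [h0, mul_zero, zero_smul, add_zero] at h1
      exact hxM h1
    have h3 : κ * F.B x v ≠ 0 := mul_ne_zero hκ h2
    have h4 : (κ * F.B x v)⁻¹ • (x + (κ * F.B x v) • v) ∈ M := M.smul_mem _ h1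
    rw [← hMy] at h4
    obtain ⟨h, hh, w, hw, he⟩ := Submodule.mem_sup.1 h4
    obtain ⟨β, rfl⟩ := Submodule.mem_span_singleton.1 hw
    rw [smul_add, smul_smul, inv_mul_cancel₀ h3, one_smul] at he
    have hv' : v = (-(κ * F.B x v)⁻¹) • x + β • y + h := by
      have h9 : v = h + β • y - (κ * F.B x v)⁻¹ • x := by rw [he]; abel
      refine h9.trans ?_
      module
    refine ⟨-(κ * F.B x v)⁻¹, neg_ne_zero.2 (inv_ne_zero h3), h, hh, ?_⟩
    have h5 : F.B x v = F.σ β := by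
      conv_lhs => rw [hv']
      exact hB _ _ _ hh
    have h6 : F.σ (-κ⁻¹ * (-(κ * F.B x v)⁻¹)⁻¹) = β := by
      rw [← F.σσ β, ← h5]
      congr 1
      field_simp
    rw [h6]
    exact hv'
  have hbwd : ∀ (α : K) (h : V), α ≠ 0 → h ∈ H → (α • x + F.σ (-κ⁻¹ * α⁻¹) • y + h) ∈ Sv F τ ∧
      N.map (tv F κ (α • x + F.σ (-κ⁻¹ * α⁻¹) • y + h)) = M := by
    intro α h hα hh
    obtain ⟨v, hv⟩ : ∃ v, v = α • x + F.σ (-κ⁻¹ * α⁻¹) • y + h := ⟨_, rfl⟩
    have h1 : F.B x v = -κ⁻¹ * α⁻¹ := by rw [hv, hB _ _ _ hh, F.σσ]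
    rw [← hv]
    have hvs : v ∈ Sv F τ := by
      refine ⟨?_, ?_⟩
      · intro h0
        rw [h0, F.B_zero_right] at h1
        exact mul_ne_zero hκi (inv_ne_zero hα) h1.symm
      · rw [hv, hQ _ _ _ hh, F.σσ, ← hT]
        congr 1
        field_simp
    refine ⟨hvs, ?_⟩
    have hle : N.map (tv F κ v) ≤ M := by
      rw [← hNx, Submodule.map_sup, Submodule.map_span, Set.image_singleton]
      refine sup_le ?_ ((Submodule.span_singleton_le_iff_mem _ _).2 ?_)
      · rintro _ ⟨h', hh', rfl⟩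
        have h2 : F.B h' v = 0 := by
          rw [hv, F.B_add_right, F.B_add_right, F.B_smul_right, F.B_smul_right, hN.1.2 h' (hHN hh') x hxN,
            hM.1.2 h' (hHM hh') y hyM, hN.1.2 h' (hHN hh') h (hHN hh)]
          ring
        rw [tv_apply, h2, mul_zero, zero_smul, add_zero]
        exact hHM hh'
      · rw [tv_apply, h1]
        have h3 : κ * (-κ⁻¹ * α⁻¹) = -α⁻¹ := by field_simp
        rw [h3]
        have h4 : x + (-α⁻¹) • v = (-α⁻¹) • (F.σ (-κ⁻¹ * α⁻¹) • y + h) := by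
          have h5 : x = α⁻¹ • (α • x) := by rw [smul_smul, inv_mul_cancel₀ hα, one_smul]
          conv_lhs => rw [h5, hv]
          module
        rw [h4]
        exact M.smul_mem _ (M.add_mem (M.smul_mem _ hyM) (hHM hh))
    have hinj : Function.Injective (tv F κ v) := by
      obtain ⟨g, hg'⟩ := hg v hvs
      intro a b hab
      rw [← hg', ← hg'] at hab
      exact (g : V ≃ₗ[K] V).injective hab
    refine Submodule.eq_of_le_of_finrank_eq hle ?_
    rw [← (Submodule.equivMapOfInjective _ hinj N).finrank_eq, hN.2, hM.2]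
  have hcH : Nat.card H = Nat.card K ^ (m - 1) := by
    rw [Module.natCard_eq_pow_finrank (K := K) (V := H)]
    congr 1
    omega
  rw [← hcH, ← Nat.card_units, ← Nat.card_prod]
  symm
  refine Nat.card_congr (Equiv.ofBijective (fun p : Kˣ × H =>
    (⟨(p.1 : K) • x + F.σ (-κ⁻¹ * (p.1 : K)⁻¹) • y + p.2, hbwd p.1 p.2 p.1.ne_zero p.2.2⟩ :
      {v : V // v ∈ Sv F τ ∧ N.map (tv F κ v) = M})) ⟨?_, ?_⟩)
  · rintro ⟨α, h⟩ ⟨α', h'⟩ he
    have he' := congrArg Subtype.val he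
    change (α : K) • x + F.σ (-κ⁻¹ * (α : K)⁻¹) • y + (h : V) = (α' : K) • x + F.σ (-κ⁻¹ * (α' : K)⁻¹) • y + (h' : V) at he'
    have h1 := congrArg (F.B x) he'
    rw [hB _ _ _ h.2, hB _ _ _ h'.2, F.σσ, F.σσ] at h1
    have h2 : (α : K) = α' := inv_injective (mul_left_cancel₀ hκi h1)
    rw [h2] at he'
    exact Prod.ext (Units.ext h2) (Subtype.ext (add_left_cancel he'))
  · rintro ⟨v, hv, hNM⟩
    obtain ⟨α, hα, h, hh, hve⟩ := hfwd v hv hNM
    exact ⟨(Units.mk0 α hα, ⟨h, hh⟩), Subtype.ext hve.symm⟩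

end Cfsg.Agent.H47.DP
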